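import Mathlib
import Cfsg.Prelude.Def_Local
import Cfsg.Agent.Lib.Helper22.Basic
import Cfsg.Agent.H12.Cores
import Cfsg.Agent.S0029

/-! If `C(O_p(Y)) ≤ O_p(Y)`, then `Y / O_p(Y)` acts faithfully on the Frattini quotient of
`O_p(Y)`. -/

set_option autoImplicit false

namespace Cfsg.Agent.Lib.Helper22

open Subgroup Cfsg Cfsg.Agent.H12

theorem frattini_eq_comap_equiv {X R : Type*} [Group X] [Group R] (e : X ≃* R) :
    frattini X = (frattini R).comap e.toMonoidHom := by
  apply le_antisymm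
  · exact frattini_le_comap_frattini_of_surjective (φ := e.toMonoidHom) e.surjective
  · have h := frattini_le_comap_frattini_of_surjective (φ := e.symm.toMonoidHom) e.symm.surjective
    intro x hx
    have h1 := h (mem_comap.mp hx)
    rw [mem_comap] at h1
    simpa using h1

theorem mem_pCore_of_trivial_on_frattini {Y : Type*} [Group Y] [Finite Y] (p : ℕ) [Fact p.Prime]
    (hC : centralizer (pCore p Y : Set Y) ≤ pCore p Y) (y : Y)
    (hy : ∀ x ∈ pCore p Y, y * x * y⁻¹ * x⁻¹ ∈ (frattini (pCore p Y)).map (pCore p Y).subtype) :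
    y ∈ pCore p Y := by
  have hp : p.Prime := Fact.out
  set R := pCore p Y with hR
  have hRn : R.Normal := inferInstance
  have hRp : IsPGroup p R := pCore_isPGroup p Y
  set Φ : Subgroup Y := (frattini R).map R.subtype with hΦ
  have hΦn : Φ.Normal := inferInstance
  let D : Subgroup Y :=
    { carrier := {y | ∀ x ∈ R, y * x * y⁻¹ * x⁻¹ ∈ Φ}
      one_mem' := by
        intro x _
        simpa using Φ.one_mem
      mul_mem' := by
        intro a b ha hb x hx
        have h1 := hΦn.conj_mem _ (hb x hx) a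
        have h2 := ha x hx
        have h3 : a * b * x * (a * b)⁻¹ * x⁻¹ =
            a * (b * x * b⁻¹ * x⁻¹) * a⁻¹ * (a * x * a⁻¹ * x⁻¹) := by group
        rw [h3]
        exact Φ.mul_mem h1 h2
      inv_mem' := by
        intro a ha x hx
        have hx' : a⁻¹ * x * a ∈ R := by
          have := hRn.conj_mem x hx a⁻¹
          simpa using this
        have h1 := Φ.inv_mem (ha _ hx')
        have h2 : (a * (a⁻¹ * x * a) * a⁻¹ * (a⁻¹ * x * a)⁻¹)⁻¹ = a⁻¹ * x * a⁻¹⁻¹ * x⁻¹ := by group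
        rwa [h2] at h1 }
  have hDmem : ∀ z : Y, z ∈ D ↔ ∀ x ∈ R, z * x * z⁻¹ * x⁻¹ ∈ Φ := fun z => Iff.rfl
  have hDn : D.Normal := by
    constructor
    intro a ha t
    rw [hDmem]
    intro x hx
    have hx' : t⁻¹ * x * t ∈ R := by
      have := hRn.conj_mem x hx t⁻¹
      simpa using this
    have h1 := hΦn.conj_mem _ (ha _ hx') t
    have h2 : t * (a * (t⁻¹ * x * t) * a⁻¹ * (t⁻¹ * x * t)⁻¹) * t⁻¹ =
        t * a * t⁻¹ * x * (t * a * t⁻¹)⁻¹ * x⁻¹ := by group
    rwa [h2] at h1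
  have hDp : IsPGroup p D := by
    rintro ⟨d, hd⟩
    obtain ⟨a, b, hab, ⟨k, hk⟩, hb⟩ := exists_pow_decomp p hp d (orderOf_pos d)
    have hdb : d ^ b ∈ D := D.pow_mem hd b
    obtain ⟨m, hm⟩ := IsPGroup.iff_card.mp hRp
    have h1 := Cfsg.Agent.S0029.result (zpowers (d ^ b)) R
      (by rw [normalizer_eq_top]; exact le_top)
      (by
        rw [Nat.card_zpowers]
        have h2 : Nat.card (frattini R) ∣ p ^ m := hm ▸ card_subgroup_dvd_card (frattini R)
        exact Nat.Coprime.coprime_dvd_right h2 (Nat.Coprime.pow_right m hb))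
      (by
        intro z hz x hx
        exact (zpowers_le.mpr hdb) hz x hx)
    have h2 : d ^ b ∈ R := hC (h1 (mem_zpowers _))
    obtain ⟨j, hj⟩ := hRp ⟨d ^ b, h2⟩
    have h3 : (d ^ b) ^ p ^ j = 1 := congrArg Subtype.val hj
    have h4 : orderOf (d ^ b) ∣ p ^ j := orderOf_dvd_of_pow_eq_one h3
    have h5 : orderOf (d ^ b) = 1 :=
      Nat.Coprime.eq_one_of_dvd (Nat.Coprime.pow_right j hb) h4
    rw [orderOf_eq_one_iff] at h5
    rw [h5, mul_one] at hab
    refine ⟨k, Subtype.ext ?_⟩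
    show d ^ p ^ k = 1
    rw [← hk, hab, pow_orderOf_eq_one]
  exact le_pCore hDn hDp (hy : y ∈ D)

end Cfsg.Agent.Lib.Helper22
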