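import Mathlib
import Cfsg.Prelude.Def_Solvable
import Cfsg.Agent.H12.Cores
import Cfsg.Agent.S0055
import Cfsg.Agent.Tr.Frobenius

/-! Sections without an element whose order is the exponent. -/

set_option autoImplicit false

namespace Cfsg.Agent.Lib.Helper22

open Subgroup Cfsg Cfsg.Agent.H12
open scoped commutatorElement

theorem exists_orderOf_eq_exponent_of_isPGroup {K : Type*} [Group K] [Finite K] (p : ℕ)
    [Fact p.Prime] (hK : IsPGroup p K) : ∃ k : K, orderOf k = Monoid.exponent K := by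
  have hp : p.Prime := Fact.out
  obtain ⟨k, hk⟩ := Finite.exists_max (fun x : K => orderOf x)
  refine ⟨k, Nat.dvd_antisymm (Monoid.order_dvd_exponent k) ?_⟩
  apply Monoid.exponent_dvd_of_forall_pow_eq_one
  intro x
  obtain ⟨a, ha⟩ := hK k
  obtain ⟨b, hb⟩ := hK x
  obtain ⟨a', -, ha'⟩ := (Nat.dvd_prime_pow hp).mp (orderOf_dvd_of_pow_eq_one ha)
  obtain ⟨b', -, hb'⟩ := (Nat.dvd_prime_pow hp).mp (orderOf_dvd_of_pow_eq_one hb)
  have h1 : p ^ b' ≤ p ^ a' := by rw [← ha', ← hb']; exact hk x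
  have h2 : b' ≤ a' := (Nat.pow_le_pow_iff_right hp.one_lt).mp h1
  rw [ha']
  apply orderOf_dvd_iff_pow_eq_one.mp
  rw [hb']
  exact pow_dvd_pow p h2

theorem no_exponent_element {K : Type*} [Group K] [Finite K] (p q : ℕ) [Fact p.Prime]
    (hq : q.Prime) (hpq : q ≠ p) (V : Subgroup K) [hVn : V.Normal] (hVp : IsPGroup p V)
    (hV1 : V ≠ ⊥) (hq' : ∀ x : K, x ^ q ∈ V) (hVt : V ≠ ⊤)
    (hfpf : ∀ k : K, k ∉ V → ∀ v ∈ V, k * v = v * k → v = 1) :
    pPrimeCore p K = ⊥ ∧ ¬ ∃ k : K, orderOf k = Monoid.exponent K := by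
  have hp : p.Prime := Fact.out
  obtain ⟨w, hw⟩ := (Subgroup.ne_bot_iff_exists_ne_one (H := V)).mp hV1
  obtain ⟨v, hv, hv1⟩ : ∃ v : K, v ∈ V ∧ v ≠ 1 := ⟨(w : K), w.2, fun h => hw (Subtype.ext h)⟩
  obtain ⟨x, hx⟩ : ∃ x : K, x ∉ V := by
    by_contra h
    push Not at h
    exact hVt (eq_top_iff.mpr (fun y _ => h y))
  have hmem : ∀ (u : K) (a : ℕ), u ^ p ^ a = 1 → u ∈ V := by
    intro u a hu
    have hcop : (p ^ a).Coprime q := Nat.Coprime.pow_left a ((Nat.coprime_primes hp hq).mpr hpq.symm)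
    have hb : ((p ^ a : ℕ) : ℤ) * Nat.gcdA (p ^ a) q + (q : ℤ) * Nat.gcdB (p ^ a) q = 1 := by
      have := Nat.gcd_eq_gcd_ab (p ^ a) q
      rw [hcop.gcd_eq_one] at this
      exact_mod_cast this.symm
    have h1 : u = (u ^ p ^ a) ^ Nat.gcdA (p ^ a) q * (u ^ q) ^ Nat.gcdB (p ^ a) q := by
      rw [← zpow_natCast u (p ^ a), ← zpow_natCast u q, ← zpow_mul, ← zpow_mul, ← zpow_add, hb,
        zpow_one]
    rw [h1, hu, one_zpow, one_mul]
    exact V.zpow_mem (hq' u) _
  constructor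
  · rw [eq_bot_iff]
    intro y hy
    rw [mem_bot]
    haveI hMc : (pPrimeCore p K).Characteristic := pPrimeCore_characteristic p K
    have hMn : (pPrimeCore p K).Normal := inferInstance
    have hinf : V ⊓ pPrimeCore p K = ⊥ :=
      inf_eq_bot_of_pGroup_of_coprime hVp (pPrimeCore_coprime p)
    by_cases hyV : y ∈ V
    · have : y ∈ V ⊓ pPrimeCore p K := ⟨hyV, hy⟩
      rwa [hinf, mem_bot] at this
    · exfalso
      apply hv1
      apply hfpf y hyV v hv
      have h1 : y * v * y⁻¹ * v⁻¹ ∈ V ⊓ pPrimeCore p K := by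
        refine ⟨V.mul_mem (hVn.conj_mem v hv y) (V.inv_mem hv), ?_⟩
        have h2 : y * v * y⁻¹ * v⁻¹ = y * (v * y⁻¹ * v⁻¹) := by group
        rw [h2]
        exact mul_mem hy (hMn.conj_mem _ (inv_mem hy) v)
      rw [hinf, mem_bot] at h1
      calc y * v = y * v * y⁻¹ * v⁻¹ * (v * y) := by group
        _ = v * y := by rw [h1, one_mul]
  · rintro ⟨k, hk⟩
    by_cases hkV : k ∈ V
    · obtain ⟨a, ha⟩ := hVp ⟨k, hkV⟩
      have ha' : k ^ p ^ a = 1 := congrArg Subtype.val ha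
      apply hx
      apply hmem x a
      have h1 : Monoid.exponent K ∣ p ^ a := hk ▸ orderOf_dvd_of_pow_eq_one ha'
      obtain ⟨c, hc⟩ := h1
      rw [hc, pow_mul, Monoid.pow_exponent_eq_one, one_pow]
    · have hpk : p ∣ orderOf k := by
        rw [hk]
        obtain ⟨a, ha⟩ := hVp ⟨v, hv⟩
        have ha' : v ^ p ^ a = 1 := congrArg Subtype.val ha
        obtain ⟨j, -, hj⟩ := (Nat.dvd_prime_pow hp).mp (orderOf_dvd_of_pow_eq_one ha')
        have hj0 : j ≠ 0 := by
          rintro rfl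
          rw [pow_zero, orderOf_eq_one_iff] at hj
          exact hv1 hj
        exact (dvd_pow_self p hj0).trans (hj ▸ Monoid.order_dvd_exponent v)
      have h1 : orderOf (k ^ (orderOf k / p)) = p :=
        orderOf_pow_orderOf_div (orderOf_pos k).ne' hpk
      have h2 : k ^ (orderOf k / p) ∈ V := by
        apply hmem _ 1
        rw [pow_one]
        have h5 := pow_orderOf_eq_one (k ^ (orderOf k / p))
        rwa [h1] at h5
      have h3 := hfpf k hkV _ h2 (by rw [← pow_succ', ← pow_succ])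
      rw [h3, orderOf_one] at h1
      exact hp.one_lt.ne h1

theorem exists_bad_quotient {H : Type*} [Group H] [Finite H] (p q : ℕ) [Fact p.Prime]
    (hq : q.Prime) (hpq : q ≠ p) (U : Subgroup H) [hUn : U.Normal] (hUp : IsPGroup p U)
    (hU1 : U ≠ ⊥) (g : H) (hg : (orderOf g).Coprime p) (htop : U ⊔ zpowers g = ⊤)
    (hcomm : ⁅U, zpowers g⁆ = U) (hgq : g ^ q ∈ centralizer (U : Set H)) :
    ∃ (N : Subgroup H) (_ : N.Normal), pPrimeCore p (H ⧸ N) = ⊥ ∧
      ¬ ∃ k : H ⧸ N, orderOf k = Monoid.exponent (H ⧸ N) := by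
  have hp : p.Prime := Fact.out
  -- g ^ q is central
  have hcen : g ^ q ∈ center H := by
    have h1 : (⊤ : Subgroup H) ≤ centralizer {g ^ q} := by
      rw [← htop, sup_le_iff]
      constructor
      · intro u hu
        rw [mem_centralizer_singleton_iff]
        exact (mem_centralizer_iff.mp hgq u hu)
      · rw [zpowers_le, mem_centralizer_singleton_iff, ← pow_succ, ← pow_succ']
    rw [mem_center_iff]
    intro x
    exact mem_centralizer_singleton_iff.mp (h1 (mem_top x))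
  haveI hZn : (zpowers (g ^ q)).Normal := by
    refine ⟨fun z hz x => ?_⟩
    have hz' : z ∈ center H := (zpowers_le.mpr hcen) hz
    have : x * z * x⁻¹ = z := by
      rw [(mem_center_iff.mp hz' x), mul_assoc, mul_inv_cancel, mul_one]
    rwa [this]
  haveI hCn : (⁅U, U⁆).Normal := inferInstance
  let N : Subgroup H := ⁅U, U⁆ ⊔ zpowers (g ^ q)
  haveI hNn : N.Normal := inferInstance
  refine ⟨N, hNn, ?_⟩
  let π : H →* H ⧸ N := QuotientGroup.mk' N
  have hπs : Function.Surjective π := QuotientGroup.mk'_surjective N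
  let V : Subgroup (H ⧸ N) := U.map π
  haveI hVn : V.Normal := hUn.map π hπs
  have hVp : IsPGroup p V := hUp.map π
  have hUg : U ⊓ zpowers g = ⊥ := by
    apply inf_eq_bot_of_pGroup_of_coprime hUp
    rw [Nat.card_zpowers]
    exact hg
  have hker : ∀ x : H, π x = 1 ↔ x ∈ N := fun x => QuotientGroup.eq_one_iff x
  have hV1 : V ≠ ⊥ := by
    intro hV
    apply Cfsg.Agent.Tr.commutator_lt_of_isPGroup hUp hU1
    intro u hu
    have h1 : u ∈ N := by
      rw [← hker]
      have : π u ∈ V := mem_map_of_mem π hu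
      rwa [hV, mem_bot] at this
    have h2 : u ∈ ((⁅U, U⁆ ⊔ zpowers (g ^ q) : Subgroup H) : Set H) := h1
    rw [normal_mul] at h2
    obtain ⟨c, hc, z, hz, rfl⟩ := h2
    have hcU : c ∈ U := commutator_le_left U U hc
    have hzU : z ∈ U := by
      have := U.mul_mem (U.inv_mem hcU) hu
      rwa [inv_mul_cancel_left] at this
    have hzg : z ∈ zpowers g := (zpowers_le.mpr (pow_mem (mem_zpowers g) q)) hz
    have : z ∈ U ⊓ zpowers g := ⟨hzU, hzg⟩
    rw [hUg, mem_bot] at this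
    show c * z ∈ ⁅U, U⁆
    rw [this, mul_one]
    exact hc
  have hVab : ∀ a ∈ V, ∀ b ∈ V, a * b = b * a := by
    rintro _ ⟨a, ha, rfl⟩ _ ⟨b, hb, rfl⟩
    have h1 : ⁅a, b⁆ ∈ N := (le_sup_left : ⁅U, U⁆ ≤ N) (commutator_mem_commutator ha hb)
    rw [← hker, map_commutatorElement, commutatorElement_eq_one_iff_mul_comm] at h1
    exact h1
  haveI hVc : IsMulCommutative V :=
    ⟨⟨fun a b => Subtype.ext (hVab a a.2 b b.2)⟩⟩
  have hVA : ⁅V, zpowers (π g)⁆ = V := by
    rw [← MonoidHom.map_zpowers, ← map_commutator, hcomm]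
  have hdec := Cfsg.Agent.S0055.result (zpowers (π g)) V
    (by rw [normalizer_eq_top]; exact le_top)
    (by
      rw [Nat.card_zpowers]
      obtain ⟨n, hn⟩ := IsPGroup.iff_card.mp hVp
      rw [hn]
      exact Nat.Coprime.pow_right n (Nat.Coprime.coprime_dvd_left (orderOf_map_dvd π g) hg))
  have hfix : V ⊓ centralizer (zpowers (π g) : Set (H ⧸ N)) = ⊥ := by
    have := hdec.1
    rwa [hVA, inf_eq_left.mpr inf_le_left] at this
  have hVt : V ≠ ⊤ := by
    intro hV
    apply hV1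
    rw [← hVA, commutator_eq_bot_iff_le_centralizer]
    intro v hv
    rw [mem_centralizer_iff]
    intro a _
    exact hVab a (hV ▸ mem_top a) v hv
  have hdecomp : ∀ h : H, ∃ u ∈ U, ∃ i : ℤ, h = u * g ^ i := by
    intro h
    have h1 : h ∈ ((U ⊔ zpowers g : Subgroup H) : Set H) := by
      rw [htop]; exact mem_top h
    rw [normal_mul] at h1
    obtain ⟨u, hu, z, hz, rfl⟩ := h1
    obtain ⟨i, rfl⟩ := mem_zpowers_iff.mp hz
    exact ⟨u, hu, i, rfl⟩
  have hπgq : π g ^ q = 1 := by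
    rw [← map_pow, hker]
    exact (le_sup_right : zpowers (g ^ q) ≤ N) (mem_zpowers _)
  apply no_exponent_element p q hq hpq V hVp hV1 _ hVt
  · -- fixed point freeness
    intro k hk v hv hkv
    obtain ⟨h, rfl⟩ := hπs k
    obtain ⟨u, hu, i, rfl⟩ := hdecomp h
    have hπu : π u ∈ V := mem_map_of_mem π hu
    have hi : ¬ (q : ℤ) ∣ i := by
      rintro ⟨j, rfl⟩
      apply hk
      rw [map_mul, map_zpow, zpow_mul, zpow_natCast, hπgq, one_zpow, mul_one]
      exact hπu
    have h1 : π g ^ i * v = v * π g ^ i := by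
      rw [map_mul, map_zpow, mul_assoc, ← mul_assoc v, ← hVab _ hπu v hv, mul_assoc] at hkv
      exact mul_left_cancel hkv
    have hcop : IsCoprime i (q : ℤ) := by
      rw [isCoprime_comm]
      exact ((Nat.prime_iff_prime_int.mp hq).coprime_iff_not_dvd).mpr hi
    obtain ⟨a, b, hab⟩ := hcop
    have h2 : π g = (π g ^ i) ^ a := by
      have : π g = (π g ^ i) ^ a * (π g ^ (q : ℤ)) ^ b := by
        rw [← zpow_mul, ← zpow_mul, ← zpow_add, mul_comm i a, mul_comm (q : ℤ) b, hab, zpow_one]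
      rw [zpow_natCast, hπgq, one_zpow, mul_one] at this
      exact this
    have h3 : Commute (π g) v := by
      rw [h2]
      exact Commute.zpow_left h1 a
    have h4 : v ∈ V ⊓ centralizer (zpowers (π g) : Set (H ⧸ N)) := by
      refine mem_inf.mpr ⟨hv, ?_⟩
      rw [mem_centralizer_iff]
      intro z hz
      obtain ⟨j, rfl⟩ := mem_zpowers_iff.mp hz
      exact (Commute.zpow_left h3 j)
    rwa [hfix, mem_bot] at h4
  · -- q-th powers
    intro x
    obtain ⟨h, rfl⟩ := hπs x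
    obtain ⟨u, hu, i, rfl⟩ := hdecomp h
    have h1 : (u * g ^ i) ^ q * ((g ^ q) ^ i)⁻¹ ∈ U := by
      rw [← QuotientGroup.eq_one_iff]
      have hu1 : ((u : H) : H ⧸ U) = 1 := (QuotientGroup.eq_one_iff u).mpr hu
      rw [QuotientGroup.mk_mul, QuotientGroup.mk_pow, QuotientGroup.mk_mul, hu1, one_mul,
        QuotientGroup.mk_inv, QuotientGroup.mk_zpow, QuotientGroup.mk_zpow, QuotientGroup.mk_pow,
        ← zpow_natCast, ← zpow_natCast, ← zpow_mul, ← zpow_mul, mul_comm, mul_inv_cancel]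
    have h2 : π ((u * g ^ i) ^ q * ((g ^ q) ^ i)⁻¹) = π (u * g ^ i) ^ q := by
      rw [map_mul, map_inv, map_zpow, map_pow π g, hπgq, one_zpow, inv_one, mul_one, map_pow]
    rw [← h2]
    exact mem_map_of_mem π h1

end Cfsg.Agent.Lib.Helper22
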