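import Mathlib

/-! External coprime action: the commutator subgroup `[G, A]`, when it is abelian. -/

set_option autoImplicit false

namespace Cfsg.Agent.Lib.Helper22

open Subgroup

variable {G A : Type*} [Group G] [Group A] [MulDistribMulAction A G]

/-- `[G, A]` for an external action. -/
def extComm (G A : Type*) [Group G] [Group A] [MulDistribMulAction A G] : Subgroup G :=
  Subgroup.closure {y : G | ∃ (a : A) (g : G), y = g⁻¹ * a • g}

theorem mem_extComm (a : A) (g : G) : g⁻¹ * a • g ∈ extComm G A :=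
  Subgroup.subset_closure ⟨a, g, rfl⟩

theorem extComm_normal : (extComm G A).Normal := by
  constructor
  intro w hw h
  unfold extComm at hw
  induction hw using Subgroup.closure_induction with
  | mem y hy =>
    obtain ⟨a, g, rfl⟩ := hy
    have e : h * (g⁻¹ * a • g) * h⁻¹ =
        ((g * h⁻¹)⁻¹ * a • (g * h⁻¹)) * ((h⁻¹)⁻¹ * a • h⁻¹)⁻¹ := by
      rw [smul_mul']
      group
    rw [e]
    exact mul_mem (mem_extComm a _) (inv_mem (mem_extComm a _))
  | one => simp
  | mul x y _ _ hx hy =>
    have e : h * (x * y) * h⁻¹ = (h * x * h⁻¹) * (h * y * h⁻¹) := by group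
    rw [e]
    exact mul_mem hx hy
  | inv x _ hx =>
    have e : h * x⁻¹ * h⁻¹ = (h * x * h⁻¹)⁻¹ := by group
    rw [e]
    exact inv_mem hx

theorem smul_mem_extComm (a : A) {w : G} (hw : w ∈ extComm G A) : a • w ∈ extComm G A := by
  unfold extComm at hw
  induction hw using Subgroup.closure_induction with
  | mem y hy =>
    obtain ⟨b, g, rfl⟩ := hy
    have e : a • (g⁻¹ * b • g) = (a • g)⁻¹ * (a * b * a⁻¹) • (a • g) := by
      rw [smul_mul', smul_inv', smul_smul, smul_smul, inv_mul_cancel_right]
    rw [e]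
    exact mem_extComm _ _
  | one => rw [smul_one]; exact one_mem _
  | mul x y _ _ hx hy => rw [smul_mul']; exact mul_mem hx hy
  | inv x _ hx => rw [smul_inv']; exact inv_mem hx

/-- the action on `[G, A]`. -/
def extAct (a : A) : extComm G A →* extComm G A where
  toFun w := ⟨a • (w : G), smul_mem_extComm a w.2⟩
  map_one' := Subtype.ext (smul_one a)
  map_mul' x y := Subtype.ext (smul_mul' a (x : G) (y : G))

/-- the cocycle `a ↦ g⁻¹ (a • g)`. -/
def extCoc (g : G) (a : A) : extComm G A := ⟨g⁻¹ * a • g, mem_extComm a g⟩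

theorem extCoc_mul (g : G) (a b : A) : extCoc g (a * b) = extCoc g a * extAct a (extCoc g b) := by
  apply Subtype.ext
  show g⁻¹ * (a * b) • g = g⁻¹ * a • g * a • (g⁻¹ * b • g)
  rw [smul_mul', smul_inv', mul_smul]
  group

variable [Finite G] [Finite A]

theorem exists_fixed_mul (hcomm : ∀ x y : extComm G A, x * y = y * x)
    (hcop : (Nat.card A).Coprime (Nat.card G)) (g : G) :
    ∃ s ∈ extComm G A, ∀ a : A, a • (g * s) = g * s := by
  classical
  haveI : Fintype A := Fintype.ofFinite A
  letI : CommGroup (extComm G A) := { (inferInstance : Group (extComm G A)) with mul_comm := hcomm }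
  have hcop' : (Nat.card (extComm G A)).Coprime (Nat.card A) :=
    (Nat.Coprime.coprime_dvd_right (Subgroup.card_subgroup_dvd_card _) hcop).symm
  set t : extComm G A := ∏ b : A, extCoc g b with ht
  obtain ⟨s, hs⟩ := (powCoprime hcop').surjective t
  have hs' : s ^ Nat.card A = t := hs
  have key : ∀ a : A, extAct a t = (extCoc g a)⁻¹ ^ Nat.card A * t := by
    intro a
    rw [ht, map_prod]
    have h1 : ∀ b : A, extAct a (extCoc g b) = (extCoc g a)⁻¹ * extCoc g (a * b) := by
      intro b
      rw [extCoc_mul, inv_mul_cancel_left]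
    rw [Finset.prod_congr rfl (fun b _ => h1 b), Finset.prod_mul_distrib, Finset.prod_const,
      Finset.card_univ, Nat.card_eq_fintype_card]
    congr 1
    exact Fintype.prod_equiv (Equiv.mulLeft a) _ _ (fun b => rfl)
  have key2 : ∀ a : A, extAct a s = (extCoc g a)⁻¹ * s := by
    intro a
    apply (powCoprime hcop').injective
    show (extAct a s) ^ Nat.card A = ((extCoc g a)⁻¹ * s) ^ Nat.card A
    rw [← map_pow, hs', key, mul_pow, hs']
  refine ⟨s, s.2, fun a => ?_⟩
  have h2 : a • (s : G) = (g⁻¹ * a • g)⁻¹ * s := congrArg Subtype.val (key2 a)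
  rw [smul_mul', h2]
  group

theorem eq_one_of_mem_extComm_of_fixed (hcomm : ∀ x y : extComm G A, x * y = y * x)
    (hcop : (Nat.card A).Coprime (Nat.card G)) (w : G) (hw : w ∈ extComm G A)
    (hfix : ∀ a : A, a • w = w) : w = 1 := by
  classical
  haveI : Fintype A := Fintype.ofFinite A
  letI : CommGroup (extComm G A) := { (inferInstance : Group (extComm G A)) with mul_comm := hcomm }
  have hcop' : (Nat.card (extComm G A)).Coprime (Nat.card A) :=
    (Nat.Coprime.coprime_dvd_right (Subgroup.card_subgroup_dvd_card _) hcop).symm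
  let ν : extComm G A →* extComm G A := ∏ a : A, extAct a
  have hν : ∀ x, ν x = ∏ a : A, extAct a x := fun x => MonoidHom.finsetProd_apply _ _ _
  have hgen : ∀ (x : G) (hx : x ∈ extComm G A), ν ⟨x, hx⟩ = 1 := by
    intro x hx
    unfold extComm at hx
    induction hx using Subgroup.closure_induction with
    | mem y hy =>
      obtain ⟨a, g, rfl⟩ := hy
      show ν (extCoc g a) = 1
      rw [hν]
      have h1 : ∀ b : A, extAct b (extCoc g a) = (extCoc g b)⁻¹ * extCoc g (b * a) := by
        intro b
        rw [extCoc_mul, inv_mul_cancel_left]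
      rw [Finset.prod_congr rfl (fun b _ => h1 b), Finset.prod_mul_distrib, Finset.prod_inv_distrib,
        inv_mul_eq_one]
      exact (Fintype.prod_equiv (Equiv.mulRight a) (fun b => extCoc g (b * a))
        (fun b => extCoc g b) (fun b => rfl)).symm
    | one => exact map_one ν
    | mul x y hx hy ihx ihy =>
      have : (⟨x * y, mul_mem hx hy⟩ : extComm G A) = ⟨x, hx⟩ * ⟨y, hy⟩ := rfl
      rw [this, map_mul, ihx, ihy, one_mul]
    | inv x hx ihx =>
      have : (⟨x⁻¹, inv_mem hx⟩ : extComm G A) = (⟨x, hx⟩ : extComm G A)⁻¹ := rfl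
      rw [this, map_inv, ihx, inv_one]
  have h1 := hgen w hw
  rw [hν] at h1
  have h2 : ∀ a : A, extAct a (⟨w, hw⟩ : extComm G A) = ⟨w, hw⟩ := fun a => Subtype.ext (hfix a)
  rw [Finset.prod_congr rfl (fun a _ => h2 a), Finset.prod_const, Finset.card_univ,
    ← Nat.card_eq_fintype_card] at h1
  have h3 : (⟨w, hw⟩ : extComm G A) = 1 := by
    apply (powCoprime hcop').injective
    show (⟨w, hw⟩ : extComm G A) ^ Nat.card A = 1 ^ Nat.card A
    rw [h1, one_pow]
  exact congrArg Subtype.val h3

end Cfsg.Agent.Lib.Helper22
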