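import Mathlib
import Cfsg.Agent.S0058
import Cfsg.Agent.Lib.Helper22.SemiFrob

/-! Generation by centralizers for an external coprime action of a noncyclic abelian group. -/

set_option autoImplicit false

namespace Cfsg.Agent.Lib.Helper22

open Subgroup SemidirectProduct

theorem ext_generation {K E : Type*} [Group K] [Finite K] [Group E] [Finite E] (φ : E →* MulAut K)
    (hcomm : ∀ x y : E, x * y = y * x) (hnc : ¬ IsCyclic E)
    (hcop : (Nat.card E).Coprime (Nat.card K)) (D : Subgroup K)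
    (hD : ∀ e : E, e ≠ 1 → ∀ k, φ e k = k → k ∈ D) : D = ⊤ := by
  haveI := finite_semidirectProduct φ
  haveI := normal_range_inl φ
  set A := (inr : E →* K ⋊[φ] E).range with hA
  set K' := (inl : K →* K ⋊[φ] E).range with hK'
  haveI : IsMulCommutative A := by
    refine ⟨⟨?_⟩⟩
    rintro ⟨_, ⟨x, rfl⟩⟩ ⟨_, ⟨y, rfl⟩⟩
    apply Subtype.ext
    show inr x * inr y = inr y * inr x
    rw [← map_mul, ← map_mul, hcomm x y]
  have hAnc : ¬ IsCyclic A := by
    intro hc
    apply hnc
    exact isCyclic_of_surjective (MonoidHom.ofInjective (inr_injective (φ := φ))).symm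
      (MonoidHom.ofInjective (inr_injective (φ := φ))).symm.surjective
  have hAK : A ≤ normalizer (K' : Set (K ⋊[φ] E)) := by
    rw [normalizer_eq_top]
    exact le_top
  have hcardA : Nat.card A = Nat.card E :=
    (Nat.card_congr (MonoidHom.ofInjective (inr_injective (φ := φ))).toEquiv).symm
  have hcardK : Nat.card K' = Nat.card K :=
    (Nat.card_congr (MonoidHom.ofInjective (inl_injective (φ := φ))).toEquiv).symm
  have key := Cfsg.Agent.S0058.result A K' hAnc hAK (by rw [hcardA, hcardK]; exact hcop)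
  have hle : K' ≤ D.map inl := by
    rw [← key]
    apply iSup₂_le
    rintro a ⟨⟨e, rfl⟩, ha1⟩ x ⟨⟨k, rfl⟩, hx⟩
    have he : e ≠ 1 := by
      rintro rfl
      exact ha1 (map_one _)
    have hx : (inl k : K ⋊[φ] E) ∈ centralizer {(inr e : K ⋊[φ] E)} := hx
    rw [mem_centralizer_singleton_iff] at hx
    have h1 := congrArg SemidirectProduct.left hx
    simp at h1
    exact ⟨k, hD e he k (by first | exact h1 | exact h1.symm), rfl⟩
  rw [eq_top_iff]
  intro k _
  obtain ⟨k', hk', hkk⟩ := hle (⟨k, rfl⟩ : (inl k : K ⋊[φ] E) ∈ K')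
  rw [← inl_injective hkk]
  exact hk'

theorem mem_closure_pair_of_commute {M : Type*} [Group M] {a b : M} (hab : Commute a b) (e : M)
    (he : e ∈ closure ({a, b} : Set M)) : ∃ i j : ℤ, e = a ^ i * b ^ j := by
  induction he using closure_induction with
  | mem x hx =>
    rcases hx with rfl | rfl
    · exact ⟨1, 0, by simp⟩
    · exact ⟨0, 1, by simp⟩
  | one => exact ⟨0, 0, by simp⟩
  | mul x y _ _ hx hy =>
    obtain ⟨i, j, rfl⟩ := hx
    obtain ⟨i', j', rfl⟩ := hy
    refine ⟨i + i', j + j', ?_⟩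
    rw [zpow_add, zpow_add]
    have h1 : Commute (b ^ j) (a ^ i') := (hab.zpow_zpow i' j).symm
    calc a ^ i * b ^ j * (a ^ i' * b ^ j') = a ^ i * (b ^ j * a ^ i') * b ^ j' := by group
      _ = a ^ i * (a ^ i' * b ^ j) * b ^ j' := by rw [h1.eq]
      _ = a ^ i * a ^ i' * (b ^ j * b ^ j') := by group
  | inv x _ hx =>
    obtain ⟨i, j, rfl⟩ := hx
    refine ⟨-i, -j, ?_⟩
    rw [mul_inv_rev, zpow_neg, zpow_neg]
    exact ((hab.zpow_zpow i j).inv_inv).symm.eq

theorem zpow_eq_one_of_dvd {M : Type*} [Group M] {a : M} {p : ℕ} (ha : a ^ p = 1) {i : ℤ}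
    (hi : (p : ℤ) ∣ i) : a ^ i = 1 := by
  obtain ⟨c, rfl⟩ := hi
  rw [zpow_mul, zpow_natCast, ha, one_zpow]

/-- If `a ^ p = 1` and `p ∤ i`, then `a` is a power of `a ^ i`. -/
theorem exists_zpow_zpow_eq {M : Type*} [Group M] {a : M} {p : ℕ} (hp : p.Prime) (ha : a ^ p = 1)
    {i : ℤ} (hi : ¬ (p : ℤ) ∣ i) : ∃ s : ℤ, (a ^ i) ^ s = a := by
  have hcop : IsCoprime i (p : ℤ) :=
    ((Nat.prime_iff_prime_int.1 hp).coprime_iff_not_dvd.2 hi).symm
  obtain ⟨s, t, hst⟩ := hcop
  refine ⟨s, ?_⟩
  have h1 : a ^ (s * i + t * p) = a := by rw [hst, zpow_one]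
  rw [zpow_add, zpow_eq_one_of_dvd ha (Dvd.intro_left t rfl), mul_one, mul_comm, zpow_mul] at h1
  exact h1

/-- Two commuting automorphisms `a`, `b` of exponent `p` of a `p'`-group such that all
`a ^ i * b ^ j` with `p ∤ i` are fixed-point-free: then `b = 1`. -/
theorem eq_one_of_commuting_fpf {K : Type*} [Group K] [Finite K] (p : ℕ) [Fact p.Prime]
    (hpK : ¬ p ∣ Nat.card K) (a b : MulAut K) (hab : Commute a b) (ha : a ^ p = 1) (hb : b ^ p = 1)
    (hfpf : ∀ i j : ℤ, ¬ (p : ℤ) ∣ i → ∀ k, (a ^ i * b ^ j) k = k → k = 1) : b = 1 := by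
  have hp := (Fact.out : p.Prime)
  by_contra hb1
  haveI : Finite (MulAut K) := Finite.of_injective (fun f : MulAut K => (f : K → K))
    DFunLike.coe_injective
  set E := closure ({a, b} : Set (MulAut K)) with hE
  have hrep := fun e he => mem_closure_pair_of_commute hab e he
  have hcommE : ∀ x y : E, x * y = y * x := by
    have hc : IsMulCommutative E := by
      apply Subgroup.isMulCommutative_closure
      rintro s (rfl | rfl) t (rfl | rfl)
      · rfl
      · exact hab.eq
      · exact hab.eq.symm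
      · rfl
    exact fun x y => hc.is_comm.comm x y
  have hpow : ∀ e ∈ E, e ^ p = 1 := by
    intro e he
    obtain ⟨i, j, rfl⟩ := hrep e he
    rw [(hab.zpow_zpow i j).mul_pow, ← zpow_natCast, ← zpow_natCast, ← zpow_mul, ← zpow_mul,
      zpow_eq_one_of_dvd ha (Dvd.intro_left i rfl), zpow_eq_one_of_dvd hb (Dvd.intro_left j rfl),
      one_mul]
  have hEp : IsPGroup p E := fun e => ⟨1, Subtype.ext (by rw [pow_one]; exact hpow e e.2)⟩
  have hcop : (Nat.card E).Coprime (Nat.card K) := by
    obtain ⟨n, hn⟩ := IsPGroup.iff_card.1 hEp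
    rw [hn]
    exact Nat.Coprime.pow_left n ((Nat.Prime.coprime_iff_not_dvd hp).2 hpK)
  have haE : a ∈ E := subset_closure (by simp)
  have hbE : b ∈ E := subset_closure (by simp)
  have hnc : ¬ IsCyclic E := by
    intro hc
    obtain ⟨g, hg⟩ := hc.exists_generator
    have h1 : Nat.card E = orderOf g := (orderOf_eq_card_of_forall_mem_zpowers hg).symm
    have h2 : orderOf g ∣ p := orderOf_dvd_of_pow_eq_one (Subtype.ext (hpow g g.2))
    have h3 : orderOf (⟨b, hbE⟩ : E) = p :=
      orderOf_eq_prime (Subtype.ext hb) (fun h => hb1 (congrArg Subtype.val h))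
    have h4 : p ∣ Nat.card E := h3 ▸ orderOf_dvd_natCard _
    have h5 : Nat.card E = p := Nat.dvd_antisymm (h1 ▸ h2) h4
    have h6 : zpowers (⟨b, hbE⟩ : E) = ⊤ := by
      apply Subgroup.eq_top_of_card_eq
      rw [Nat.card_zpowers, h3, h5]
    have h7 : (⟨a, haE⟩ : E) ∈ zpowers (⟨b, hbE⟩ : E) := h6 ▸ mem_top _
    obtain ⟨j, hj⟩ := mem_zpowers_iff.1 h7
    have h8 : b ^ j = a := by simpa using congrArg Subtype.val hj
    have h9 : ∀ k : K, k = 1 := by
      intro k
      apply hfpf 1 (-j) (by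
        intro hd
        have := Int.natAbs_dvd_natAbs.2 hd
        simp at this
        exact hp.one_lt.ne' this) k
      rw [zpow_one, ← h8, zpow_neg, mul_inv_cancel]
      rfl
    apply hb1
    ext k
    rw [h9 k, map_one]
    rfl
  let D : Subgroup K := MonoidHom.eqLocus b.toMonoidHom (MonoidHom.id K)
  have hD : D = ⊤ := by
    apply ext_generation E.subtype hcommE hnc hcop D
    intro e he1 k hk
    have hk' : (e : MulAut K) k = k := hk
    obtain ⟨i, j, hij⟩ := hrep e e.2
    by_cases hi : (p : ℤ) ∣ i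
    · rw [zpow_eq_one_of_dvd ha hi, one_mul] at hij
      have hj : ¬ (p : ℤ) ∣ j := by
        intro hj
        rw [zpow_eq_one_of_dvd hb hj] at hij
        exact he1 (Subtype.ext hij)
      obtain ⟨s, hs⟩ := exists_zpow_zpow_eq hp hb hj
      rw [← hij] at hs
      have h1 : ∀ s : ℤ, ((e : MulAut K) ^ s) k = k := by
        intro s
        have h2 : k ∈ MulAction.fixedBy K (e : MulAut K) := hk'
        have h3 : (e : MulAut K) ∈ MulAction.stabilizer (MulAut K) k := hk'
        exact (MulAction.stabilizer (MulAut K) k).zpow_mem h3 s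
      have := h1 s
      rw [hs] at this
      exact this
    · have := hfpf i j hi k (by rw [← hij]; exact hk')
      rw [this]
      exact D.one_mem
  apply hb1
  ext k
  have : k ∈ D := hD ▸ mem_top k
  exact this

end Cfsg.Agent.Lib.Helper22
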