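import Mathlib
import Cfsg.Agent.Lib.Helper22.ExtGen

/-! Hughes-Thompson pairs: a proper normal subgroup `H` of `G` such that all elements outside `H`
have `p`-th power `1`. -/

set_option autoImplicit false

namespace Cfsg.Agent.Lib.Helper22

open Subgroup

structure HP (p : ℕ) {G : Type*} [Group G] (H : Subgroup G) : Prop where
  normal : H.Normal
  ne_top : H ≠ ⊤
  pow : ∀ g : G, g ∉ H → g ^ p = 1

namespace HP

variable {p : ℕ} {G : Type*} [Group G] {H : Subgroup G}

theorem exists_not_mem (h : HP p H) : ∃ x : G, x ∉ H := by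
  by_contra hcon
  push Not at hcon
  exact h.ne_top (eq_top_iff.2 (fun x _ => hcon x))

theorem pow_eq_one_of_commute (h : HP p H) {y u : G} (hy : y ∉ H) (hu : u ∈ H)
    (hc : Commute y u) : u ^ p = 1 := by
  have h1 : y * u ∉ H := fun hyu => hy (by simpa using H.mul_mem hyu (H.inv_mem hu))
  have h2 := h.pow _ h1
  rwa [hc.mul_pow, h.pow y hy, one_mul] at h2

theorem eq_one_of_commute [Finite G] (h : HP p H) (hp : p.Prime) {K : Subgroup G} (hKH : K ≤ H)
    (hpK : ¬ p ∣ Nat.card K) {y k : G} (hy : y ∉ H) (hk : k ∈ K) (hc : Commute y k) : k = 1 := by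
  have h1 := h.pow_eq_one_of_commute hy (hKH hk) hc
  have h2 : orderOf k ∣ p := orderOf_dvd_of_pow_eq_one h1
  have h3 : orderOf k ∣ Nat.card K := by
    have := orderOf_dvd_natCard (⟨k, hk⟩ : K)
    rwa [Subgroup.orderOf_mk] at this
  rcases (Nat.dvd_prime hp).1 h2 with h4 | h4
  · exact orderOf_eq_one_iff.1 h4
  · exact absurd (h4 ▸ h3) hpK

theorem subgroup (h : HP p H) (M : Subgroup G) (hM : ¬ M ≤ H) : HP p (H.subgroupOf M) where
  normal := by haveI := h.normal; infer_instance
  ne_top := fun ht => hM (subgroupOf_eq_top.1 ht)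
  pow := fun g hg => Subtype.ext (by
    have := h.pow (g : G) (fun hh => hg (mem_subgroupOf.2 hh))
    simpa using this)

theorem quotient (h : HP p H) (N : Subgroup G) [N.Normal] (hN : N ≤ H) :
    HP p (H.map (QuotientGroup.mk' N)) where
  normal := by
    haveI := h.normal
    exact Subgroup.Normal.map inferInstance _ (QuotientGroup.mk'_surjective N)
  ne_top := by
    intro ht
    apply h.ne_top
    have h1 := congrArg (Subgroup.comap (QuotientGroup.mk' N)) ht
    rw [comap_map_eq, QuotientGroup.ker_mk', comap_top, sup_eq_left.2 hN] at h1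
    exact h1
  pow := by
    intro g hg
    obtain ⟨g, rfl⟩ := QuotientGroup.mk_surjective g
    have h1 : g ∉ H := fun hh => hg (mem_map_of_mem (QuotientGroup.mk' N) hh)
    have := h.pow g h1
    rw [← QuotientGroup.mk_pow, this]
    rfl

theorem zpow_not_mem (h : HP p H) (hp : p.Prime) {y : G} (hy : y ∉ H) {i : ℤ}
    (hi : ¬ (p : ℤ) ∣ i) : y ^ i ∉ H := by
  intro hh
  obtain ⟨s, hs⟩ := exists_zpow_zpow_eq hp (h.pow y hy) hi
  exact hy (hs ▸ H.zpow_mem hh s)

theorem isPGroup_quotient (h : HP p H) [H.Normal] : IsPGroup p (G ⧸ H) := by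
  intro g
  obtain ⟨g, rfl⟩ := QuotientGroup.mk_surjective g
  refine ⟨1, ?_⟩
  rw [pow_one, ← QuotientGroup.mk_pow]
  by_cases hg : g ∈ H
  · exact (QuotientGroup.eq_one_iff _).2 (H.pow_mem hg p)
  · rw [h.pow g hg]; rfl

end HP

theorem exists_orderOf_eq_prime_of_isPGroup {P : Type*} [Group P] [Finite P] [Nontrivial P]
    {p : ℕ} [Fact p.Prime] (hP : IsPGroup p P) : ∃ g : P, orderOf g = p := by
  obtain ⟨n, hn⟩ := IsPGroup.iff_card.1 hP
  have hn0 : n ≠ 0 := by
    rintro rfl
    have := Finite.one_lt_card (α := P)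
    rw [pow_zero] at hn
    omega
  exact exists_prime_orderOf_dvd_card' p (hn ▸ dvd_pow_self p hn0)

namespace HP

variable {p : ℕ} [Fact p.Prime] {G : Type*} [Group G] [Finite G] {H : Subgroup G}

theorem conjNormal_fpf (h : HP p H) (K : Subgroup G) [K.Normal] (hKH : K ≤ H)
    (hpK : ¬ p ∣ Nat.card K) {g : G} (hg : g ∉ H) (k : K) (hk : MulAut.conjNormal g k = k) :
    k = 1 := by
  have h1 : g * (k : G) * g⁻¹ = k := by
    have := congrArg Subtype.val hk
    rwa [MulAut.conjNormal_apply] at this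
  have h2 : Commute g (k : G) := by
    show g * k = k * g
    conv_rhs => rw [← h1]
    group
  exact Subtype.ext (h.eq_one_of_commute Fact.out hKH hpK hg k.2 h2)

/-- the basic step -/
theorem conjNormal_eq_one (h : HP p H) (K : Subgroup G) [K.Normal] (hKH : K ≤ H)
    (hpK : ¬ p ∣ Nat.card K) {y u : G} (hy : y ∉ H)
    (hyu : ∀ i j : ℤ, ¬ (p : ℤ) ∣ i → y ^ i * u ^ j ∉ H)
    (hc : Commute (MulAut.conjNormal y : MulAut K) (MulAut.conjNormal u))
    (hup : (MulAut.conjNormal u : MulAut K) ^ p = 1) : (MulAut.conjNormal u : MulAut K) = 1 := by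
  apply eq_one_of_commuting_fpf p hpK (MulAut.conjNormal y) (MulAut.conjNormal u) hc
    (by rw [← map_pow, h.pow y hy, map_one]) hup
  intro i j hi k hk
  rw [← map_zpow, ← map_zpow, ← map_mul] at hk
  exact h.conjNormal_fpf K hKH hpK (hyu i j hi) k hk

theorem conjNormal_eq_one_iff (K : Subgroup G) [K.Normal] (u : G) :
    (MulAut.conjNormal u : MulAut K) = 1 ↔ u ∈ centralizer (K : Set G) := by
  rw [mem_centralizer_iff]
  constructor
  · intro hu k hk
    have h1 := congrArg (fun f : MulAut K => ((f ⟨k, hk⟩ : K) : G)) hu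
    simp only [MulAut.conjNormal_apply, MulAut.one_apply] at h1
    conv_lhs => rw [← h1]
    group
  · intro hu
    ext k
    rw [MulAut.conjNormal_apply, MulAut.one_apply, ← hu k k.2]
    group

/-- Lemma C: a `p`-subgroup not inside `H`: its intersection with `H` centralizes every normal
`p'`-subgroup contained in `H`. -/
theorem inf_le_centralizer (h : HP p H) (K : Subgroup G) [K.Normal] (hKH : K ≤ H)
    (hpK : ¬ p ∣ Nat.card K) (P : Subgroup G) (hP : IsPGroup p P) (hPH : ¬ P ≤ H) :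
    P ⊓ H ≤ centralizer (K : Set G) := by
  have hp := (Fact.out : p.Prime)
  by_contra hcon
  obtain ⟨u0, hu0, hu0c⟩ := SetLike.not_le_iff_exists.1 hcon
  obtain ⟨y0, hy0P, hy0H⟩ := SetLike.not_le_iff_exists.1 hPH
  let φ : G →* MulAut K := MulAut.conjNormal
  haveI : Finite (MulAut K) := Finite.of_injective (fun f : MulAut K => (f : K → K))
    DFunLike.coe_injective
  have hφu0 : φ u0 ≠ 1 := fun hh => hu0c ((conjNormal_eq_one_iff K u0).1 hh)
  -- the general contradiction
  have key : ∀ y u : G, y ∉ H → u ∈ H → Commute (φ y) (φ u) → orderOf (φ u) = p → False := by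
    intro y u hy hu hc ho
    have h1 : φ u = 1 := by
      apply h.conjNormal_eq_one K hKH hpK hy _ hc (by rw [← ho]; exact pow_orderOf_eq_one _)
      intro i j hi hh
      apply h.zpow_not_mem hp hy hi
      have := H.mul_mem hh (H.inv_mem (H.zpow_mem hu j))
      simpa using this
    rw [h1, orderOf_one] at ho
    exact hp.one_lt.ne ho
  set PP := P.map φ with hPP
  have hPPp : IsPGroup p PP := hP.map φ
  haveI : Nontrivial PP := by
    refine ⟨⟨⟨φ u0, mem_map_of_mem φ hu0.1⟩, 1, ?_⟩⟩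
    intro hh
    exact hφu0 (congrArg Subtype.val hh)
  haveI := hPPp.center_nontrivial
  obtain ⟨z, hz⟩ := exists_orderOf_eq_prime_of_isPGroup (hPPp.to_subgroup (center PP))
  obtain ⟨w, hwP, hw⟩ : ∃ w ∈ P, φ w = ((z : PP) : MulAut K) := (z : PP).2
  have hzo : orderOf (φ w) = p := by
    rw [hw, Subgroup.orderOf_coe, Subgroup.orderOf_coe, hz]
  have hzc : ∀ g ∈ P, Commute (φ g) (φ w) := by
    intro g hg
    have := mem_center_iff.1 z.2 ⟨φ g, mem_map_of_mem φ hg⟩
    have h2 := congrArg Subtype.val this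
    rw [hw]
    exact h2
  by_cases hwH : w ∈ H
  · exact key y0 w hy0H hwH (hzc y0 hy0P) hzo
  · set P0 := (P ⊓ H).map φ with hP0
    have hP0p : IsPGroup p P0 := (hP.to_le inf_le_left).map φ
    haveI : Nontrivial P0 := by
      refine ⟨⟨⟨φ u0, mem_map_of_mem φ hu0⟩, 1, ?_⟩⟩
      intro hh
      exact hφu0 (congrArg Subtype.val hh)
    obtain ⟨b, hb⟩ := exists_orderOf_eq_prime_of_isPGroup hP0p
    obtain ⟨u1, hu1, hu1b⟩ : ∃ u ∈ P ⊓ H, φ u = (b : MulAut K) := b.2
    exact key w u1 hwH hu1.2 (hzc u1 hu1.1).symm (by rw [hu1b, Subgroup.orderOf_coe, hb])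

end HP

end Cfsg.Agent.Lib.Helper22
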