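import Mathlib
import Cfsg.Agent.Lib.Helper22.Hughes1

/-! Hughes-Thompson: the index of `H` is `p` when `G` is not a `p`-group. -/

set_option autoImplicit false

namespace Cfsg.Agent.Lib.Helper22

open Subgroup

namespace HP

variable {p : ℕ} [Fact p.Prime] {G : Type*} [Group G] [Finite G] {H : Subgroup G}

theorem isPGroup_zpowers (h : HP p H) {x : G} (hx : x ∉ H) : IsPGroup p (zpowers x) := by
  rintro ⟨g, hg⟩
  obtain ⟨k, rfl⟩ := mem_zpowers_iff.1 hg
  refine ⟨1, Subtype.ext ?_⟩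
  show (x ^ k) ^ p ^ 1 = 1
  rw [pow_one, ← zpow_natCast, ← zpow_mul, mul_comm, zpow_mul, zpow_natCast, h.pow x hx, one_zpow]

theorem index_eq_of_normal (h : HP p H) (K : Subgroup G) [K.Normal] (hKH : K ≤ H)
    (hpK : ¬ p ∣ Nat.card K) (hK1 : K ≠ ⊥) : H.index = p := by
  have hp := (Fact.out : p.Prime)
  haveI := h.normal
  obtain ⟨x, hx⟩ := h.exists_not_mem
  obtain ⟨P, hxP⟩ := (h.isPGroup_zpowers hx).exists_le_sylow
  have hPH : ¬ (P : Subgroup G) ≤ H := fun hh => hx (hh (hxP (mem_zpowers x)))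
  have hC := h.inf_le_centralizer K hKH hpK P P.2 hPH
  let φ : G →* MulAut K := MulAut.conjNormal
  haveI : Finite (MulAut K) := Finite.of_injective (fun f : MulAut K => (f : K → K))
    DFunLike.coe_injective
  have hφx : φ x ≠ 1 := by
    intro hh
    apply hK1
    rw [eq_bot_iff]
    intro k hk
    have := h.conjNormal_fpf K hKH hpK hx ⟨k, hk⟩ (by
      show φ x ⟨k, hk⟩ = ⟨k, hk⟩
      rw [hh]; rfl)
    exact congrArg Subtype.val this
  set PP := (P : Subgroup G).map φ with hPP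
  have hPPp : IsPGroup p PP := P.2.map φ
  haveI : Nontrivial PP := by
    refine ⟨⟨⟨φ x, mem_map_of_mem φ (hxP (mem_zpowers x))⟩, 1, ?_⟩⟩
    intro hh
    exact hφx (congrArg Subtype.val hh)
  haveI := hPPp.center_nontrivial
  obtain ⟨z, hz⟩ := exists_orderOf_eq_prime_of_isPGroup (hPPp.to_subgroup (center PP))
  obtain ⟨w, hwP, hw⟩ : ∃ w ∈ (P : Subgroup G), φ w = ((z : PP) : MulAut K) := (z : PP).2
  have hzo : orderOf (φ w) = p := by
    rw [hw, Subgroup.orderOf_coe, Subgroup.orderOf_coe, hz]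
  have hzc : ∀ g ∈ (P : Subgroup G), Commute (φ g) (φ w) := by
    intro g hg
    have := mem_center_iff.1 z.2 ⟨φ g, mem_map_of_mem φ hg⟩
    have h2 := congrArg Subtype.val this
    rw [hw]
    exact h2
  have hφw : φ w ≠ 1 := by
    intro hh
    rw [hh, orderOf_one] at hzo
    exact hp.one_lt.ne hzo
  have hwH : w ∉ H := fun hh => hφw ((conjNormal_eq_one_iff K w).2 (hC ⟨hwP, hh⟩))
  set T := zpowers w ⊔ H with hT
  have hPT : (P : Subgroup G) ≤ T := by
    intro y hy
    by_cases hyH : y ∈ H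
    · exact (le_sup_right : H ≤ T) hyH
    by_contra hyT
    apply hφw
    apply h.conjNormal_eq_one K hKH hpK hyH _ (hzc y hy) (by rw [← hzo]; exact pow_orderOf_eq_one _)
    intro i j hi hh
    apply hyT
    obtain ⟨s, hs⟩ := exists_zpow_zpow_eq hp (h.pow y hyH) hi
    rw [← hs]
    apply T.zpow_mem
    have h1 : y ^ i = (y ^ i * w ^ j) * (w ^ j)⁻¹ := by group
    rw [h1]
    exact T.mul_mem ((le_sup_right : H ≤ T) hh)
      (T.inv_mem ((le_sup_left : zpowers w ≤ T) (zpow_mem (mem_zpowers w) j)))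
  have hPHtop : (P : Subgroup G) ⊔ H = ⊤ := by
    rw [← index_eq_one]
    obtain ⟨k, hk⟩ := IsPGroup.iff_card.1 h.isPGroup_quotient
    have h1 : ((P : Subgroup G) ⊔ H).index ∣ p ^ k := by
      rw [← hk]
      exact index_dvd_of_le le_sup_right
    obtain ⟨j, -, hj⟩ := (Nat.dvd_prime_pow hp).1 h1
    have hj0 : j = 0 := by
      by_contra hne
      apply P.not_dvd_index
      exact dvd_trans (hj ▸ dvd_pow_self p hne) (index_dvd_of_le le_sup_left)
    rw [hj, hj0, pow_zero]
  have hTtop : T = ⊤ := top_le_iff.1 (hPHtop ▸ sup_le hPT le_sup_right)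
  have h1 : H.index = H.relIndex (zpowers w) := by
    rw [← relIndex_top_right, ← hTtop, hT, relIndex_sup_right]
  have h2 : H.index ∣ p := by
    rw [h1]
    have h3 : orderOf w = p := orderOf_eq_prime (h.pow w hwH) (fun hh => hwH (hh ▸ H.one_mem))
    rw [← h3, ← Nat.card_zpowers]
    exact relIndex_dvd_card _ _
  rcases (Nat.dvd_prime hp).1 h2 with h3 | h3
  · exact absurd (index_eq_one.1 h3) h.ne_top
  · exact h3

theorem index_eq (h : HP p H) (hG : ¬ IsPGroup p G) : H.index = p := by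
  have hp := (Fact.out : p.Prime)
  haveI := h.normal
  obtain ⟨q, hq, hqp, hqG⟩ : ∃ q : ℕ, q.Prime ∧ q ≠ p ∧ q ∣ Nat.card G := by
    by_contra hcon
    push Not at hcon
    apply hG
    rw [IsPGroup.iff_card]
    refine ⟨_, Nat.eq_prime_pow_of_unique_prime_dvd Nat.card_pos.ne' ?_⟩
    intro d hd hdd
    by_contra hne
    exact hcon d hd hne hdd
  haveI := Fact.mk hq
  obtain ⟨Q⟩ : Nonempty (Sylow q G) := inferInstance
  have hQ1 : (Q : Subgroup G) ≠ ⊥ := Q.ne_bot_of_dvd_card hqG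
  have hQH : (Q : Subgroup G) ≤ H := by
    intro g hg
    by_contra hgH
    have h1 := h.pow g hgH
    obtain ⟨k, hk⟩ := (IsPGroup.iff_orderOf.1 Q.2) ⟨g, hg⟩
    rw [Subgroup.orderOf_mk] at hk
    have h2 : orderOf g ∣ p := orderOf_dvd_of_pow_eq_one h1
    have h3 : orderOf g = 1 := by
      have hcop : (q ^ k).Coprime p := Nat.Coprime.pow_left k ((Nat.coprime_primes hq hp).2 hqp)
      exact Nat.eq_one_of_dvd_coprimes hcop (hk ▸ dvd_rfl) h2
    rw [orderOf_eq_one_iff] at h3
    exact hgH (h3 ▸ H.one_mem)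
  set M := normalizer ((Q : Subgroup G) : Set G) with hM
  have hsup : M ⊔ H = ⊤ := Sylow.normalizer_sup_eq_top' Q hQH
  have hMH : ¬ M ≤ H := fun hh => h.ne_top (by rwa [sup_eq_right.2 hh] at hsup)
  have hpair := h.subgroup M hMH
  have hcard : Nat.card ((Q : Subgroup G).subgroupOf M) = Nat.card (Q : Subgroup G) :=
    Nat.card_congr (subgroupOfEquivOfLe le_normalizer).toEquiv
  have h1 := hpair.index_eq_of_normal ((Q : Subgroup G).subgroupOf M)
    (fun k hk => mem_subgroupOf.2 (hQH (mem_subgroupOf.1 hk)))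
    (by
      rw [hcard]
      obtain ⟨n, hn⟩ := IsPGroup.iff_card.1 Q.2
      rw [hn]
      intro hd
      exact hqp ((Nat.prime_dvd_prime_iff_eq hp hq).1 (hp.dvd_of_dvd_pow hd)).symm)
    (by
      intro hb
      apply hQ1
      rw [← card_eq_one] at hb ⊢
      rw [← hcard, hb])
  have h2 : H.relIndex M = p := h1
  rw [← relIndex_top_right, ← hsup, relIndex_sup_right]
  exact h2

end HP

end Cfsg.Agent.Lib.Helper22
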