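import Mathlib
import Cfsg.Agent.Lib.Helper22.Hughes1

/-! Hughes-Thompson pairs: the averaging lemma. -/

set_option autoImplicit false

namespace Cfsg.Agent.Lib.Helper22

open Subgroup

namespace HP

variable {p : ℕ} [Fact p.Prime] {G : Type*} [Group G] [Finite G] {H : Subgroup G}

theorem pow_mul_inv_mem {Q : Subgroup G} {y : G} (hyQ : y ∈ normalizer (Q : Set G)) {k : G}
    (hk : k ∈ Q) (j : ℕ) : (k * y) ^ j * (y ^ j)⁻¹ ∈ Q := by
  induction j with
  | zero => simp
  | succ j ih =>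
    have h1 : y ^ j * k * (y ^ j)⁻¹ ∈ Q :=
      (mem_normalizer_iff.1 ((normalizer (Q : Set G)).pow_mem hyQ j) k).1 hk
    have e : (k * y) ^ (j + 1) * (y ^ (j + 1))⁻¹
        = ((k * y) ^ j * (y ^ j)⁻¹) * (y ^ j * k * (y ^ j)⁻¹) := by
      rw [pow_succ, pow_succ]
      group
    rw [e]
    exact Q.mul_mem ih h1

theorem le_centralizer_of_averaging (h : HP p H) (W : Subgroup G) [W.Normal]
    (hWc : ∀ a ∈ W, ∀ b ∈ W, a * b = b * a) (hWH : W ≤ H) (Q : Subgroup G) (hQH : Q ≤ H)
    (hcop : (Nat.card Q).Coprime (Nat.card W)) (y : G) (hy : y ∉ H)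
    (hyQ : y ∈ normalizer (Q : Set G)) : Q ≤ centralizer (W : Set G) := by
  classical
  have hp := (Fact.out : p.Prime)
  letI : CommGroup W :=
    { (inferInstance : Group W) with mul_comm := fun a b => Subtype.ext (hWc a a.2 b b.2) }
  letI : Fintype Q := Fintype.ofFinite Q
  let c : G →* MulAut W := MulAut.conjNormal
  -- (D1)
  have D1aux : ∀ (g : G) (v : W) (n : ℕ),
      ((v : G) * g) ^ n = ((∏ j ∈ Finset.range n, (c (g ^ j)) v : W) : G) * g ^ n := by
    intro g v n
    induction n with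
    | zero => simp
    | succ n ih =>
      rw [pow_succ, ih, Finset.prod_range_succ, Subgroup.coe_mul, MulAut.conjNormal_apply, pow_succ]
      group
  have D1 : ∀ (g : G), g ∉ H → ∀ v : W, ∏ j ∈ Finset.range p, (c (g ^ j)) v = 1 := by
    intro g hg v
    have h1 : (v : G) * g ∉ H := by
      intro hh
      apply hg
      have := H.mul_mem (H.inv_mem (hWH v.2)) hh
      simpa using this
    have h2 := D1aux g v p
    rw [h.pow _ h1, h.pow g hg, mul_one] at h2
    exact Subtype.ext h2.symm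
  -- (D2)
  let N : W → W := fun w => ∏ k : Q, c (k : G) w
  have D2 : ∀ (k0 : Q) (w : W), c (k0 : G) (N w) = N w := by
    intro k0 w
    show c (k0 : G) (∏ k : Q, c (k : G) w) = ∏ k : Q, c (k : G) w
    rw [map_prod]
    apply Fintype.prod_equiv (Equiv.mulLeft k0)
    intro k
    show c (k0 : G) (c (k : G) w) = c ((k0 * k : Q) : G) w
    rw [Subgroup.coe_mul, map_mul]
    rfl
  -- (D3)
  have D3 : ∀ (j : ℕ), ¬ p ∣ j → ∀ v : W,
      ∏ k : Q, c (((k : G) * y) ^ j) v = N (c (y ^ j) v) := by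
    intro j hj v
    let ψ : Q → Q := fun k => ⟨((k : G) * y) ^ j * (y ^ j)⁻¹, pow_mul_inv_mem hyQ k.2 j⟩
    have hψinj : Function.Injective ψ := by
      intro k k' hkk
      have h1 : ((k : G) * y) ^ j = ((k' : G) * y) ^ j := by
        have := congrArg Subtype.val hkk
        exact mul_right_cancel this
      have hcop' : IsCoprime (j : ℤ) (p : ℤ) := by
        rw [Nat.isCoprime_iff_coprime]
        exact ((Nat.Prime.coprime_iff_not_dvd hp).2 hj).symm
      obtain ⟨s, t, hst⟩ := hcop'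
      have hnot : ∀ k : Q, (k : G) * y ∉ H := by
        intro k hh
        apply hy
        have := H.mul_mem (H.inv_mem (hQH k.2)) hh
        simpa using this
      have hrec : ∀ k : Q, (((k : G) * y) ^ j) ^ s = (k : G) * y := by
        intro k
        have h2 : ((k : G) * y) ^ (s * j + t * p) = (k : G) * y := by rw [hst, zpow_one]
        rw [zpow_add, zpow_eq_one_of_dvd (h.pow _ (hnot k)) (Dvd.intro_left t rfl), mul_one,
          mul_comm, zpow_mul, zpow_natCast] at h2
        exact h2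
      have h3 : (k : G) * y = (k' : G) * y := by rw [← hrec k, ← hrec k', h1]
      exact Subtype.ext (mul_right_cancel h3)
    have hψbij : Function.Bijective ψ := Finite.injective_iff_bijective.1 hψinj
    show ∏ k : Q, c (((k : G) * y) ^ j) v = ∏ k : Q, c (k : G) (c (y ^ j) v)
    apply Fintype.prod_bijective ψ hψbij
    intro k
    show c (((k : G) * y) ^ j) v = c (((k : G) * y) ^ j * (y ^ j)⁻¹) (c (y ^ j) v)
    have : c (((k : G) * y) ^ j * (y ^ j)⁻¹) (c (y ^ j) v)
        = (c (((k : G) * y) ^ j * (y ^ j)⁻¹) * c (y ^ j)) v := rfl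
    rw [this, ← map_mul, inv_mul_cancel_right]
  -- (D4)
  have D4 : ∀ (v : W) (k0 : Q), c (k0 : G) (v ^ Nat.card Q) = v ^ Nat.card Q := by
    intro v k0
    have hnot : ∀ k : Q, (k : G) * y ∉ H := by
      intro k hh
      apply hy
      have := H.mul_mem (H.inv_mem (hQH k.2)) hh
      simpa using this
    have h1 : ∏ k : Q, ∏ j ∈ Finset.range p, (c (((k : G) * y) ^ j)) v = 1 :=
      Finset.prod_eq_one (fun k _ => D1 _ (hnot k) v)
    rw [Finset.prod_comm] at h1
    obtain ⟨p', hp'⟩ : ∃ p', p = p' + 1 := ⟨p - 1, by have := hp.pos; omega⟩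
    rw [hp', Finset.prod_range_succ'] at h1
    have h2 : ∏ k : Q, c (((k : G) * y) ^ 0) v = v ^ Nat.card Q := by
      simp [Nat.card_eq_fintype_card]
    rw [h2] at h1
    have h3 : v ^ Nat.card Q
        = (∏ j ∈ Finset.range p', ∏ k : Q, c (((k : G) * y) ^ (j + 1)) v)⁻¹ :=
      eq_inv_of_mul_eq_one_right h1
    rw [h3, map_inv, map_prod]
    congr 1
    apply Finset.prod_congr rfl
    intro j hj
    have hj' : ¬ p ∣ j + 1 := by
      intro hd
      have := Nat.le_of_dvd (Nat.succ_pos j) hd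
      have := Finset.mem_range.1 hj
      omega
    rw [D3 (j + 1) hj' v]
    exact D2 k0 _
  intro k0 hk0
  rw [mem_centralizer_iff]
  intro w hw
  have h1 := D4 ⟨w, hw⟩ ⟨k0, hk0⟩
  rw [map_pow] at h1
  set v : W := ⟨w, hw⟩ with hv
  set v' : W := c k0 v with hv'
  have h2 : (v' * v⁻¹) ^ Nat.card Q = 1 := by
    rw [mul_pow, inv_pow, h1, mul_inv_cancel]
  have h3 : (v' * v⁻¹) ^ Nat.card W = 1 := pow_card_eq_one'
  have h4 : v' * v⁻¹ = 1 := by
    have := pow_gcd_eq_one.2 ⟨h2, h3⟩
    rwa [hcop.gcd_eq_one, pow_one] at this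
  have h5 : v' = v := mul_inv_eq_one.1 h4
  have h6 : k0 * w * k0⁻¹ = w := by
    have := congrArg Subtype.val h5
    rwa [hv', MulAut.conjNormal_apply] at this
  conv_lhs => rw [← h6]
  group

end HP

end Cfsg.Agent.Lib.Helper22
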