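import Mathlib
import Cfsg.Agent.Lib.Helper22.Hughes3
import Cfsg.Agent.Lib.Helper13.Fpf3
import Cfsg.Agent.Lib.Helper13.PStab4

/-! Kegel's theorem: in a Hughes-Thompson pair the subgroup `H` is nilpotent. -/

set_option autoImplicit false

namespace Cfsg.Agent.Lib.Helper22

open Subgroup Cfsg Cfsg.Agent.Lib.Helper13

universe u

theorem isNilpotent_of_injective {A B : Type*} [Group A] [Group B] (f : A →* B)
    (hf : Function.Injective f) (hB : Group.IsNilpotent B) : Group.IsNilpotent A := by
  haveI : Group.IsNilpotent f.range := inferInstance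
  exact Group.nilpotent_of_mulEquiv (MonoidHom.ofInjective hf).symm

namespace HP

variable {p : ℕ} [Fact p.Prime] {G : Type u} [Group G] [Finite G] {H : Subgroup G}

/-- Thompson's theorem applied to a normal `p'`-subgroup. -/
theorem isNilpotent_of_normal (h : HP p H) (K : Subgroup G) [K.Normal] (hKH : K ≤ H)
    (hpK : ¬ p ∣ Nat.card K) : Group.IsNilpotent K := by
  obtain ⟨x, hx⟩ := h.exists_not_mem
  let φ : K →* K := (MulAut.conjNormal x : MulAut K).toMonoidHom
  have hit : ∀ (n : ℕ) (k : K), φ^[n] k = (MulAut.conjNormal (x ^ n) : MulAut K) k := by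
    intro n k
    induction n with
    | zero => simp
    | succ n ih =>
      rw [Function.iterate_succ_apply', ih, pow_succ', map_mul]
      rfl
  have hdata : FpfData φ p :=
    { hr := Fact.out
      hpow := fun k => by rw [hit, h.pow x hx, map_one]; rfl
      hfpf := fun k hk => h.conjNormal_fpf K hKH hpK hx k hk }
  exact hdata.nilpotent

theorem isNilpotent_of_two (h : HP 2 H) : Group.IsNilpotent H := by
  obtain ⟨x, hx⟩ := h.exists_not_mem
  have hx2 : x * x = 1 := by rw [← pow_two]; exact h.pow x hx
  have hinv : ∀ u ∈ H, x * u * x = u⁻¹ := by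
    intro u hu
    have h1 : x * u ∉ H := fun hh => hx (by simpa using H.mul_mem hh (H.inv_mem hu))
    have h2 := h.pow _ h1
    rw [pow_two] at h2
    rw [eq_inv_iff_mul_eq_one]
    calc x * u * x * u = x * u * (x * u) := by group
      _ = 1 := h2
  have hcomm : ∀ u ∈ H, ∀ v ∈ H, u * v = v * u := by
    intro u hu v hv
    have h1 := hinv (u * v) (H.mul_mem hu hv)
    have h2 : x * (u * v) * x = (x * u * x) * (x * v * x) := by
      calc x * (u * v) * x = x * u * 1 * v * x := by group
        _ = x * u * (x * x) * v * x := by rw [hx2]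
        _ = (x * u * x) * (x * v * x) := by group
    rw [h2, hinv u hu, hinv v hv, mul_inv_rev] at h1
    have h3 := congrArg (fun t => t⁻¹) h1
    simp only [mul_inv_rev, inv_inv] at h3
    exact h3.symm
  letI : CommGroup H :=
    { (inferInstance : Group H) with mul_comm := fun a b => Subtype.ext (hcomm a a.2 b b.2) }
  infer_instance

/-- Frattini: some element outside `H` normalizes a given Sylow subgroup of `H`. -/
theorem exists_normalizer_not_mem (h : HP p H) [H.Normal] {q : ℕ} [Fact q.Prime] (S : Sylow q H) :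
    ∃ y ∈ normalizer (((S : Subgroup H).map H.subtype : Subgroup G) : Set G), y ∉ H := by
  by_contra hcon
  push Not at hcon
  have h1 := Sylow.normalizer_sup_eq_top S
  have h2 : normalizer (((S : Subgroup H).map H.subtype : Subgroup G) : Set G) ≤ H := hcon
  rw [sup_eq_right.2 h2] at h1
  exact h.ne_top h1

theorem caseTop (h : HP p H) [H.Normal] (Z : Subgroup H) (hZp : IsPGroup p Z)
    (hZc : ∀ a ∈ Z, ∀ b ∈ Z, a * b = b * a) [hZn : (Z.map H.subtype).Normal]
    (hquot : Group.IsNilpotent ↥(H.map (QuotientGroup.mk' (Z.map H.subtype)))) :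
    Group.IsNilpotent H := by
  have hp := (Fact.out : p.Prime)
  set ZG := Z.map H.subtype with hZG
  have hZeq : ZG.subgroupOf H = Z := comap_map_eq_self_of_injective H.subtype_injective Z
  haveI : Z.Normal := hZeq ▸ (inferInstance : (ZG.subgroupOf H).Normal)
  have hq : Group.IsNilpotent (H ⧸ Z) := by
    let g : H →* ↥(H.map (QuotientGroup.mk' ZG)) := (QuotientGroup.mk' ZG).subgroupMap H
    have hsurj : Function.Surjective g := (QuotientGroup.mk' ZG).subgroupMap_surjective H
    have hker : g.ker = Z := by
      ext u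
      rw [MonoidHom.mem_ker, ← hZeq, mem_subgroupOf]
      constructor
      · intro hu
        have := congrArg Subtype.val hu
        exact (QuotientGroup.eq_one_iff _).1 this
      · intro hu
        exact Subtype.ext ((QuotientGroup.eq_one_iff _).2 hu)
    exact Group.nilpotent_of_mulEquiv
      ((QuotientGroup.quotientMulEquivOfEq hker.symm).trans
        (QuotientGroup.quotientKerEquivOfSurjective g hsurj)).symm
  apply nilpotent_of_exists_normal_sylow
  intro q _
  obtain ⟨Q⟩ : Nonempty (Sylow q H) := inferInstance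
  refine ⟨Q, sylow_normal_of_quotient_nilpotent Q Z hq ?_⟩
  by_cases hqp : q = p
  · subst hqp
    exact (hZp.le_sylow_of_normal Q).trans le_normalizer
  · obtain ⟨y, hyN, hyH⟩ := h.exists_normalizer_not_mem Q
    have hcop : (Nat.card ((Q : Subgroup H).map H.subtype)).Coprime (Nat.card ZG) := by
      rw [card_map_of_injective H.subtype_injective, hZG, card_map_of_injective H.subtype_injective]
      obtain ⟨a, ha⟩ := IsPGroup.iff_card.1 Q.2
      obtain ⟨b, hb⟩ := IsPGroup.iff_card.1 hZp
      rw [ha, hb]
      exact Nat.Coprime.pow a b ((Nat.coprime_primes Fact.out hp).2 hqp)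
    have h1 := h.le_centralizer_of_averaging ZG
      (by
        rintro _ ⟨a, ha, rfl⟩ _ ⟨b, hb, rfl⟩
        exact congrArg Subtype.val (hZc a ha b hb))
      (by rintro _ ⟨a, -, rfl⟩; exact a.2)
      ((Q : Subgroup H).map H.subtype)
      (by rintro _ ⟨a, -, rfl⟩; exact a.2) hcop y hyH hyN
    intro z hz
    apply centralizer_le_normalizer
    rw [mem_centralizer_iff]
    intro u hu
    have h2 := mem_centralizer_iff.1 (h1 (mem_map_of_mem H.subtype hu)) (z : G)
      (mem_map_of_mem H.subtype hz)
    exact Subtype.ext h2.symm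

theorem caseNPC (h : HP p H) [H.Normal] (hnpc : HasNormalPComplement p H) :
    Group.IsNilpotent H := by
  have hp := (Fact.out : p.Prime)
  set K := pResidual p H with hK
  have hKcop : (Nat.card K).Coprime p := Cfsg.Agent.H12.hasNormalPComplement_iff.mp hnpc
  haveI : K.Characteristic := Cfsg.Agent.H12.pResidual_characteristic p H
  set KG := K.map H.subtype with hKG
  haveI : KG.Normal := ConjAct.normal_of_characteristic_of_normal
  have hKGH : KG ≤ H := by rintro _ ⟨a, -, rfl⟩; exact a.2
  have hKGp : ¬ p ∣ Nat.card KG := by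
    rw [hKG, card_map_of_injective H.subtype_injective]
    exact (Nat.Prime.coprime_iff_not_dvd hp).1 hKcop.symm
  have hKGnil := h.isNilpotent_of_normal KG hKGH hKGp
  haveI hKnil : Group.IsNilpotent K :=
    Group.nilpotent_of_mulEquiv (K.equivMapOfInjective H.subtype H.subtype_injective).symm
  obtain ⟨S⟩ : Nonempty (Sylow p H) := inferInstance
  obtain ⟨y, hyN, hyH⟩ := h.exists_normalizer_not_mem S
  set SG := (S : Subgroup H).map H.subtype with hSG
  have hSGp : IsPGroup p SG := S.2.map _
  have hP1 : IsPGroup p (zpowers y ⊔ SG : Subgroup G) := by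
    apply IsPGroup.to_sup_of_normal_right' _ hSGp
    · rw [zpowers_le]; exact hyN
    · rintro ⟨g, hg⟩
      obtain ⟨k, rfl⟩ := mem_zpowers_iff.1 hg
      refine ⟨1, Subtype.ext ?_⟩
      show (y ^ k) ^ p ^ 1 = 1
      rw [pow_one, ← zpow_natCast, ← zpow_mul, mul_comm, zpow_mul, zpow_natCast, h.pow y hyH,
        one_zpow]
  have hC := h.inf_le_centralizer KG hKGH hKGp _ hP1
    (fun hh => hyH (hh ((le_sup_left : zpowers y ≤ _) (mem_zpowers y))))
  have hcomm : ∀ (k : K) (s : (S : Subgroup H)), Commute ((k : H)) ((s : H)) := by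
    intro k s
    have h1 : ((s : H) : G) ∈ centralizer (KG : Set G) :=
      hC ⟨(le_sup_right : SG ≤ _) (mem_map_of_mem H.subtype s.2), (s : H).2⟩
    have h2 := mem_centralizer_iff.1 h1 ((k : H) : G) (mem_map_of_mem H.subtype k.2)
    exact Subtype.ext h2
  have htop : K ⊔ (S : Subgroup H) = ⊤ := by
    rw [← index_eq_one]
    obtain ⟨m, hm⟩ := IsPGroup.iff_card.1 (Cfsg.Agent.H12.isPGroup_quotient_pResidual (G := H) p)
    have h1 : (K ⊔ (S : Subgroup H)).index ∣ p ^ m := by
      rw [← hm]
      exact index_dvd_of_le le_sup_left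
    obtain ⟨j, -, hj⟩ := (Nat.dvd_prime_pow hp).1 h1
    have hj0 : j = 0 := by
      by_contra hne
      apply S.not_dvd_index
      exact dvd_trans (hj ▸ dvd_pow_self p hne) (index_dvd_of_le le_sup_right)
    rw [hj, hj0, pow_zero]
  let f : K × (S : Subgroup H) →* H :=
    MonoidHom.noncommCoprod K.subtype (S : Subgroup H).subtype hcomm
  have hsurj : Function.Surjective f := by
    intro u
    have hu : u ∈ ((K ⊔ (S : Subgroup H) : Subgroup H) : Set H) := by rw [htop]; trivial
    rw [normal_mul] at hu
    obtain ⟨k, hk, s, hs, rfl⟩ := hu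
    exact ⟨(⟨k, hk⟩, ⟨s, hs⟩), rfl⟩
  haveI : Group.IsNilpotent (S : Subgroup H) := S.2.isNilpotent
  exact Group.nilpotent_of_surjective f hsurj

end HP

theorem HP.nilpotent_aux (p : ℕ) [Fact p.Prime] :
    ∀ (n : ℕ) (G : Type u) [Group G] [Finite G], Nat.card G = n →
      ∀ H : Subgroup G, HP p H → Group.IsNilpotent H := by
  intro n
  induction n using Nat.strong_induction_on with
  | _ n ih =>
  intro G _ _ hn H h
  have hp := (Fact.out : p.Prime)
  haveI := h.normal
  by_cases hp2 : p = 2
  · subst hp2
    exact h.isNilpotent_of_two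
  by_cases hpH : p ∣ Nat.card H
  · obtain ⟨S⟩ : Nonempty (Sylow p H) := inferInstance
    have hS1 : (S : Subgroup H) ≠ ⊥ := S.ne_bot_of_dvd_card hpH
    set Z := zAb 0 (S : Subgroup H) with hZ
    have hZ1 : Z ≠ ⊥ := by
      rw [hZ, ← inducedFunctor_WZ]
      exact Cfsg.Agent.H12.inducedFunctor_ne_bot (isCharPFunctor_WZ (p := p) (Or.inl rfl)) _ S.2 hS1
    have hZp : IsPGroup p Z := S.2.to_le (zAb_le _)
    have hZc : ∀ a ∈ Z, ∀ b ∈ Z, a * b = b * a := (zAb_abExp (e := 0) (S : Subgroup H)).1
    obtain ⟨y, hyN, hyH⟩ := h.exists_normalizer_not_mem S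
    set ZG := Z.map H.subtype with hZG
    have hZG1 : ZG ≠ ⊥ := by
      intro hb
      apply hZ1
      rw [hZG, map_eq_bot_iff_of_injective _ H.subtype_injective] at hb
      exact hb
    have hZGH : ZG ≤ H := by rintro _ ⟨a, -, rfl⟩; exact a.2
    -- `y` normalizes `ZG`
    have hSy : (S : Subgroup H).map (MulAut.conjNormal y : MulAut H).toMonoidHom = S := by
      apply eq_of_le_of_card_ge
      · rintro _ ⟨s, hs, rfl⟩
        have h1 := (mem_normalizer_iff.1 hyN (s : G)).1 (mem_map_of_mem H.subtype hs)
        obtain ⟨s', hs', hss⟩ := h1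
        have : (MulAut.conjNormal y : MulAut H).toMonoidHom s = s' := by
          apply Subtype.ext
          have hss' : (s' : G) = y * s * y⁻¹ := hss
          rw [hss']
          exact MulAut.conjNormal_apply y s
        rw [this]
        exact hs'
      · exact (card_map_of_injective (f := (MulAut.conjNormal y : MulAut H).toMonoidHom)
          (MulAut.conjNormal y : MulAut H).injective).ge
    have hZy : Z.map (MulAut.conjNormal y : MulAut H).toMonoidHom = Z := by
      have := zAb_map (e := 0) (MulAut.conjNormal y : MulAut H) (S : Subgroup H)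
      rw [hSy] at this
      exact this
    have hyZ : y ∈ normalizer (ZG : Set G) := by
      have hfwd : ∀ g ∈ ZG, y * g * y⁻¹ ∈ ZG := by
        rintro _ ⟨z, hz, rfl⟩
        have h1 : (MulAut.conjNormal y : MulAut H).toMonoidHom z ∈ Z :=
          hZy ▸ mem_map_of_mem _ hz
        exact ⟨_, h1, MulAut.conjNormal_apply y z⟩
      have hmap : ZG.map (MulAut.conj y).toMonoidHom = ZG := by
        apply eq_of_le_of_card_ge
        · rintro _ ⟨g, hg, rfl⟩
          exact hfwd g hg
        · exact (card_map_of_injective (f := (MulAut.conj y).toMonoidHom)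
            (MulAut.conj y).injective).ge
      rw [mem_normalizer_iff]
      intro g
      constructor
      · exact hfwd g
      · intro hg
        rw [← hmap] at hg
        obtain ⟨g', hg', hgg⟩ := hg
        have : g' = g := (MulAut.conj y).injective hgg
        rwa [← this]
    set M := normalizer (ZG : Set G) with hM
    have hMH : ¬ M ≤ H := fun hh => hyH (hh hyZ)
    by_cases hMtop : M = ⊤
    · haveI hZn : ZG.Normal := normalizer_eq_top_iff.1 hMtop
      have hquot : Group.IsNilpotent ↥(H.map (QuotientGroup.mk' ZG)) :=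
        ih _ (by rw [← hn]; exact Cfsg.Agent.H12.card_quotient_lt hZG1) (G ⧸ ZG) rfl _
          (h.quotient ZG hZGH)
      exact h.caseTop Z hZp hZc hquot
    · have hsub : Group.IsNilpotent ↥(H.subgroupOf M) :=
        ih _ (by rw [← hn]; exact Cfsg.Agent.H12.card_subgroup_lt hMtop) M rfl _
          (h.subgroup M hMH)
      have hmemM : ∀ u : normalizer (Z : Set H), ((u : H) : G) ∈ M := by
        intro u
        rw [hM, mem_normalizer_iff]
        intro g
        constructor
        · rintro ⟨z, hz, rfl⟩
          exact ⟨(u : H) * z * (u : H)⁻¹, (mem_normalizer_iff.1 u.2 z).1 hz, rfl⟩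
        · rintro ⟨z, hz, hzz⟩
          have hgH : g ∈ H := by
            have h1 : g = ((u : H) : G)⁻¹ * (z : G) * ((u : H) : G) := by
              have : (z : G) = ((u : H) : G) * g * ((u : H) : G)⁻¹ := hzz
              rw [this]; group
            rw [h1]
            exact H.mul_mem (H.mul_mem (H.inv_mem (u : H).2) z.2) (u : H).2
          refine ⟨⟨g, hgH⟩, (mem_normalizer_iff.1 u.2 ⟨g, hgH⟩).2 ?_, rfl⟩
          have : (u : H) * ⟨g, hgH⟩ * (u : H)⁻¹ = z := Subtype.ext hzz.symm
          rw [this]
          exact hz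
      let f : normalizer (Z : Set H) →* ↥(H.subgroupOf M) :=
        (((H.subtype.comp (normalizer (Z : Set H)).subtype).codRestrict M hmemM).codRestrict
          (H.subgroupOf M) (fun u => mem_subgroupOf.2 (u : H).2))
      have hf : Function.Injective f := by
        intro u v huv
        have h1 : ((u : H) : G) = ((v : H) : G) :=
          congrArg (fun t : ↥(H.subgroupOf M) => ((t : M) : G)) huv
        exact Subtype.ext (Subtype.ext h1)
      haveI hnil : Group.IsNilpotent (normalizer (Z : Set H)) := isNilpotent_of_injective f hf hsub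
      exact h.caseNPC (npc_of_zAb hp2 (e := 0) (Or.inl rfl) S (npc_of_nilpotent p))
  · have h1 := h.isNilpotent_of_normal H le_rfl hpH
    exact h1

theorem HP.isNilpotent {p : ℕ} [Fact p.Prime] {G : Type u} [Group G] [Finite G] {H : Subgroup G}
    (h : HP p H) : Group.IsNilpotent H :=
  HP.nilpotent_aux p _ G rfl H h

end Cfsg.Agent.Lib.Helper22
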