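import Mathlib

/-! Large extraspecial 2-subgroups: elementwise axioms and the fixed coset lemma (helper22). -/

set_option autoImplicit false

namespace Cfsg.Agent.H22

variable {G : Type*} [Group G]

/-- A `2`-group `A` normalizing `B ≤ F` (a proper subgroup of a `2`-group) fixes a nontrivial coset. -/
theorem exists_fixed_coset [Finite G] (A F B : Subgroup G) (hA : IsPGroup 2 A) (hF : IsPGroup 2 F)
    (hne : ∃ q ∈ F, q ∉ B) (hAF : ∀ a ∈ A, ∀ f ∈ F, a * f * a⁻¹ ∈ F)
    (hAB : ∀ a ∈ A, ∀ b ∈ B, a * b * a⁻¹ ∈ B) :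
    ∃ q ∈ F, q ∉ B ∧ ∀ a ∈ A, q⁻¹ * (a * q * a⁻¹) ∈ B := by
  classical
  haveI : Fact (Nat.Prime 2) := ⟨Nat.prime_two⟩
  letI act : MulAction ↥A ↥F :=
    { smul := fun a f => ⟨a * f * a⁻¹, hAF a a.2 f f.2⟩
      one_smul := fun f => Subtype.ext (by
        show ((1 : ↥A) : G) * f * ((1 : ↥A) : G)⁻¹ = f
        simp)
      mul_smul := fun a b f => Subtype.ext (by
        show ((a * b : ↥A) : G) * f * ((a * b : ↥A) : G)⁻¹ = a * (b * f * (b : G)⁻¹) * (a : G)⁻¹
        simp [mul_assoc]) }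
  have hsmul : ∀ (a : ↥A) (f : ↥F), ((a • f : ↥F) : G) = a * f * (a : G)⁻¹ := fun _ _ => rfl
  haveI : MulAction.QuotientAction ↥A (B.subgroupOf F) := ⟨by
    intro a f f' h
    rw [Subgroup.mem_subgroupOf] at h ⊢
    have h1 := hAB a a.2 _ h
    have e : (((a • f)⁻¹ * a • f' : ↥F) : G) = a * ((f⁻¹ * f' : ↥F) : G) * (a : G)⁻¹ := by
      simp only [Subgroup.coe_mul, Subgroup.coe_inv, hsmul]
      group
    rw [e]; exact h1⟩
  have hdvd : 2 ∣ Nat.card (↥F ⧸ B.subgroupOf F) := by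
    obtain ⟨k, hk⟩ := hF.index (B.subgroupOf F)
    rw [← Subgroup.index_eq_card, hk]
    rcases Nat.eq_zero_or_pos k with rfl | hk0
    · exfalso
      rw [pow_zero, Subgroup.index_eq_one] at hk
      obtain ⟨q, hqF, hqB⟩ := hne
      have : (⟨q, hqF⟩ : ↥F) ∈ B.subgroupOf F := hk ▸ Subgroup.mem_top _
      exact hqB (Subgroup.mem_subgroupOf.1 this)
    · exact dvd_pow_self 2 hk0.ne'
  have hfix : ((1 : ↥F) : ↥F ⧸ B.subgroupOf F) ∈ MulAction.fixedPoints ↥A (↥F ⧸ B.subgroupOf F) := by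
    intro a
    rw [MulAction.Quotient.smul_coe]
    congr 1
    apply Subtype.ext
    rw [hsmul]; simp
  obtain ⟨b, hb, hb1⟩ := hA.exists_fixed_point_of_prime_dvd_card_of_fixed_point _ hdvd hfix
  induction b using QuotientGroup.induction_on with
  | H q =>
    refine ⟨q, q.2, ?_, ?_⟩
    · intro hqB
      apply hb1
      rw [QuotientGroup.eq]
      rw [Subgroup.mem_subgroupOf]
      simpa using hqB
    · intro a ha
      have h1 := hb ⟨a, ha⟩
      rw [MulAction.Quotient.smul_coe] at h1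
      have h2 := QuotientGroup.eq.1 h1.symm
      rw [Subgroup.mem_subgroupOf] at h2
      simpa [hsmul] using h2

/-- Elementwise description of an extraspecial `2`-subgroup `E` with centre `⟨z⟩`, normal in `C(z)` and
containing its centralizer. -/
structure ExC (E : Subgroup G) (z : G) : Prop where
  zmem : z ∈ E
  zz : z * z = 1
  z1 : z ≠ 1
  cen : ∀ e ∈ E, e * z = z * e
  comm : ∀ a ∈ E, ∀ b ∈ E, a * b * a⁻¹ = b ∨ a * b * a⁻¹ = z * b
  sq : ∀ a ∈ E, a * a = 1 ∨ a * a = z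
  center : ∀ c ∈ E, (∀ a ∈ E, a * c = c * a) → c = 1 ∨ c = z
  norm : ∀ h : G, h * z = z * h → ∀ e ∈ E, h * e * h⁻¹ ∈ E
  self : ∀ h : G, (∀ e ∈ E, h * e = e * h) → h ∈ E
  pgrp : IsPGroup 2 E

theorem mem_map_conj_iff' (E : Subgroup G) (g y : G) :
    y ∈ E.map (MulAut.conj g).toMonoidHom ↔ g⁻¹ * y * g ∈ E := by
  constructor
  · rintro ⟨e, he, rfl⟩
    have : g⁻¹ * ((MulAut.conj g).toMonoidHom e) * g = e := by
      simp [mul_assoc]
    rw [this]; exact he
  · intro h
    exact ⟨_, h, by simp [mul_assoc]⟩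

theorem ExC.conj {E : Subgroup G} {z : G} (h : ExC E z) (g : G) :
    ExC (E.map (MulAut.conj g).toMonoidHom) (g * z * g⁻¹) := by
  have key : ∀ a b : G, g⁻¹ * a * g = g⁻¹ * b * g → a = b := by
    intro a b hab
    calc a = g * (g⁻¹ * a * g) * g⁻¹ := by group
      _ = g * (g⁻¹ * b * g) * g⁻¹ := by rw [hab]
      _ = b := by group
  have hz : g⁻¹ * (g * z * g⁻¹) * g = z := by group
  refine ⟨?_, ?_, ?_, ?_, ?_, ?_, ?_, ?_, ?_, h.pgrp.map _⟩
  · rw [mem_map_conj_iff', hz]; exact h.zmem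
  · calc g * z * g⁻¹ * (g * z * g⁻¹) = g * (z * z) * g⁻¹ := by group
      _ = 1 := by rw [h.zz]; group
  · intro h1
    apply h.z1
    rw [← hz, h1]; group
  · intro e he
    rw [mem_map_conj_iff'] at he
    apply key
    calc g⁻¹ * (e * (g * z * g⁻¹)) * g = (g⁻¹ * e * g) * z := by group
      _ = z * (g⁻¹ * e * g) := h.cen _ he
      _ = g⁻¹ * (g * z * g⁻¹ * e) * g := by group
  · intro a ha b hb
    rw [mem_map_conj_iff'] at ha hb
    rcases h.comm _ ha _ hb with h1 | h1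
    · left
      apply key
      rw [← h1]; group
    · right
      apply key
      calc g⁻¹ * (a * b * a⁻¹) * g = (g⁻¹ * a * g) * (g⁻¹ * b * g) * (g⁻¹ * a * g)⁻¹ := by group
        _ = z * (g⁻¹ * b * g) := h1
        _ = g⁻¹ * (g * z * g⁻¹ * b) * g := by group
  · intro a ha
    rw [mem_map_conj_iff'] at ha
    rcases h.sq _ ha with h1 | h1
    · left
      apply key
      calc g⁻¹ * (a * a) * g = (g⁻¹ * a * g) * (g⁻¹ * a * g) := by group
        _ = 1 := h1
        _ = g⁻¹ * 1 * g := by group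
    · right
      apply key
      calc g⁻¹ * (a * a) * g = (g⁻¹ * a * g) * (g⁻¹ * a * g) := by group
        _ = z := h1
        _ = g⁻¹ * (g * z * g⁻¹) * g := by group
  · intro c hc hcc
    rw [mem_map_conj_iff'] at hc
    have h2 : ∀ a ∈ E, a * (g⁻¹ * c * g) = (g⁻¹ * c * g) * a := by
      intro a ha
      have h3 := hcc (g * a * g⁻¹) (by rw [mem_map_conj_iff']; convert ha using 1; group)
      calc a * (g⁻¹ * c * g) = g⁻¹ * (g * a * g⁻¹ * c) * g := by group
        _ = g⁻¹ * (c * (g * a * g⁻¹)) * g := by rw [h3]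
        _ = (g⁻¹ * c * g) * a := by group
    rcases h.center _ hc h2 with h1 | h1
    · left
      apply key
      rw [h1]; group
    · right
      apply key
      rw [h1]; group
  · intro k hk e he
    rw [mem_map_conj_iff'] at he ⊢
    have h1 : (g⁻¹ * k * g) * z = z * (g⁻¹ * k * g) := by
      calc (g⁻¹ * k * g) * z = g⁻¹ * (k * (g * z * g⁻¹)) * g := by group
        _ = g⁻¹ * ((g * z * g⁻¹) * k) * g := by rw [hk]
        _ = z * (g⁻¹ * k * g) := by group
    have h2 := h.norm _ h1 _ he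
    convert h2 using 1
    group
  · intro k hk
    rw [mem_map_conj_iff']
    apply h.self
    intro e he
    have h3 := hk (g * e * g⁻¹) (by rw [mem_map_conj_iff']; convert he using 1; group)
    calc g⁻¹ * k * g * e = g⁻¹ * (k * (g * e * g⁻¹)) * g := by group
      _ = g⁻¹ * ((g * e * g⁻¹) * k) * g := by rw [h3]
      _ = e * (g⁻¹ * k * g) := by group

end Cfsg.Agent.H22
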