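import Mathlib
import Cfsg.Agent.Lib.Helper22.LargeEx1

/-! Large extraspecial 2-subgroups: orthogonality of singular involutions is symmetric (helper22). -/

set_option autoImplicit false

namespace Cfsg.Agent.H22

variable {G : Type*} [Group G]

theorem mem_zpowers_invol {x : G} (hxx : x * x = 1) (a : G) :
    a ∈ Subgroup.zpowers x ↔ a = 1 ∨ a = x := by
  constructor
  · rintro ⟨k, rfl⟩
    rcases Int.even_or_odd' k with ⟨m, rfl | rfl⟩
    · left
      show x ^ (2 * m) = 1
      rw [zpow_mul, zpow_two, hxx, one_zpow]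
    · right
      show x ^ (2 * m + 1) = x
      rw [zpow_add, zpow_mul, zpow_two, hxx, one_zpow, one_mul, zpow_one]
  · rintro (rfl | rfl)
    · exact one_mem _
    · exact Subgroup.mem_zpowers _

section
variable {E : Subgroup G} {z : G}

theorem ExC.exists_u (hE : ExC E z) {x : G} (hx : x ∈ E) (hx1 : x ≠ 1) (hxz : x ≠ z) :
    ∃ u ∈ E, u * x * u⁻¹ = z * x := by
  by_contra hcon
  push Not at hcon
  have hc : ∀ a ∈ E, a * x = x * a := by
    intro a ha
    rcases hE.comm a ha x hx with h | h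
    · calc a * x = a * x * a⁻¹ * a := by group
        _ = x * a := by rw [h]
    · exact absurd h (hcon a ha)
  rcases hE.center x hx hc with h | h
  · exact hx1 h
  · exact hxz h

theorem ExC.split (hE : ExC E z) {x u : G} (hx : x ∈ E) (hux : u * x * u⁻¹ = z * x) :
    ∀ e ∈ E, e * x = x * e ∨ (u⁻¹ * e) * x = x * (u⁻¹ * e) := by
  intro p hp
  rcases hE.comm p hp x hx with h | h
  · left
    calc p * x = p * x * p⁻¹ * p := by group
      _ = x * p := by rw [h]
  · right
    have hpt : p * x = z * x * p := by rw [← h]; group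
    have hxi : u⁻¹ * (z * x) = x * u⁻¹ := by rw [← hux]; group
    calc (u⁻¹ * p) * x = u⁻¹ * (p * x) := by group
      _ = u⁻¹ * (z * x) * p := by rw [hpt]; group
      _ = x * (u⁻¹ * p) := by rw [hxi]; group

theorem ExC.commAll (hE : ExC E z) {x u : G} (hx : x ∈ E) (huE : u ∈ E)
    (hux : u * x * u⁻¹ = z * x) {d : G}
    (hdA : ∀ a ∈ E, a * x = x * a → a * d = d * a) (hud : u * d = d * u) :
    ∀ p ∈ E, p * d = d * p := by
  intro p hp
  rcases hE.split hx hux p hp with h | h
  · exact hdA p hp h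
  · have h1 := hdA _ (E.mul_mem (E.inv_mem huE) hp) h
    calc p * d = u * ((u⁻¹ * p) * d) := by group
      _ = u * (d * (u⁻¹ * p)) := by rw [h1]
      _ = (u * d) * u⁻¹ * p := by group
      _ = d * p := by rw [hud]; group

theorem ExC.crit2 (hE : ExC E z) {x u : G} (hx : x ∈ E) (hxx : x * x = 1) (huE : u ∈ E)
    (hux : u * x * u⁻¹ = z * x) {d : G} (hd : d ∈ E)
    (hdA : ∀ a ∈ E, a * x = x * a → a * d = d * a) : d = 1 ∨ d = z ∨ d = x ∨ d = z * x := by
  rcases hE.comm u huE d hd with h | h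
  · have hud : u * d = d * u := by
      calc u * d = u * d * u⁻¹ * u := by group
        _ = d * u := by rw [h]
    rcases hE.center d hd (hE.commAll hx huE hux hdA hud) with h1 | h1
    · exact Or.inl h1
    · exact Or.inr (Or.inl h1)
  · have hdz : d * z = z * d := hE.cen d hd
    have h1 : u * (d * x) = (d * x) * u := by
      calc u * (d * x) = (u * d * u⁻¹) * (u * x * u⁻¹) * u := by group
        _ = (z * d) * (z * x) * u := by rw [h, hux]
        _ = z * (d * z) * x * u := by group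
        _ = (z * z) * d * x * u := by rw [hdz]; group
        _ = (d * x) * u := by rw [hE.zz]; group
    have h2 : ∀ a ∈ E, a * x = x * a → a * (d * x) = (d * x) * a := by
      intro a ha hax
      rw [← mul_assoc, hdA a ha hax, mul_assoc, hax, mul_assoc]
    rcases hE.center _ (E.mul_mem hd hx) (hE.commAll hx huE hux h2 h1) with h3 | h3
    · right; right; left
      calc d = (d * x) * x := by rw [mul_assoc, hxx, mul_one]
        _ = x := by rw [h3, one_mul]
    · right; right; right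
      calc d = (d * x) * x := by rw [mul_assoc, hxx, mul_one]
        _ = z * x := by rw [h3]

end

theorem ExC.symm_mem [Finite G] {E F : Subgroup G} {z x : G} (hE : ExC E z) (hF : ExC F x)
    (hEF : ∀ w : G, w * z * w⁻¹ = x → ∀ e ∈ E, w * e * w⁻¹ ∈ F) (hx : x ∈ E) : z ∈ F := by
  classical
  by_contra hzF
  have hxz : x ≠ z := fun h => hzF (h ▸ hF.zmem)
  have hxzc : x * z = z * x := hE.cen x hx
  obtain ⟨u, huE, hux⟩ := hE.exists_u hx hF.z1 hxz
  have huz : u * z = z * u := hE.cen u huE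
  have hzi : z⁻¹ = z := inv_eq_of_mul_eq_one_left hE.zz
  have hxi : x⁻¹ = x := inv_eq_of_mul_eq_one_left hF.zz
  -- Step 1
  have hD : ∀ d, d ∈ E → d ∈ F → d = 1 ∨ d = x := by
    intro d hdE hdF
    have hdA : ∀ a ∈ E, a * x = x * a → a * d = d * a := by
      intro a ha hax
      rcases hE.comm a ha d hdE with h | h
      · calc a * d = a * d * a⁻¹ * a := by group
          _ = d * a := by rw [h]
      · exfalso
        apply hzF
        have h1 := hF.norm a hax d hdF
        rw [h] at h1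
        have := F.mul_mem h1 (F.inv_mem hdF)
        simpa using this
    rcases hE.crit2 hx hF.zz huE hux hdE hdA with h | h | h | h
    · exact Or.inl h
    · exact absurd (h ▸ hdF) hzF
    · exact Or.inr h
    · exfalso
      apply hzF
      have := F.mul_mem (h ▸ hdF) (F.inv_mem hF.zmem)
      simpa using this
  -- Step 2
  have hAB : ∀ a ∈ E, a * x = x * a → ∀ b ∈ F, b * z = z * b →
      b⁻¹ * (a * b * a⁻¹) = 1 ∨ b⁻¹ * (a * b * a⁻¹) = x := by
    intro a ha hax b hb hbz
    apply hD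
    · have h1 := hE.norm b⁻¹ (by
          calc b⁻¹ * z = b⁻¹ * (z * b) * b⁻¹ := by group
            _ = b⁻¹ * (b * z) * b⁻¹ := by rw [hbz]
            _ = z * b⁻¹ := by group) a ha
      have := E.mul_mem h1 (E.inv_mem ha)
      convert this using 1
      group
    · exact F.mul_mem (F.inv_mem hb) (hF.norm a hax b hb)
  by_cases h1 : ∃ q ∈ F, q * z * q⁻¹ = z * x
  · obtain ⟨q, hq, hqz⟩ := h1
    have hqx : q * x = x * q := hF.cen q hq
    apply hzF
    have hqz' : q⁻¹ * z * q = z * x := by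
      have h2 : q⁻¹ * x * q = x := by
        calc q⁻¹ * x * q = q⁻¹ * (x * q) := by group
          _ = q⁻¹ * (q * x) := by rw [hqx]
          _ = x := by group
      calc q⁻¹ * z * q = q⁻¹ * z * q * (x * x) := by rw [hF.zz, mul_one]
        _ = q⁻¹ * z * q * (q⁻¹ * x * q) * x := by rw [h2]; group
        _ = q⁻¹ * (z * x) * q * x := by group
        _ = q⁻¹ * (q * z * q⁻¹) * q * x := by rw [hqz]
        _ = z * x := by group
    have hw1 : (q * u * q⁻¹) * z * (q * u * q⁻¹)⁻¹ = x := by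
      calc (q * u * q⁻¹) * z * (q * u * q⁻¹)⁻¹ = q * (u * (q⁻¹ * z * q) * u⁻¹) * q⁻¹ := by group
        _ = q * (u * (z * x) * u⁻¹) * q⁻¹ := by rw [hqz']
        _ = q * ((u * z) * u⁻¹ * (u * x * u⁻¹)) * q⁻¹ := by group
        _ = q * ((z * u) * u⁻¹ * (z * x)) * q⁻¹ := by rw [huz, hux]
        _ = q * ((z * z) * x) * q⁻¹ := by group
        _ = (q * x) * q⁻¹ := by rw [hE.zz, one_mul]
        _ = x := by rw [hqx]; group
    have hw2 : (q * u * q⁻¹) * x * (q * u * q⁻¹)⁻¹ = z := by
      calc (q * u * q⁻¹) * x * (q * u * q⁻¹)⁻¹ = q * (u * (q⁻¹ * (x * q)) * u⁻¹) * q⁻¹ := by group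
        _ = q * (u * x * u⁻¹) * q⁻¹ := by rw [← hqx]; group
        _ = q * (z * x) * q⁻¹ := by rw [hux]
        _ = (q * z * q⁻¹) * ((q * x) * q⁻¹) := by group
        _ = (z * x) * x := by rw [hqz, hqx]; group
        _ = z := by rw [mul_assoc, hF.zz, mul_one]
    have := hEF _ hw1 x hx
    rwa [hw2] at this
  push Not at h1
  have h2 : ∀ p ∈ F, p⁻¹ * (z * p * z⁻¹) = 1 ∨ p⁻¹ * (z * p * z⁻¹) = x → p * z = z * p := by
    intro p hp h
    rcases h with h | h
    · calc p * z = p * (p⁻¹ * (z * p * z⁻¹)) * z := by rw [h, mul_one]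
        _ = z * p := by group
    · exfalso
      apply h1 p⁻¹ (F.inv_mem hp)
      calc p⁻¹ * z * p⁻¹⁻¹ = (p⁻¹ * (z * p * z⁻¹)) * z := by group
        _ = x * z := by rw [h]
        _ = z * x := hxzc
  obtain ⟨q₀, hq₀F, hq₀⟩ : ∃ q ∈ F, ¬ (q * z = z * q) := by
    by_contra hcon
    push Not at hcon
    exact hzF (hF.self z (fun e he => (hcon e he).symm))
  by_cases hab : ∀ a₁ ∈ E, a₁ * x = x * a₁ → ∀ a₂ ∈ E, a₂ * x = x * a₂ → a₁ * a₂ = a₂ * a₁
  · -- abelian case
    set c := q₀⁻¹ * (z * q₀ * z⁻¹) with hc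
    have hcF : c ∈ F := F.mul_mem (F.inv_mem hq₀F) (hF.norm z hxzc.symm q₀ hq₀F)
    have hc1 : ¬ (c = 1 ∨ c = x) := fun h => hq₀ (h2 q₀ hq₀F h)
    have hcz : c * z = z * c := by
      apply h2 c hcF
      have e : c⁻¹ * (z * c * z⁻¹) = (c * c)⁻¹ := by
        have e1 : z * c * z⁻¹ = c⁻¹ := by
          rw [hc, hzi]
          calc z * (q₀⁻¹ * (z * q₀ * z)) * z = z * q₀⁻¹ * z * q₀ * (z * z) := by group
            _ = z * q₀⁻¹ * z * q₀ := by rw [hE.zz, mul_one]
            _ = z⁻¹ * q₀⁻¹ * z⁻¹ * q₀ := by rw [hzi]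
            _ = (q₀⁻¹ * (z * q₀ * z))⁻¹ := by group
        rw [e1]; group
      rw [e]
      rcases hF.sq c hcF with h | h
      · left; rw [h, inv_one]
      · right; rw [h, hxi]
    have hcx : c * x = x * c := hF.cen c hcF
    have hcE : c ∉ E := fun h => hc1 (hD c h hcF)
    have hA4 : ∀ a ∈ E, a * x = x * a → a = 1 ∨ a = z ∨ a = x ∨ a = z * x := by
      intro a ha hax
      exact hE.crit2 hx hF.zz huE hux ha (fun a' ha' hax' => hab a' ha' hax' a ha hax)
    have hcA : ∀ a ∈ E, a * x = x * a → a * c = c * a := by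
      intro a ha hax
      rcases hA4 a ha hax with h | h | h | h
      · rw [h]; simp
      · rw [h]; exact hcz.symm
      · rw [h]; exact hcx.symm
      · rw [h, mul_assoc, ← hcx, ← mul_assoc, ← hcz, mul_assoc]
    have hcuE : c * u * c⁻¹ ∈ E := hE.norm c hcz u huE
    have ha₀E : u⁻¹ * (c * u * c⁻¹) ∈ E := E.mul_mem (E.inv_mem huE) hcuE
    have hcxi : c⁻¹ * x * c = x := by
      calc c⁻¹ * x * c = c⁻¹ * (x * c) := by group
        _ = c⁻¹ * (c * x) := by rw [hcx]
        _ = x := by group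
    have hczx : c * (z * x) * c⁻¹ = z * x := by
      calc c * (z * x) * c⁻¹ = (c * z) * x * c⁻¹ := by group
        _ = z * (c * x) * c⁻¹ := by rw [hcz]; group
        _ = z * x := by rw [hcx]; group
    have ha₀x : (u⁻¹ * (c * u * c⁻¹)) * x = x * (u⁻¹ * (c * u * c⁻¹)) := by
      have e1 : (c * u * c⁻¹) * x * (c * u * c⁻¹)⁻¹ = z * x := by
        calc (c * u * c⁻¹) * x * (c * u * c⁻¹)⁻¹ = c * (u * (c⁻¹ * x * c) * u⁻¹) * c⁻¹ := by group
          _ = c * (z * x) * c⁻¹ := by rw [hcxi, hux]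
          _ = z * x := hczx
      have e2 : u⁻¹ * (z * x) = x * u⁻¹ := by rw [← hux]; group
      calc (u⁻¹ * (c * u * c⁻¹)) * x
          = u⁻¹ * ((c * u * c⁻¹) * x * (c * u * c⁻¹)⁻¹) * (c * u * c⁻¹) := by group
        _ = u⁻¹ * (z * x) * (c * u * c⁻¹) := by rw [e1]
        _ = x * (u⁻¹ * (c * u * c⁻¹)) := by rw [e2]; group
    have hxu : x * u = z * u * x := by
      have : u * x = z * x * u := by rw [← hux]; group
      calc x * u = (z * z) * x * u := by rw [hE.zz, one_mul]
        _ = z * (z * x * u) := by group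
        _ = z * (u * x) := by rw [this]
        _ = z * u * x := by group
    have huu : c * (u * u) * c⁻¹ = u * u := by
      rcases hE.sq u huE with h | h
      · rw [h]; group
      · rw [h, hcz]; group
    have hsqc : (c * u * c⁻¹) * (c * u * c⁻¹) = u * u := by
      rw [← huu]; group
    rcases hA4 _ ha₀E ha₀x with h | h | h | h
    · -- c commutes with u
      apply hcE
      apply hE.self
      have hud : u * c = c * u := by
        have : c * u * c⁻¹ = u := by
          calc c * u * c⁻¹ = u * (u⁻¹ * (c * u * c⁻¹)) := by group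
            _ = u := by rw [h, mul_one]
        calc u * c = (c * u * c⁻¹) * c := by rw [this]
          _ = c * u := by group
      intro e he
      exact (hE.commAll hx huE hux hcA hud e he).symm
    · -- c * x commutes with u
      have hcu : c * u = u * z * c := by
        calc c * u = u * (u⁻¹ * (c * u * c⁻¹)) * c := by group
          _ = u * z * c := by rw [h]
      have hud : u * (c * x) = (c * x) * u := by
        symm
        calc (c * x) * u = c * (x * u) := by group
          _ = c * (z * u * x) := by rw [hxu]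
          _ = (c * z) * u * x := by group
          _ = z * (c * u) * x := by rw [hcz]; group
          _ = z * (u * z * c) * x := by rw [hcu]
          _ = (z * u) * z * c * x := by group
          _ = u * (z * z) * c * x := by rw [← huz]; group
          _ = u * (c * x) := by rw [hE.zz]; group
      have hkA : ∀ a ∈ E, a * x = x * a → a * (c * x) = (c * x) * a := by
        intro a ha hax
        calc a * (c * x) = (a * c) * x := by group
          _ = c * (a * x) := by rw [hcA a ha hax]; group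
          _ = (c * x) * a := by rw [hax]; group
      have hkE : c * x ∈ E := by
        apply hE.self
        intro e he
        exact (hE.commAll hx huE hux hkA hud e he).symm
      rcases hD _ hkE (F.mul_mem hcF hF.zmem) with h' | h'
      · apply hc1; right
        calc c = (c * x) * x := by rw [mul_assoc, hF.zz, mul_one]
          _ = x := by rw [h', one_mul]
      · apply hc1; left
        calc c = (c * x) * x := by rw [mul_assoc, hF.zz, mul_one]
          _ = 1 := by rw [h', hF.zz]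
    · apply hE.z1
      have hcu : c * u * c⁻¹ = u * x := by
        calc c * u * c⁻¹ = u * (u⁻¹ * (c * u * c⁻¹)) := by group
          _ = u * x := by rw [h]
      rw [hcu] at hsqc
      have e : (u * x) * (u * x) = z * (u * u) := by
        calc (u * x) * (u * x) = u * (x * u) * x := by group
          _ = u * (z * u * x) * x := by rw [hxu]
          _ = (u * z) * u * (x * x) := by group
          _ = z * (u * u) := by rw [huz, hF.zz]; group
      rw [e] at hsqc
      exact mul_eq_right.mp hsqc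
    · apply hE.z1
      have hcu : c * u * c⁻¹ = u * (z * x) := by
        calc c * u * c⁻¹ = u * (u⁻¹ * (c * u * c⁻¹)) := by group
          _ = u * (z * x) := by rw [h]
      rw [hcu] at hsqc
      have e : (u * (z * x)) * (u * (z * x)) = z * (u * u) := by
        calc (u * (z * x)) * (u * (z * x)) = (u * z) * (x * u) * z * x := by group
          _ = (z * u) * (z * u * x) * z * x := by rw [hxu, huz]
          _ = z * (u * z) * u * (x * z) * x := by group
          _ = z * (z * u) * u * (z * x) * x := by rw [huz, hxzc]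
          _ = (z * z) * u * (u * z) * (x * x) := by group
          _ = u * (z * u) := by rw [hE.zz, hF.zz, huz]; group
          _ = (u * z) * u := by group
          _ = z * (u * u) := by rw [huz]; group
      rw [e] at hsqc
      exact mul_eq_right.mp hsqc
  · -- nonabelian case
    push Not at hab
    obtain ⟨a₁, ha₁, ha₁x, a₂, ha₂, ha₂x, hne⟩ := hab
    have ha12 : a₁ * a₂ = z * (a₂ * a₁) := by
      rcases hE.comm a₁ ha₁ a₂ ha₂ with h | h
      · exfalso; apply hne
        calc a₁ * a₂ = a₁ * a₂ * a₁⁻¹ * a₁ := by group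
          _ = a₂ * a₁ := by rw [h]
      · calc a₁ * a₂ = a₁ * a₂ * a₁⁻¹ * a₁ := by group
          _ = z * (a₂ * a₁) := by rw [h]; group
    obtain ⟨q, hqF, hqB, hq⟩ := exists_fixed_coset (E ⊓ Subgroup.centralizer {x}) F
      (F ⊓ Subgroup.centralizer {z}) (hE.pgrp.to_le inf_le_left) hF.pgrp
      ⟨q₀, hq₀F, fun h => hq₀ (Subgroup.mem_centralizer_singleton_iff.1 h.2)⟩
      (fun a ha f hf => hF.norm a (Subgroup.mem_centralizer_singleton_iff.1 ha.2) f hf)
      (fun a ha b hb => ⟨hF.norm a (Subgroup.mem_centralizer_singleton_iff.1 ha.2) b hb.1, by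
        apply Subgroup.mem_centralizer_singleton_iff.2
        have haz := hE.cen a ha.1
        have hbz := Subgroup.mem_centralizer_singleton_iff.1 hb.2
        have hazi : a⁻¹ * z = z * a⁻¹ := by
          calc a⁻¹ * z = a⁻¹ * (z * a) * a⁻¹ := by group
            _ = a⁻¹ * (a * z) * a⁻¹ := by rw [haz]
            _ = z * a⁻¹ := by group
        calc a * b * a⁻¹ * z = a * b * (a⁻¹ * z) := by group
          _ = a * (b * z) * a⁻¹ := by rw [hazi]; group
          _ = (a * z) * b * a⁻¹ := by rw [hbz]; group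
          _ = z * (a * b * a⁻¹) := by rw [haz]; group⟩)
    have hb₁ := hq a₁ ⟨ha₁, Subgroup.mem_centralizer_singleton_iff.2 ha₁x⟩
    have hb₂ := hq a₂ ⟨ha₂, Subgroup.mem_centralizer_singleton_iff.2 ha₂x⟩
    set b₁ := q⁻¹ * (a₁ * q * a₁⁻¹) with hb₁d
    set b₂ := q⁻¹ * (a₂ * q * a₂⁻¹) with hb₂d
    have hx₁ := hAB a₁ ha₁ ha₁x b₂ hb₂.1 (Subgroup.mem_centralizer_singleton_iff.1 hb₂.2)
    have hx₂ := hAB a₂ ha₂ ha₂x b₁ hb₁.1 (Subgroup.mem_centralizer_singleton_iff.1 hb₁.2)
    have hx₃ : b₁⁻¹ * b₂⁻¹ * b₁⁻¹⁻¹ * b₂ = 1 ∨ b₁⁻¹ * b₂⁻¹ * b₁⁻¹⁻¹ * b₂ = x := by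
      rcases hF.comm b₁⁻¹ (F.inv_mem hb₁.1) b₂⁻¹ (F.inv_mem hb₂.1) with h | h
      · left; rw [h]; group
      · right; rw [h]; group
    rw [← mem_zpowers_invol hF.zz] at hx₁ hx₂ hx₃
    have hp₂F : (a₂ * a₁) * q * (a₂ * a₁)⁻¹ ∈ F := by
      apply hF.norm _ _ q hqF
      rw [mul_assoc, ha₁x, ← mul_assoc, ha₂x, mul_assoc]
    have haz : (a₂ * a₁) * z = z * (a₂ * a₁) := hE.cen _ (E.mul_mem ha₂ ha₁)
    have hkey : ((a₂ * a₁) * q * (a₂ * a₁)⁻¹)⁻¹ * (z * ((a₂ * a₁) * q * (a₂ * a₁)⁻¹) * z⁻¹)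
        ∈ Subgroup.zpowers x := by
      have e : ((a₂ * a₁) * q * (a₂ * a₁)⁻¹)⁻¹ * (z * ((a₂ * a₁) * q * (a₂ * a₁)⁻¹) * z⁻¹)
          = (b₁⁻¹ * (a₂ * b₁ * a₂⁻¹))⁻¹ * (b₁⁻¹ * b₂⁻¹ * b₁⁻¹⁻¹ * b₂) * (b₂⁻¹ * (a₁ * b₂ * a₁⁻¹)) := by
        have e1 : z * ((a₂ * a₁) * q * (a₂ * a₁)⁻¹) * z⁻¹ = (a₁ * a₂) * q * (a₁ * a₂)⁻¹ := by
          rw [ha12]; group
        rw [e1, hb₁d, hb₂d]
        group
      rw [e]
      exact Subgroup.mul_mem _ (Subgroup.mul_mem _ (Subgroup.inv_mem _ hx₂) hx₃) hx₁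
    rw [mem_zpowers_invol hF.zz] at hkey
    have hpz := h2 _ hp₂F hkey
    apply hqB
    refine ⟨hqF, Subgroup.mem_centralizer_singleton_iff.2 ?_⟩
    have hazi : (a₂ * a₁)⁻¹ * z = z * (a₂ * a₁)⁻¹ := by
      calc (a₂ * a₁)⁻¹ * z = (a₂ * a₁)⁻¹ * (z * (a₂ * a₁)) * (a₂ * a₁)⁻¹ := by group
        _ = (a₂ * a₁)⁻¹ * ((a₂ * a₁) * z) * (a₂ * a₁)⁻¹ := by rw [haz]
        _ = z * (a₂ * a₁)⁻¹ := by group
    calc q * z = (a₂ * a₁)⁻¹ * (((a₂ * a₁) * q * (a₂ * a₁)⁻¹) * ((a₂ * a₁) * z)) := by group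
      _ = (a₂ * a₁)⁻¹ * ((((a₂ * a₁) * q * (a₂ * a₁)⁻¹) * z) * (a₂ * a₁)) := by rw [haz]; group
      _ = ((a₂ * a₁)⁻¹ * z) * (((a₂ * a₁) * q * (a₂ * a₁)⁻¹) * (a₂ * a₁)) := by rw [hpz]; group
      _ = z * q := by rw [hazi]; group

end Cfsg.Agent.H22
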