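import Mathlib
import Cfsg.Prelude.Def_Transfer
import Cfsg.Prelude.Def_Solvable
import Cfsg.Agent.H12.Cores
import Cfsg.Agent.H1.Small2
import Cfsg.Agent.Lib.Helper22.LargeEx2

/-! Large extraspecial 2-subgroups: the `O₂(C(x))` setting (helper22). -/

set_option autoImplicit false

namespace Cfsg.Agent.H22

open Subgroup

variable {G : Type*} [Group G]

/-- `O₂(C_G(y))`. -/
def oTwo (y : G) : Subgroup G :=
  (Cfsg.pCore 2 ↥(centralizer ({y} : Set G))).map (centralizer ({y} : Set G)).subtype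

theorem oTwo_le (y : G) : oTwo y ≤ centralizer ({y} : Set G) := map_subtype_le _

theorem oTwo_comm {y e : G} (he : e ∈ oTwo y) : e * y = y * e :=
  mem_centralizer_singleton_iff.1 (oTwo_le y he)

theorem oTwo_isPGroup (y : G) : IsPGroup 2 (oTwo y) := (Cfsg.Agent.H12.pCore_isPGroup 2 _).map _

theorem oTwo_norm (y : G) {h : G} (hh : h * y = y * h) {e : G} (he : e ∈ oTwo y) :
    h * e * h⁻¹ ∈ oTwo y := by
  obtain ⟨e', he', rfl⟩ := he
  haveI := Cfsg.Agent.H12.pCore_characteristic 2 ↥(centralizer ({y} : Set G))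
  have hn : (Cfsg.pCore 2 ↥(centralizer ({y} : Set G))).Normal := inferInstance
  exact ⟨_, hn.conj_mem e' he' ⟨h, mem_centralizer_singleton_iff.2 hh⟩, rfl⟩

theorem le_oTwo {y : G} {D : Subgroup G} (h1 : ∀ d ∈ D, d * y = y * d)
    (h2 : ∀ h : G, h * y = y * h → ∀ d ∈ D, h * d * h⁻¹ ∈ D) (h3 : IsPGroup 2 D) : D ≤ oTwo y := by
  have hle : D ≤ centralizer ({y} : Set G) := fun d hd => mem_centralizer_singleton_iff.2 (h1 d hd)
  intro d hd
  refine ⟨⟨d, hle hd⟩, ?_, rfl⟩
  have hnorm : (D.subgroupOf (centralizer ({y} : Set G))).Normal := by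
    constructor
    rintro ⟨b, hb⟩ hbD ⟨c, hc⟩
    exact mem_subgroupOf.2 (h2 c (mem_centralizer_singleton_iff.1 hc) b (mem_subgroupOf.1 hbD))
  have hp' : IsPGroup 2 (D.subgroupOf (centralizer ({y} : Set G))) :=
    h3.of_injective (D.subgroupOfEquivOfLe hle).toMonoidHom (MulEquiv.injective _)
  exact Cfsg.Agent.H12.le_pCore hnorm hp' (mem_subgroupOf.2 hd)

theorem map_conj_oTwo_le (y g : G) :
    (oTwo y).map (MulAut.conj g).toMonoidHom ≤ oTwo (g * y * g⁻¹) := by
  apply le_oTwo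
  · intro d hd
    rw [mem_map_conj_iff'] at hd
    have := oTwo_comm hd
    calc d * (g * y * g⁻¹) = g * ((g⁻¹ * d * g) * y) * g⁻¹ := by group
      _ = g * (y * (g⁻¹ * d * g)) * g⁻¹ := by rw [this]
      _ = g * y * g⁻¹ * d := by group
  · intro h hh d hd
    rw [mem_map_conj_iff'] at hd ⊢
    have h1 : (g⁻¹ * h * g) * y = y * (g⁻¹ * h * g) := by
      calc (g⁻¹ * h * g) * y = g⁻¹ * (h * (g * y * g⁻¹)) * g := by group
        _ = g⁻¹ * ((g * y * g⁻¹) * h) * g := by rw [hh]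
        _ = y * (g⁻¹ * h * g) := by group
    have h2 := oTwo_norm y h1 hd
    convert h2 using 1
    group
  · exact (oTwo_isPGroup y).map _

theorem oTwo_conj (y g : G) :
    oTwo (g * y * g⁻¹) = (oTwo y).map (MulAut.conj g).toMonoidHom := by
  apply le_antisymm _ (map_conj_oTwo_le y g)
  intro e he
  rw [mem_map_conj_iff']
  have h1 := map_conj_oTwo_le (g * y * g⁻¹) g⁻¹
  have e1 : g⁻¹ * (g * y * g⁻¹) * g⁻¹⁻¹ = y := by group
  rw [e1] at h1
  apply h1
  rw [mem_map_conj_iff']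
  convert he using 1
  group

theorem self_mem_oTwo {z : G} (hz : orderOf z = 2) : z ∈ oTwo z := by
  have : zpowers z ≤ oTwo z := by
    apply le_oTwo
    · intro d hd
      obtain ⟨k, rfl⟩ := hd
      exact ((Commute.refl z).zpow_left k).eq
    · intro h hh d hd
      obtain ⟨k, rfl⟩ := hd
      have : h * z ^ k * h⁻¹ = z ^ k := by
        have hc : Commute h (z ^ k) := (show Commute h z from hh).zpow_right k
        rw [hc.eq]; group
      show h * z ^ k * h⁻¹ ∈ zpowers z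
      rw [this]; exact zpow_mem (mem_zpowers z) k
    · apply IsPGroup.of_card (n := 1)
      rw [Nat.card_zpowers, hz, pow_one]
  exact this (mem_zpowers z)

theorem exC_oTwo [Finite G] {z : G} (hz : orderOf z = 2) (hE : Cfsg.IsExtraspecial 2 ↥(oTwo z))
    (hC : centralizer ((oTwo z : Subgroup G) : Set G) ≤ oTwo z) : ExC (oTwo z) z := by
  classical
  haveI : Fact (Nat.Prime 2) := ⟨Nat.prime_two⟩
  have hzz : z * z = 1 := by
    have := pow_orderOf_eq_one z
    rwa [hz, sq] at this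
  have hz1 : z ≠ 1 := by
    intro h; rw [h, orderOf_one] at hz; norm_num at hz
  have hzm := self_mem_oTwo hz
  obtain ⟨⟨hP, hfr, hcm⟩, hcard⟩ := hE
  have hzc : (⟨z, hzm⟩ : ↥(oTwo z)) ∈ center ↥(oTwo z) := by
    rw [mem_center_iff]
    intro a
    exact Subtype.ext (oTwo_comm a.2)
  have hcen : ∀ c : ↥(oTwo z), c ∈ center ↥(oTwo z) → (c : G) = 1 ∨ (c : G) = z := by
    intro c hc
    obtain ⟨y, hy, hyu⟩ := (Nat.card_eq_two_iff' (1 : ↥(center ↥(oTwo z)))).1 hcard
    by_cases h1 : (c : G) = 1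
    · exact Or.inl h1
    · right
      have e1 : (⟨c, hc⟩ : ↥(center ↥(oTwo z))) = y := hyu _ (by
        intro h
        apply h1
        have := congrArg (fun t : ↥(center ↥(oTwo z)) => ((t : ↥(oTwo z)) : G)) h
        simpa using this)
      have e2 : (⟨⟨z, hzm⟩, hzc⟩ : ↥(center ↥(oTwo z))) = y := hyu _ (by
        intro h
        apply hz1
        have := congrArg (fun t : ↥(center ↥(oTwo z)) => ((t : ↥(oTwo z)) : G)) h
        simpa using this)
      have := congrArg (fun t : ↥(center ↥(oTwo z)) => ((t : ↥(oTwo z)) : G)) (e1.trans e2.symm)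
      simpa using this
  have hfr2 := Cfsg.H1.frattini_pgroup_ge 2 hP
  refine ⟨hzm, hzz, hz1, fun e he => oTwo_comm he, ?_, ?_, ?_, fun h hh e he => oTwo_norm z hh he,
    ?_, oTwo_isPGroup z⟩
  · intro a ha b hb
    have h1 : (⟨a, ha⟩ : ↥(oTwo z)) * ⟨b, hb⟩ * (⟨a, ha⟩ : ↥(oTwo z))⁻¹ *
        (⟨b, hb⟩ : ↥(oTwo z))⁻¹ ∈ commutator ↥(oTwo z) := by
      rw [commutator_def]
      exact commutator_mem_commutator (mem_top _) (mem_top _)
    rw [hcm] at h1
    rcases hcen _ h1 with h | h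
    · left
      have h' : a * b * a⁻¹ * b⁻¹ = 1 := h
      calc a * b * a⁻¹ = (a * b * a⁻¹ * b⁻¹) * b := by group
        _ = b := by rw [h', one_mul]
    · right
      have h' : a * b * a⁻¹ * b⁻¹ = z := h
      calc a * b * a⁻¹ = (a * b * a⁻¹ * b⁻¹) * b := by group
        _ = z * b := by rw [h']
  · intro a ha
    have h1 := hfr2.2 ⟨a, ha⟩
    rw [hfr] at h1
    have := hcen _ h1
    simpa [sq] using this
  · intro c hc hcc
    apply hcen ⟨c, hc⟩
    rw [mem_center_iff]
    intro a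
    exact Subtype.ext (hcc a a.2)
  · intro h hh
    apply hC
    rw [mem_centralizer_iff]
    intro e he
    exact (hh e he).symm

/-- Orthogonality is symmetric. -/
theorem oTwo_symm [Finite G] {a : G} (hE : ExC (oTwo a) a) (g : G) (hx : g * a * g⁻¹ ∈ oTwo a) :
    a ∈ oTwo (g * a * g⁻¹) := by
  have hF : ExC (oTwo (g * a * g⁻¹)) (g * a * g⁻¹) := by
    rw [oTwo_conj]; exact hE.conj g
  apply hE.symm_mem hF _ hx
  intro w hw e he
  rw [← hw, oTwo_conj, mem_map_conj_iff']
  convert he using 1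
  group

end Cfsg.Agent.H22
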