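import Mathlib
import Cfsg.Agent.Lib.Helper22.LargeEx3

/-! Large extraspecial 2-subgroups: nondegeneracy in elementwise form (helper22). -/

set_option autoImplicit false

namespace Cfsg.Agent.H22

open Subgroup

variable {G : Type*} [Group G]

theorem ExC.exists_perp [DecidableEq G] {E : Subgroup G} {z : G} (hE : ExC E z) (s : Finset G) :
    (∀ v ∈ s, v ∈ E) → ∀ x ∈ E, x ∉ closure (insert z (s : Set G)) →
      ∃ g ∈ E, (∀ v ∈ s, g * v = v * g) ∧ g * x * g⁻¹ = z * x := by
  induction s using Finset.induction_on with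
  | empty =>
    intro _ x hx hxs
    have hx1 : x ≠ 1 := fun h => hxs (h ▸ one_mem _)
    have hxz : x ≠ z := fun h => hxs (h ▸ subset_closure (Set.mem_insert _ _))
    obtain ⟨u, hu, hux⟩ := hE.exists_u hx hx1 hxz
    exact ⟨u, hu, by simp, hux⟩
  | insert v s hvs ih =>
    intro hs x hx hxs
    have hvE : v ∈ E := hs v (Finset.mem_insert_self v s)
    have hsE : ∀ w ∈ s, w ∈ E := fun w hw => hs w (Finset.mem_insert_of_mem hw)
    rw [Finset.coe_insert] at hxs
    have hmono : closure (insert z (s : Set G)) ≤ closure (insert z (insert v (s : Set G))) := by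
      apply Subgroup.closure_mono
      intro y hy
      rcases hy with rfl | hy
      · exact Set.mem_insert _ _
      · exact Set.mem_insert_of_mem _ (Set.mem_insert_of_mem _ hy)
    have hvc : v ∈ closure (insert z (insert v (s : Set G))) :=
      subset_closure (Set.mem_insert_of_mem _ (Set.mem_insert _ _))
    have hx1 : x ∉ closure (insert z (s : Set G)) := fun h => hxs (hmono h)
    have hx2 : x * v ∉ closure (insert z (s : Set G)) := by
      intro h
      apply hxs
      have := mul_mem (hmono h) (inv_mem hvc)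
      simpa using this
    obtain ⟨g₁, hg₁, hg₁s, hg₁x⟩ := ih hsE x hx hx1
    obtain ⟨g₃, hg₃, hg₃s, hg₃x⟩ := ih hsE (x * v) (E.mul_mem hx hvE) hx2
    have comm_of : ∀ g y : G, g * y * g⁻¹ = y → g * y = y * g := by
      intro g y h
      calc g * y = g * y * g⁻¹ * g := by group
        _ = y * g := by rw [h]
    have hxz : x * z = z * x := hE.cen x hx
    rcases hE.comm g₁ hg₁ v hvE with h1 | h1
    · refine ⟨g₁, hg₁, ?_, hg₁x⟩
      intro w hw
      rcases Finset.mem_insert.1 hw with rfl | hw
      · exact comm_of _ _ h1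
      · exact hg₁s w hw
    · have hprod : (g₃ * x * g₃⁻¹) * (g₃ * v * g₃⁻¹) = z * (x * v) := by
        rw [← hg₃x]; group
      rcases hE.comm g₃ hg₃ x hx with h3 | h3 <;> rcases hE.comm g₃ hg₃ v hvE with h4 | h4
      · exfalso
        rw [h3, h4] at hprod
        exact hE.z1 (mul_eq_right.mp hprod.symm)
      · -- g₁ * g₃
        refine ⟨g₁ * g₃, E.mul_mem hg₁ hg₃, ?_, ?_⟩
        · intro w hw
          rcases Finset.mem_insert.1 hw with rfl | hw
          · apply comm_of
            calc g₁ * g₃ * w * (g₁ * g₃)⁻¹ = g₁ * (g₃ * w * g₃⁻¹) * g₁⁻¹ := by group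
              _ = g₁ * (z * w) * g₁⁻¹ := by rw [h4]
              _ = (g₁ * z) * g₁⁻¹ * (g₁ * w * g₁⁻¹) := by group
              _ = (z * g₁) * g₁⁻¹ * (z * w) := by rw [hE.cen g₁ hg₁, h1]
              _ = (z * z) * w := by group
              _ = w := by rw [hE.zz, one_mul]
          · rw [mul_assoc, hg₃s w hw, ← mul_assoc, hg₁s w hw, mul_assoc]
        · calc g₁ * g₃ * x * (g₁ * g₃)⁻¹ = g₁ * (g₃ * x * g₃⁻¹) * g₁⁻¹ := by group
            _ = g₁ * x * g₁⁻¹ := by rw [h3]
            _ = z * x := hg₁x
      · refine ⟨g₃, hg₃, ?_, h3⟩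
        intro w hw
        rcases Finset.mem_insert.1 hw with rfl | hw
        · exact comm_of _ _ h4
        · exact hg₃s w hw
      · exfalso
        rw [h3, h4] at hprod
        have e : z * x * (z * v) = x * v := by
          calc z * x * (z * v) = z * (x * z) * v := by group
            _ = (z * z) * x * v := by rw [hxz]; group
            _ = x * v := by rw [hE.zz]; group
        rw [e] at hprod
        exact hE.z1 (mul_eq_right.mp hprod.symm)

/-- Version for a subgroup `U ≤ E` containing `z`. -/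
theorem ExC.exists_perp_subgroup [Finite G] {E : Subgroup G} {z : G} (hE : ExC E z) (U : Subgroup G)
    (hUE : U ≤ E) (hzU : z ∈ U) {x : G} (hx : x ∈ E) (hxU : x ∉ U) :
    ∃ g ∈ E, (∀ v ∈ U, g * v = v * g) ∧ g * x * g⁻¹ = z * x := by
  classical
  have hfin : (U : Set G).Finite := Set.toFinite _
  obtain ⟨g, hg, hgs, hgx⟩ := hE.exists_perp hfin.toFinset
    (fun v hv => hUE (hfin.mem_toFinset.1 hv)) x hx (by
      rw [hfin.coe_toFinset, Set.insert_eq_of_mem (show z ∈ (U : Set G) from hzU), closure_eq]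
      exact hxU)
  exact ⟨g, hg, fun v hv => hgs v (hfin.mem_toFinset.2 hv), hgx⟩

end Cfsg.Agent.H22
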