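import Mathlib
import Cfsg.Agent.Lib.Helper22.MaxCent1

set_option autoImplicit false
set_option linter.unusedSectionVars false
open Subgroup Cfsg.Agent.Lib.Helper22

namespace Cfsg.Agent.Lib.Helper22.MaxCent

variable {G : Type*} [Group G] [Finite G]

local notation "C" x:max => centralizer ({x} : Set G)

section caseA


theorem A_fact1 (h : Hyp G) (g : G) (hg : g ∉ center G)
    (hab : ∀ a ∈ C g, ∀ b ∈ C g, a * b = b * a) (a : G) (ha : a ∈ C g) (haZ : a ∉ center G) : (C a) = C g := by
  refine (eq_of_le h hg haZ ?_).symm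
  intro m hm
  rw [mem_centralizer_singleton_iff]
  exact hab m hm a ha

theorem A_fact2 (h : Hyp G) (hNN : ∀ g : G, g ∉ center G → ¬ (C g).Normal) (g : G) (hg : g ∉ center G)
    (hab : ∀ a ∈ C g, ∀ b ∈ C g, a * b = b * a) (a : G) (ha : a ∈ C g) (haZ : a ∉ center G) (t : G) (ht : t⁻¹ * a * t ∈ C g) :
    t ∈ C g := by
  have h1 : (C (t⁻¹ * a * t)) = C g := A_fact1 h g hg hab _ ht (conj_notMem_center haZ t)
  have h2 : (C a) = C g := A_fact1 h g hg hab a ha haZ
  rw [← normalizer_eq h hNN g hg, mem_normalizer_iff]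
  intro m
  rw [← h1, mem_cent_conj, h2, h1]

theorem A_key (h : Hyp G) (hNN : ∀ g : G, g ∉ center G → ¬ (C g).Normal) (g : G) (hg : g ∉ center G)
    (hab : ∀ a ∈ C g, ∀ b ∈ C g, a * b = b * a) (a : G) (ha : a ∈ C g) (k : ℕ) (t : G) (ht : t⁻¹ * a ^ k * t ∈ C g) :
    t⁻¹ * a ^ k * t = a ^ k := by
  by_cases hZ : a ^ k ∈ center G
  · rw [mul_assoc, (mem_center_iff.1 hZ t).symm, inv_mul_cancel_left]
  · have htM := A_fact2 h hNN g hg hab (a ^ k) ((C g).pow_mem ha k) hZ t ht
    rw [mul_assoc, ← hab t htM _ ((C g).pow_mem ha k), inv_mul_cancel_left]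

theorem A_index (h : Hyp G) (hNN : ∀ g : G, g ∉ center G → ¬ (C g).Normal) (g : G) (hg : g ∉ center G)
    (hab : ∀ a ∈ C g, ∀ b ∈ C g, a * b = b * a) (q : ℕ) (hq : q.Prime) (a : G) (ha : a ∈ C g) (haZ : a ∉ center G)
    (hao : ∃ e, orderOf a = q ^ e) : ¬ q ∣ (C g).index := by
  have : Fact q.Prime := ⟨hq⟩
  have hP : IsPGroup q (zpowers a) := by
    obtain ⟨e, he⟩ := hao
    apply IsPGroup.of_card (n := e)
    rw [Nat.card_zpowers, he]
  have h1 := hP.card_modEq_card_fixedPoints (G ⧸ (C g))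
  have h2 : MulAction.fixedPoints (zpowers a) (G ⧸ (C g)) = {((1 : G) : G ⧸ (C g))} := by
    ext x
    obtain ⟨t, rfl⟩ := QuotientGroup.mk_surjective x
    rw [Set.mem_singleton_iff, MulAction.mem_fixedPoints]
    constructor
    · intro hfix
      have h3 := hfix ⟨a, mem_zpowers a⟩
      have h4 : ((a * t : G) : G ⧸ (C g)) = (t : G ⧸ (C g)) := h3
      rw [QuotientGroup.eq] at h4
      have h5 : t⁻¹ * a⁻¹ * t ∈ C g := by simpa [mul_assoc] using h4
      have h6 : t⁻¹ * a * t ∈ C g := by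
        have := (C g).inv_mem h5
        simpa [mul_assoc] using this
      have h7 := A_fact2 h hNN g hg hab a ha haZ t h6
      rw [QuotientGroup.eq]
      simpa using (C g).inv_mem h7
    · intro hx y
      obtain ⟨y, hy⟩ := y
      have hyM : y ∈ C g := by
        rw [mem_zpowers_iff] at hy
        obtain ⟨k, rfl⟩ := hy
        exact (C g).zpow_mem ha k
      have htM : t ∈ C g := by
        rw [QuotientGroup.eq] at hx
        simpa using (C g).inv_mem hx
      change ((y * t : G) : G ⧸ (C g)) = (t : G ⧸ (C g))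
      rw [QuotientGroup.eq]
      exact (C g).mul_mem ((C g).inv_mem ((C g).mul_mem hyM htM)) htM
  rw [h2] at h1
  have h1' : Nat.card (({((1 : G) : G ⧸ (C g))} : Set (G ⧸ (C g)))) = 1 := by simp
  rw [h1'] at h1
  intro hdvd
  have h3 : Nat.card (G ⧸ (C g)) ≡ 0 [MOD q] := (Nat.modEq_zero_iff_dvd).2 hdvd
  have h4 : 1 ≡ 0 [MOD q] := h1.symm.trans h3
  have := (Nat.modEq_zero_iff_dvd).1 h4
  exact hq.one_lt.ne' (Nat.dvd_one.1 this)

open scoped IsMulCommutative in
theorem caseA (h : Hyp G) (hNN : ∀ g : G, g ∉ center G → ¬ (C g).Normal) (g : G) (hg : g ∉ center G)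
    (hab : ∀ a ∈ C g, ∀ b ∈ C g, a * b = b * a) : False := by
  have hcomm : IsMulCommutative (C g) := ⟨⟨fun a b => Subtype.ext (hab a a.2 b b.2)⟩⟩
  let V : G →* (C g) := MonoidHom.transfer (MonoidHom.id (C g))
  have hV1 : ∀ a ∈ C g, ((V a : (C g)) : G) = a ^ (C g).index := by
    intro a ha
    have := MonoidHom.transfer_eq_pow (MonoidHom.id (C g)) a (A_key h hNN g hg hab a ha)
    rw [show V a = _ from this]
    rfl
  have hV2 : ∀ c : G, (∀ (j : ℕ) (t : G), t⁻¹ * c ^ j * t ∈ C g → c ^ j ∈ center G) →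
      ((V c : C g) : G) ∈ center G := by
    intro c hc
    classical
    have := Fintype.ofFinite (Quotient (MulAction.orbitRel (zpowers c) (G ⧸ (C g))))
    have h1 := MonoidHom.transfer_eq_prod_quotient_orbitRel_zpowers_quot (MonoidHom.id (C g)) c
    have h2 : V c ∈ (center G).subgroupOf (C g) := by
      rw [show V c = _ from h1]
      apply Subgroup.prod_mem
      intro q _
      rw [mem_subgroupOf]
      simp only [MonoidHom.id_apply]
      have hmem := QuotientGroup.out_conj_pow_minimalPeriod_mem (C g) c q.out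
      have hz := hc _ _ hmem
      have := (inferInstance : (center G).Normal).conj_mem _ hz (q.out.out⁻¹)
      simpa [mul_assoc] using this
    exact h2
  let K0 : Subgroup G := ((center G).subgroupOf (C g)).comap V
  have hK0mem : ∀ x : G, x ∈ K0 ↔ ((V x : C g) : G) ∈ center G := fun x => Iff.rfl
  have hK0n : K0.Normal := Subgroup.Normal.comap inferInstance V
  have hcomK0 : _root_.commutator G ≤ K0 := by
    refine le_trans (Abelianization.commutator_subset_ker V) ?_
    intro x hx
    rw [hK0mem, MonoidHom.mem_ker.1 hx]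
    exact (center G).one_mem
  -- K0 ∩ M ≤ Z
  have h7 : ∀ k ∈ K0, k ∈ C g → k ∈ center G := by
    intro k hk hkM
    by_contra hkZ
    obtain ⟨q, hq, j, hj, hjo⟩ := exists_prime_pow k hkZ
    have hjM : k ^ j ∈ C g := (C g).pow_mem hkM j
    have hqn := A_index h hNN g hg hab q hq (k ^ j) hjM hj hjo
    rw [hK0mem, hV1 k hkM] at hk
    have h8 : (k ^ j) ^ (C g).index ∈ center G := by
      rw [← pow_mul, mul_comm, pow_mul]
      exact (center G).pow_mem hk j
    obtain ⟨e, he⟩ := hjo
    have hcop : ((C g).index).Coprime (orderOf (k ^ j)) := by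
      rw [he]
      exact Nat.Coprime.pow_right e ((Nat.Prime.coprime_iff_not_dvd hq).2 hqn).symm
    obtain ⟨l, hl⟩ := exists_pow_eq_self_of_coprime hcop
    apply hj
    rw [← hl]
    exact (center G).pow_mem h8 l
  have h7' : ∀ k ∈ K0, ∀ t : G, t⁻¹ * k * t ∈ C g → k ∈ center G := by
    intro k hk t ht
    have h1 : t⁻¹ * k * t ∈ K0 := by
      have := hK0n.conj_mem k hk t⁻¹
      simpa using this
    by_contra hkZ
    exact conj_notMem_center hkZ t (h7 _ h1 ht)
  have hgM : g ∈ C g := by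
    rw [mem_centralizer_singleton_iff]
  have h8 : K0 ≠ ⊤ := by
    intro htop
    exact hg (h7 g (htop ▸ mem_top g) hgM)
  have h9 : ∃ k ∈ K0, k ∉ center G := by
    by_contra hcon
    push Not at hcon
    apply hNN g hg
    apply Subgroup.Normal.of_commutator_le
    refine le_trans hcomK0 ?_
    intro k hk
    rw [mem_centralizer_singleton_iff]
    exact (mem_center_iff.1 (hcon k hk) g).symm
  obtain ⟨k, hk, hkZ⟩ := h9
  have h10 : (C k) ≤ K0 := by
    intro c hc
    rw [hK0mem]
    apply hV2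
    intro j t ht
    by_contra hcj
    have h1 : (C (t⁻¹ * c ^ j * t)) = C g := A_fact1 h g hg hab _ ht (conj_notMem_center hcj t)
    have h2 : t⁻¹ * k * t ∈ C (t⁻¹ * c ^ j * t) := by
      rw [mem_cent_conj]
      have : t * (t⁻¹ * k * t) * t⁻¹ = k := by simp [mul_assoc]
      rw [this, mem_centralizer_singleton_iff]
      rw [mem_centralizer_singleton_iff] at hc
      exact ((show Commute c k from hc).pow_left j).symm.eq
    rw [h1] at h2
    exact hkZ (h7' k hk t h2)
  rcases (h k hkZ).le_iff.1 h10 with h11 | h11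
  · exact h8 h11
  · exact hNN k hkZ (h11 ▸ hK0n)

end caseA

end Cfsg.Agent.Lib.Helper22.MaxCent
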