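import Mathlib
import Cfsg.Agent.Lib.Helper22.MaxCent1
import Cfsg.Agent.Lib.Helper22.Basic2

set_option autoImplicit false
set_option linter.unusedSectionVars false
open Subgroup Cfsg.Agent.Lib.Helper22

namespace Cfsg.Agent.Lib.Helper22.MaxCent

variable {G : Type*} [Group G] [Finite G]

local notation "C" x:max => centralizer ({x} : Set G)

/-- `C g` has type `p`: it is a `p`-group modulo the centre of `G`. -/
def IsType (p : ℕ) (g : G) : Prop := ∀ m ∈ C g, ∃ e : ℕ, m ^ (p ^ e) ∈ center G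

theorem B_type (h : Hyp G) (hB : ∀ g : G, g ∉ center G → ¬ (∀ a ∈ C g, ∀ b ∈ C g, a * b = b * a))
    (g : G) (hg : g ∉ center G) : ∃ p : ℕ, p.Prime ∧ IsType p g := by
  obtain ⟨p, hp, x, hx, hxp, hC⟩ := reduce h g hg
  refine ⟨p, hp, ?_⟩
  unfold IsType
  rw [← hC]
  have hcen : ∀ y ∈ C x, (orderOf y).Coprime p → y ∈ center G := by
    intro y hy hyp
    by_contra hyZ
    apply hB x hx
    have hcxy : Commute x y := by
      rw [mem_centralizer_singleton_iff] at hy
      exact hy.symm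
    obtain ⟨k, hk⟩ := hxp
    have hCxy : (C x) = C y := key h hcxy (by rw [hk]; exact (hyp.pow_right k).symm) hx hyZ
    have hmain : ∀ u ∈ C x, ∀ m ∈ C x, m * u = u * m := by
      intro u hu m hm
      obtain ⟨a, b, hab, ⟨k', hk'⟩, hcop⟩ := exists_pow_decomp p hp u (orderOf_pos u)
      have h1 : m * u ^ b = u ^ b * m :=
        pprime_comm h hx ⟨k, hk⟩ ((C x).pow_mem hu b) hcop m hm
      have h2 : m * u ^ a = u ^ a * m := by
        by_cases hua : u ^ a ∈ center G
        · exact mem_center_iff.1 hua m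
        · have hc2 : Commute y (u ^ a) := by
            have : u ^ a ∈ C y := hCxy ▸ (C x).pow_mem hu a
            rw [mem_centralizer_singleton_iff] at this
            exact this.symm
          have := key h hc2 (by rw [hk']; exact hyp.pow_right k') hyZ hua
          rw [hCxy, this, mem_centralizer_singleton_iff] at hm
          exact hm
      rw [← hab, ← mul_assoc, h2, mul_assoc, h1, mul_assoc]
    intro a ha b hb
    exact hmain b hb a ha
  intro m hm
  exact ⟨_, hcen _ ((C x).pow_mem hm _) (coprime_orderOf_pow p hp m)⟩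

theorem center_le_cent (g : G) : center G ≤ C g := by
  intro z hz
  rw [mem_centralizer_singleton_iff]
  exact (mem_center_iff.1 hz g).symm

theorem B_card (hB : ∀ g : G, g ∉ center G → ¬ (∀ a ∈ C g, ∀ b ∈ C g, a * b = b * a))
    (g : G) (hg : g ∉ center G) (p : ℕ) (hp : p.Prime) (hty : IsType p g) :
    p ^ 2 * Nat.card (center (C g)) ≤ Nat.card (C g) := by
  have : Fact p.Prime := ⟨hp⟩
  have hP : IsPGroup p ((C g) ⧸ center (C g)) := by
    intro q
    obtain ⟨m, rfl⟩ := QuotientGroup.mk_surjective q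
    obtain ⟨e, he⟩ := hty m m.2
    refine ⟨e, ?_⟩
    rw [← QuotientGroup.mk_pow, QuotientGroup.eq_one_iff, mem_center_iff]
    intro m'
    apply Subtype.ext
    simp only [Subgroup.coe_mul, Subgroup.coe_pow]
    exact mem_center_iff.1 he m'
  obtain ⟨k, hk⟩ := IsPGroup.iff_card.1 hP
  have hk2 : 2 ≤ k := by
    by_contra hlt
    have hcyc : IsCyclic ((C g) ⧸ center (C g)) := by
      have hk01 : k = 0 ∨ k = 1 := by omega
      rcases hk01 with rfl | rfl
      · rw [pow_zero] at hk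
        have := (Nat.card_eq_one_iff_unique.1 hk).1
        exact isCyclic_of_subsingleton
      · rw [pow_one] at hk
        exact isCyclic_of_prime_card hk
    apply hB g hg
    intro a ha b hb
    have := commutative_of_cyclic_center_quotient (QuotientGroup.mk' (center (C g)))
      (by rw [QuotientGroup.ker_mk']) (⟨a, ha⟩ : C g) ⟨b, hb⟩
    exact congrArg Subtype.val this
  rw [card_eq_card_quotient_mul_card_subgroup (center (C g)), hk]
  exact Nat.mul_le_mul_right _ (Nat.pow_le_pow_right hp.pos hk2)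

theorem B_conj (h : Hyp G) (hNN : ∀ g : G, g ∉ center G → ¬ (C g).Normal) (p : ℕ) (hp : p.Prime)
    (g g' : G) (hg : g ∉ center G) (hty : IsType p g) (hty' : IsType p g') :
    ∃ t : G, ∀ m ∈ C g', t⁻¹ * m * t ∈ C g := by
  have : Fact p.Prime := ⟨hp⟩
  have hsur : Function.Surjective (QuotientGroup.mk' (center G)) := QuotientGroup.mk'_surjective _
  have hpg : ∀ x : G, IsType p x → IsPGroup p ((C x).map (QuotientGroup.mk' (center G))) := by
    intro x hx y
    obtain ⟨y, m, hm, rfl⟩ := y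
    obtain ⟨e, he⟩ := hx m hm
    refine ⟨e, Subtype.ext ?_⟩
    simp only [Subgroup.coe_pow, Subgroup.coe_one]
    rw [← map_pow, QuotientGroup.mk'_apply, QuotientGroup.eq_one_iff]
    exact he
  have hker : (QuotientGroup.mk' (center G)).ker ≤ C g := by
    rw [QuotientGroup.ker_mk']; exact center_le_cent g
  have hN : normalizer (((C g).map (QuotientGroup.mk' (center G)) : Subgroup (G ⧸ center G)) : Set (G ⧸ center G))
      = (C g).map (QuotientGroup.mk' (center G)) := by
    apply comap_injective hsur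
    rw [comap_normalizer_eq_of_surjective _ hsur, comap_map_eq_self hker]
    exact normalizer_eq h hNN g hg
  obtain ⟨t, ht⟩ := exists_conj_mem_of_isPGroup _ _ (hpg g hty)
    (not_dvd_index_of_normalizer_eq _ (hpg g hty) hN) (hpg g' hty')
  obtain ⟨t, rfl⟩ := hsur t
  refine ⟨t, fun m hm => ?_⟩
  have h1 := ht _ (mem_map_of_mem _ hm)
  rw [← map_inv, ← map_mul, ← map_mul, ← mem_comap, comap_map_eq_self hker] at h1
  exact h1


theorem self_mem_cent (x : G) : x ∈ C x := by
  rw [mem_centralizer_singleton_iff]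

/-- two types of one noncentral element agree. -/
theorem type_unique {p q : ℕ} (hp : p.Prime) (hq : q.Prime) (x : G) (hx : x ∉ center G)
    (h1 : ∃ e, x ^ (p ^ e) ∈ center G) (h2 : ∃ e, x ^ (q ^ e) ∈ center G) : p = q := by
  by_contra hne
  obtain ⟨e, he⟩ := h1
  obtain ⟨f, hf⟩ := h2
  have hcop : (p ^ e).Coprime (q ^ f) := Nat.Coprime.pow e f ((Nat.coprime_primes hp hq).2 hne)
  apply hx
  have h3 : (x : G) ^ ((p ^ e : ℕ) : ℤ) ∈ center G := by rw [zpow_natCast]; exact he
  have h4 : (x : G) ^ ((q ^ f : ℕ) : ℤ) ∈ center G := by rw [zpow_natCast]; exact hf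
  have hb := Nat.gcd_eq_gcd_ab (p ^ e) (q ^ f)
  rw [hcop.gcd_eq_one] at hb
  have : x = (x ^ ((p ^ e : ℕ) : ℤ)) ^ (Nat.gcdA (p ^ e) (q ^ f)) *
      (x ^ ((q ^ f : ℕ) : ℤ)) ^ (Nat.gcdB (p ^ e) (q ^ f)) := by
    rw [← zpow_mul, ← zpow_mul, ← zpow_add, ← hb]
    simp
  rw [this]
  exact (center G).mul_mem ((center G).zpow_mem h3 _) ((center G).zpow_mem h4 _)

theorem B_cover (h : Hyp G) (hNN : ∀ g : G, g ∉ center G → ¬ (C g).Normal)
    (hB : ∀ g : G, g ∉ center G → ¬ (∀ a ∈ C g, ∀ b ∈ C g, a * b = b * a))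
    (p : ℕ) (hp : p.Prime) (g : G) (hg : g ∉ center G) (hty : IsType p g)
    (x : G) (hx : ∃ e, x ^ (p ^ e) ∈ center G) :
    ∃ (q : G ⧸ (C g)) (a : center (C g)), q.out * ((a : C g) : G) * q.out⁻¹ = x := by
  by_cases hxZ : x ∈ center G
  · refine ⟨((1 : G) : G ⧸ (C g)), ⟨⟨x, center_le_cent g hxZ⟩, ?_⟩, ?_⟩
    · rw [mem_center_iff]
      intro m
      apply Subtype.ext
      exact mem_center_iff.1 hxZ m
    · simp only
      rw [mem_center_iff.1 hxZ, mul_inv_cancel_right]
  · obtain ⟨p', hp', hty'⟩ := B_type h hB x hxZ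
    have hpp : p' = p := type_unique hp' hp x hxZ (hty' x (self_mem_cent x)) hx
    subst hpp
    obtain ⟨t, ht⟩ := B_conj h hNN p' hp g x hg hty hty'
    have hle : (C (t⁻¹ * x * t)) ≤ C g := by
      intro m hm
      rw [mem_cent_conj] at hm
      have := ht _ hm
      simpa [mul_assoc] using this
    have heq : (C (t⁻¹ * x * t)) = C g := eq_of_le h (conj_notMem_center hxZ t) hg hle
    have haM : t⁻¹ * x * t ∈ C g := heq ▸ self_mem_cent _
    have hcomm : ∀ m ∈ C g, m * (t⁻¹ * x * t) = (t⁻¹ * x * t) * m := by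
      intro m hm
      rw [← heq, mem_centralizer_singleton_iff] at hm
      exact hm
    refine ⟨(t : G ⧸ (C g)), ⟨⟨t⁻¹ * x * t, haM⟩, ?_⟩, ?_⟩
    · rw [mem_center_iff]
      intro m
      apply Subtype.ext
      exact hcomm m m.2
    · obtain ⟨c, hc⟩ := QuotientGroup.mk_out_eq_mul (C g) t
      simp only
      rw [hc, mul_inv_rev, mul_assoc t, hcomm c c.2]
      simp [mul_assoc]

theorem B_count (h : Hyp G) (hNN : ∀ g : G, g ∉ center G → ¬ (C g).Normal)
    (hB : ∀ g : G, g ∉ center G → ¬ (∀ a ∈ C g, ∀ b ∈ C g, a * b = b * a))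
    (p : ℕ) (hp : p.Prime) (g : G) (hg : g ∉ center G) (hty : IsType p g) :
    p ^ 2 * Nat.card {x : G // ∃ e, x ^ (p ^ e) ∈ center G} ≤ Nat.card G := by
  have hcov := B_cover h hNN hB p hp g hg hty
  choose fq fa hf using hcov
  have hinj : Function.Injective
      (fun x : {x : G // ∃ e, x ^ (p ^ e) ∈ center G} => (fq x.1 x.2, fa x.1 x.2)) := by
    intro x y hxy
    simp only [Prod.mk.injEq] at hxy
    apply Subtype.ext
    rw [← hf x.1 x.2, ← hf y.1 y.2, hxy.1, hxy.2]
  have h1 := Nat.card_le_card_of_injective _ hinj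
  rw [Nat.card_prod] at h1
  have h2 := B_card hB g hg p hp hty
  calc p ^ 2 * Nat.card {x : G // ∃ e, x ^ (p ^ e) ∈ center G}
      ≤ p ^ 2 * (Nat.card (G ⧸ (C g)) * Nat.card (center (C g))) := Nat.mul_le_mul_left _ h1
    _ = Nat.card (G ⧸ (C g)) * (p ^ 2 * Nat.card (center (C g))) := by ring
    _ ≤ Nat.card (G ⧸ (C g)) * Nat.card (C g) := Nat.mul_le_mul_left _ h2
    _ = Nat.card G := (card_eq_card_quotient_mul_card_subgroup (C g)).symm

theorem caseB (h : Hyp G) (hNN : ∀ g : G, g ∉ center G → ¬ (C g).Normal)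
    (hB : ∀ g : G, g ∉ center G → ¬ (∀ a ∈ C g, ∀ b ∈ C g, a * b = b * a))
    (g0 : G) (hg0 : g0 ∉ center G) : False := by
  classical
  have hkey : ∀ x : G, ∃ p : ℕ, p.Prime ∧
      p ^ 2 * Nat.card {x : G // ∃ e, x ^ (p ^ e) ∈ center G} ≤ Nat.card G ∧
      ∃ e, x ^ (p ^ e) ∈ center G := by
    intro x
    by_cases hxZ : x ∈ center G
    · obtain ⟨p, hp, hty⟩ := B_type h hB g0 hg0
      exact ⟨p, hp, B_count h hNN hB p hp g0 hg0 hty, 0, by simpa using hxZ⟩
    · obtain ⟨p, hp, hty⟩ := B_type h hB x hxZ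
      exact ⟨p, hp, B_count h hNN hB p hp x hxZ hty, hty x (self_mem_cent x)⟩
  choose f hf1 hf2 hf3 using hkey
  have := Fintype.ofFinite G
  let S : Finset ℕ := Finset.univ.image f
  have hS : ∀ p ∈ S, p.Prime ∧ p ^ 2 * Nat.card {x : G // ∃ e, x ^ (p ^ e) ∈ center G} ≤ Nat.card G := by
    intro p hp
    obtain ⟨x, _, rfl⟩ := Finset.mem_image.1 hp
    exact ⟨hf1 x, hf2 x⟩
  have hcover : (Finset.univ : Finset G) ⊆
      S.biUnion (fun p => Finset.univ.filter (fun x : G => ∃ e, x ^ (p ^ e) ∈ center G)) := by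
    intro x _
    rw [Finset.mem_biUnion]
    exact ⟨f x, Finset.mem_image_of_mem f (Finset.mem_univ x), by simpa using hf3 x⟩
  have h1 : Nat.card G ≤ ∑ p ∈ S, Nat.card {x : G // ∃ e, x ^ (p ^ e) ∈ center G} := by
    calc Nat.card G = (Finset.univ : Finset G).card := by
          rw [Nat.card_eq_fintype_card, Finset.card_univ]
      _ ≤ _ := Finset.card_le_card hcover
      _ ≤ ∑ p ∈ S, (Finset.univ.filter (fun x : G => ∃ e, x ^ (p ^ e) ∈ center G)).card :=
          Finset.card_biUnion_le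
      _ = _ := by
          refine Finset.sum_congr rfl fun p _ => ?_
          rw [Nat.card_eq_fintype_card, Fintype.card_subtype]
  have hGpos : (0 : ℚ) < Nat.card G := by exact_mod_cast Nat.card_pos
  have h2 : (Nat.card G : ℚ) ≤ ∑ p ∈ S, (Nat.card G : ℚ) * (1 / (p : ℚ) ^ 2) := by
    calc (Nat.card G : ℚ) ≤ ((∑ p ∈ S, Nat.card {x : G // ∃ e, x ^ (p ^ e) ∈ center G} : ℕ) : ℚ) := by
          exact_mod_cast h1
      _ = ∑ p ∈ S, (Nat.card {x : G // ∃ e, x ^ (p ^ e) ∈ center G} : ℚ) := by push_cast; rfl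
      _ ≤ _ := by
          refine Finset.sum_le_sum fun p hp => ?_
          obtain ⟨hpp, hle⟩ := hS p hp
          have hp0 : (0 : ℚ) < (p : ℚ) ^ 2 := by
            have : (0 : ℚ) < p := by exact_mod_cast hpp.pos
            positivity
          rw [mul_one_div, le_div_iff₀ hp0, mul_comm]
          exact_mod_cast hle
  rw [← Finset.mul_sum] at h2
  have h3 := sum_inv_sq_lt_one S (fun p hp => (hS p hp).1.two_le)
  nlinarith

end Cfsg.Agent.Lib.Helper22.MaxCent
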