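import Mathlib
import Cfsg.Agent.H1.Basic

/-! Fixed vectors in a representation spanned by one orbit. -/

set_option autoImplicit false

namespace Cfsg.Agent.Lib.Helper22

open Subgroup

variable {k V H : Type*} [Field k] [AddCommGroup V] [Module k V] [Group H]

/-- the stabilizer of a vector. -/
def repStab (ρ : Representation k H V) (a : V) : Subgroup H where
  carrier := {h | ρ h a = a}
  mul_mem' := by
    intro x y hx hy
    simp only [Set.mem_ofPred_eq] at *
    rw [map_mul, Module.End.mul_apply, hy, hx]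
  one_mem' := by simp
  inv_mem' := by
    intro x hx
    simp only [Set.mem_ofPred_eq] at *
    have h1 : ρ x⁻¹ (ρ x a) = a := by
      rw [← Module.End.mul_apply, ← map_mul, inv_mul_cancel, map_one, Module.End.one_apply]
    rwa [hx] at h1

theorem mem_repStab (ρ : Representation k H V) (a : V) (h : H) :
    h ∈ repStab ρ a ↔ ρ h a = a := Iff.rfl

theorem index_repStab (ρ : Representation k H V) (a : V) :
    (repStab ρ a).index = Nat.card {u : V | ∃ h : H, ρ h a = u} := by
  letI : MulAction H V :=
    { smul := fun h v => ρ h v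
      one_smul := fun v => by show ρ 1 v = v; simp
      mul_smul := fun x y v => by show ρ (x * y) v = ρ x (ρ y v); simp }
  have h1 : repStab ρ a = MulAction.stabilizer H a := by
    ext h; rfl
  rw [h1, MulAction.index_stabilizer, ← Nat.card_coe_set_eq]
  rfl

variable [Finite H]

theorem exists_orbitSum (ρ : Representation k H V) (a : V)
    (hspan : Submodule.span k {u : V | ∃ h : H, ρ h a = u} = ⊤) (K : Subgroup H)
    (hK : (Nat.card K : k) ≠ 0) (htr : ∀ g : H, ∃ x ∈ K, ρ g a = ρ x a) :
    ∃ t : V, (∀ g : H, ρ g t = t) ∧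
      ∀ v : V, (∀ x ∈ K, ρ x v = v) → v ∈ Submodule.span k {t} := by
  classical
  haveI : Fintype H := Fintype.ofFinite H
  haveI : Fintype K := Fintype.ofFinite K
  set O : Finset V := Finset.univ.image (fun h : H => ρ h a) with hO
  set t : V := ∑ u ∈ O, u with ht
  have hmemO : ∀ u : V, u ∈ O ↔ ∃ h : H, ρ h a = u := by
    intro u; simp [hO]
  have hcancel : ∀ (g : H) (u : V), ρ g (ρ g⁻¹ u) = u := by
    intro g u
    rw [← Module.End.mul_apply, ← map_mul, mul_inv_cancel, map_one, Module.End.one_apply]
  have hcancel' : ∀ (g : H) (u : V), ρ g⁻¹ (ρ g u) = u := by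
    intro g u
    rw [← Module.End.mul_apply, ← map_mul, inv_mul_cancel, map_one, Module.End.one_apply]
  have hfix : ∀ g : H, ρ g t = t := by
    intro g
    rw [ht, map_sum]
    refine Finset.sum_nbij' (fun u => ρ g u) (fun u => ρ g⁻¹ u) ?_ ?_ ?_ ?_ ?_
    · intro u hu
      obtain ⟨h, rfl⟩ := (hmemO u).mp hu
      exact (hmemO _).mpr ⟨g * h, by simp⟩
    · intro u hu
      obtain ⟨h, rfl⟩ := (hmemO u).mp hu
      exact (hmemO _).mpr ⟨g⁻¹ * h, by simp⟩
    · intro u _; exact hcancel' g u
    · intro u _; exact hcancel g u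
    · intro u _; rfl
  -- the sum over `K`
  set s : V := ∑ x : K, ρ (x : H) a with hs
  have hOK : (Finset.univ : Finset K).image (fun x : K => ρ (x : H) a) = O := by
    ext u
    rw [hmemO]
    simp only [Finset.mem_image, Finset.mem_univ, true_and]
    constructor
    · rintro ⟨x, rfl⟩; exact ⟨x, rfl⟩
    · rintro ⟨h, rfl⟩
      obtain ⟨x, hx, hxe⟩ := htr h
      exact ⟨⟨x, hx⟩, hxe.symm⟩
  have hst : s ∈ Submodule.span k {t} := by
    have h1 : s = ∑ b ∈ O, (Finset.univ.filter (fun x : K => ρ (x : H) a = b)).card • b := by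
      rw [hs, ← hOK]
      exact Finset.sum_comp (fun v : V => v) (fun x : K => ρ (x : H) a)
    have h2 : ∀ b ∈ O, (Finset.univ.filter (fun x : K => ρ (x : H) a = b)).card =
        (Finset.univ.filter (fun x : K => ρ (x : H) a = a)).card := by
      intro b hb
      obtain ⟨h, rfl⟩ := (hmemO b).mp hb
      obtain ⟨y, hy, hye⟩ := htr h
      rw [hye]
      refine Finset.card_nbij' (fun x : K => (⟨y, hy⟩ : K)⁻¹ * x) (fun x : K => (⟨y, hy⟩ : K) * x)
        ?_ ?_ ?_ ?_
      · intro x hx
        simp only [Finset.coe_filter, Finset.mem_univ, true_and, Set.mem_ofPred_eq] at hx ⊢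
        simp only [Subgroup.coe_mul, Subgroup.coe_inv, map_mul, Module.End.mul_apply]
        rw [hx]; exact hcancel' y a
      · intro x hx
        simp only [Finset.coe_filter, Finset.mem_univ, true_and, Set.mem_ofPred_eq] at hx ⊢
        simp only [Subgroup.coe_mul, map_mul, Module.End.mul_apply]
        rw [hx]
      · intro x _; simp
      · intro x _; simp
    rw [h1, Finset.sum_congr rfl (fun b hb => by rw [h2 b hb]), ← Finset.smul_sum]
    rw [← Nat.cast_smul_eq_nsmul k]
    exact Submodule.smul_mem _ _ (Submodule.mem_span_singleton_self t)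
  -- the averaging operator
  set e : V →ₗ[k] V := ∑ x : K, ρ (x : H) with he
  have heO : ∀ u : V, (∃ h : H, ρ h a = u) → e u = s := by
    rintro _ ⟨h, rfl⟩
    obtain ⟨y, hy, hye⟩ := htr h
    rw [hye, he, LinearMap.sum_apply, hs]
    refine Fintype.sum_equiv (Equiv.mulRight (⟨y, hy⟩ : K)) _ _ ?_
    intro x
    simp [map_mul, Module.End.mul_apply]
  have herange : ∀ v : V, e v ∈ Submodule.span k {t} := by
    intro v
    have h1 : Submodule.span k {u : V | ∃ h : H, ρ h a = u} ≤
        (Submodule.span k {t}).comap e := by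
      rw [Submodule.span_le]
      intro u hu
      show e u ∈ Submodule.span k {t}
      rw [heO u hu]; exact hst
    rw [hspan] at h1
    exact h1 Submodule.mem_top
  refine ⟨t, hfix, fun v hv => ?_⟩
  have h1 : e v = (Nat.card K : k) • v := by
    rw [he, LinearMap.sum_apply, Finset.sum_congr rfl (fun (x : K) _ => hv (x : H) x.2), Finset.sum_const,
      Finset.card_univ, Nat.card_eq_fintype_card, Nat.cast_smul_eq_nsmul]
  have h2 : v = (Nat.card K : k)⁻¹ • e v := by
    rw [h1, smul_smul, inv_mul_cancel₀ hK, one_smul]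
  rw [h2]
  exact Submodule.smul_mem _ _ (herange v)

theorem fixed_of_fixed (ρ : Representation k H V) (a : V)
    (hspan : Submodule.span k {u : V | ∃ h : H, ρ h a = u} = ⊤) (K : Subgroup H)
    (hK : (Nat.card K : k) ≠ 0) (htr : ∀ g : H, ∃ x ∈ K, ρ g a = ρ x a)
    (v : V) (hv : ∀ x ∈ K, ρ x v = v) (g : H) : ρ g v = v := by
  obtain ⟨t, ht, h⟩ := exists_orbitSum ρ a hspan K hK htr
  obtain ⟨c, rfl⟩ := Submodule.mem_span_singleton.mp (h v hv)
  rw [map_smul, ht]

theorem finrank_invariants_le_one (ρ : Representation k H V) (a : V)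
    (hspan : Submodule.span k {u : V | ∃ h : H, ρ h a = u} = ⊤) (K : Subgroup H)
    (hK : (Nat.card K : k) ≠ 0) (htr : ∀ g : H, ∃ x ∈ K, ρ g a = ρ x a) :
    Module.finrank k ρ.invariants ≤ 1 := by
  obtain ⟨t, ht, h⟩ := exists_orbitSum ρ a hspan K hK htr
  have h1 : ρ.invariants ≤ Submodule.span k {t} := by
    intro v hv
    exact h v (fun x _ => (Representation.mem_invariants ρ v).mp hv x)
  calc Module.finrank k ρ.invariants ≤ Module.finrank k (Submodule.span k {t}) :=
        Submodule.finrank_mono h1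
    _ ≤ 1 := by
        have := finrank_span_finset_le_card (R := k) ({t} : Finset V)
        rw [Set.finrank, Finset.coe_singleton, Finset.card_singleton] at this
        exact this

/-- coprime orbit sizes: the stabilizer of `b` is transitive on the orbit of `a`. -/
theorem exists_mem_repStab_of_coprime (ρ : Representation k H V) (a b : V)
    (hcop : (Nat.card {u : V | ∃ h : H, ρ h a = u}).Coprime
      (Nat.card {u : V | ∃ h : H, ρ h b = u})) (g : H) :
    ∃ x ∈ repStab ρ b, ρ g a = ρ x a := by
  rw [← index_repStab, ← index_repStab] at hcop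
  obtain ⟨x, hx, y, hy, rfl⟩ := Cfsg.H1.exists_mul_of_coprime_index _ _ hcop.symm g
  refine ⟨x, hx, ?_⟩
  rw [map_mul, Module.End.mul_apply, (mem_repStab ρ a y).mp hy]

end Cfsg.Agent.Lib.Helper22
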