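import Mathlib

/-! Covering the `p`-elements of a group generated by its `p`-elements needs `p + 1` proper
subgroups. -/

set_option autoImplicit false

namespace Cfsg.Agent.Lib.Helper22

open Subgroup

universe u v

/-- A finite `p`-group is not the union of at most `p` proper subgroups. -/
theorem pgroup_cover {P : Type*} [Group P] [Finite P] {p : ℕ} [Fact p.Prime] (hP : IsPGroup p P)
    {ι : Type*} [Fintype ι] (K : ι → Subgroup P) (hK : ∀ i, K i ≠ ⊤)
    (hcov : ∀ g : P, ∃ i, g ∈ K i) : p + 1 ≤ Fintype.card ι := by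
  classical
  by_contra hlt
  have hle : Fintype.card ι ≤ p := by omega
  haveI : Fintype P := Fintype.ofFinite P
  have hp := (Fact.out : p.Prime)
  set N := Nat.card P with hN
  have hKi : ∀ i, p * Nat.card (K i) ≤ N := by
    intro i
    obtain ⟨n, hn⟩ := hP.index (K i)
    have h1 : (K i).index ≠ 1 := fun h => hK i (Subgroup.index_eq_one.1 h)
    have h2 : p ≤ (K i).index := by
      rw [hn]
      cases n with
      | zero => rw [pow_zero] at hn; exact absurd hn h1
      | succ n => exact Nat.le_self_pow (Nat.succ_ne_zero n) p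
    calc p * Nat.card (K i) ≤ (K i).index * Nat.card (K i) := Nat.mul_le_mul_right _ h2
      _ = N := by rw [mul_comm]; exact (K i).card_mul_index
  let s : ι → Finset P := fun i => Finset.univ.filter (fun x => x ∈ K i ∧ x ≠ 1)
  have hs : ∀ i, (s i).card + 1 = Nat.card (K i) := by
    intro i
    have h1 : Nat.card (K i) = (Finset.univ.filter (fun x => x ∈ K i)).card := by
      rw [Nat.card_eq_fintype_card, Fintype.card_subtype]
    have h2 : Finset.univ.filter (fun x => x ∈ K i) = insert 1 (s i) := by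
      ext x
      simp only [Finset.mem_filter, Finset.mem_univ, true_and, Finset.mem_insert, s]
      constructor
      · intro hx
        by_cases h : x = 1
        · exact Or.inl h
        · exact Or.inr ⟨hx, h⟩
      · rintro (rfl | h)
        · exact (K i).one_mem
        · exact h.1
    rw [h1, h2, Finset.card_insert_of_notMem]
    simp [s]
  have htot : (Finset.univ.filter (fun x : P => x ≠ 1)).card + 1 = N := by
    have h2 : (Finset.univ : Finset P) = insert 1 (Finset.univ.filter (fun x : P => x ≠ 1)) := by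
      ext x
      simp only [Finset.mem_filter, Finset.mem_univ, true_and, Finset.mem_insert]
      tauto
    rw [hN, Nat.card_eq_fintype_card, ← Finset.card_univ]
    conv_rhs => rw [h2]
    rw [Finset.card_insert_of_notMem]
    simp
  have hsub : Finset.univ.filter (fun x : P => x ≠ 1) ⊆ Finset.univ.biUnion s := by
    intro x hx
    obtain ⟨i, hi⟩ := hcov x
    simp only [Finset.mem_filter, Finset.mem_univ, true_and] at hx
    simp only [Finset.mem_biUnion, Finset.mem_univ, true_and]
    exact ⟨i, by simp [s, hi, hx]⟩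
  have h3 : (Finset.univ.filter (fun x : P => x ≠ 1)).card ≤ ∑ i, (s i).card :=
    (Finset.card_le_card hsub).trans Finset.card_biUnion_le
  obtain ⟨i0, -⟩ := hcov 1
  have hNp : p ≤ N := by
    have := hKi i0
    have h1 : 0 < Nat.card (K i0) := Nat.card_pos
    nlinarith
  have h4 : ∀ i, p * (s i).card ≤ N - p := by
    intro i
    have := hKi i
    rw [← hs i] at this
    have : p * (s i).card + p ≤ N := by linarith [this, Nat.mul_succ p (s i).card]
    omega
  have h5 : p * ∑ i, (s i).card ≤ Fintype.card ι * (N - p) := by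
    rw [Finset.mul_sum]
    calc ∑ i, p * (s i).card ≤ ∑ _i : ι, (N - p) := Finset.sum_le_sum (fun i _ => h4 i)
      _ = Fintype.card ι * (N - p) := by simp
  have h6 : p * ∑ i, (s i).card ≤ p * (N - p) := h5.trans (Nat.mul_le_mul_right _ hle)
  have h7 : ∑ i, (s i).card ≤ N - p := Nat.le_of_mul_le_mul_left h6 hp.pos
  have := hp.two_le
  omega

/-- The subgroup generated by the `p`-elements of `H`. -/
def pGen {G : Type*} [Group G] (p : ℕ) (H : Subgroup G) : Subgroup G :=
  Subgroup.closure {g : G | g ∈ H ∧ ∃ k : ℕ, orderOf g = p ^ k}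

theorem pGen_le {G : Type*} [Group G] (p : ℕ) (H : Subgroup G) : pGen p H ≤ H := by
  unfold pGen
  rw [Subgroup.closure_le]
  exact fun g hg => hg.1

theorem mem_pGen {G : Type*} [Group G] (p : ℕ) (H : Subgroup G) {g : G} (hg : g ∈ H)
    (h : ∃ k : ℕ, orderOf g = p ^ k) : g ∈ pGen p H :=
  Subgroup.subset_closure ⟨hg, h⟩

theorem pGen_pGen {G : Type*} [Group G] (p : ℕ) (H : Subgroup G) :
    pGen p (pGen p H) = pGen p H := by
  apply le_antisymm (pGen_le p _)
  conv_lhs => unfold pGen
  rw [Subgroup.closure_le]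
  exact fun g hg => mem_pGen p _ (mem_pGen p H hg.1 hg.2) hg.2

theorem pcover_aux (p : ℕ) [Fact p.Prime] {ι : Type v} [Fintype ι] :
    ∀ (m : ℕ) (G : Type u) [Group G] [Finite G], Nat.card G = m →
      Subgroup.closure {g : G | ∃ k : ℕ, orderOf g = p ^ k} = ⊤ →
      ∀ K : ι → Subgroup G, (∀ i, K i ≠ ⊤) →
      (∀ g : G, (∃ k : ℕ, orderOf g = p ^ k) → ∃ i, g ∈ K i) → p + 1 ≤ Fintype.card ι := by
  intro m
  induction m using Nat.strong_induction_on with
  | _ m ih =>
  intro G _ _ hm hgen K hK hcov
  by_contra hlt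
  have hp := (Fact.out : p.Prime)
  have hle : Fintype.card ι ≤ p := by omega
  -- conjugation
  let c : G → (G →* G) := fun g => (MulAut.conj g).toMonoidHom
  have hc : ∀ g x, c g x = g * x * g⁻¹ := fun g x => rfl
  have hcinj : ∀ g, Function.Injective (c g) := fun g => (MulAut.conj g).injective
  have hord : ∀ g x, orderOf (c g x) = orderOf x := fun g x =>
    orderOf_injective (c g) (hcinj g) x
  -- (*)
  have star : ∀ U : Subgroup G, U ≠ ⊤ → pGen p U = U → ∀ g : G, ∃ i, U.map (c g) ≤ K i := by
    intro U hU hUg g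
    have hlt' : Nat.card U < m := by
      rw [← hm]
      by_contra hcon
      exact hU (Subgroup.eq_top_of_le_card U (not_lt.1 hcon))
    by_contra hno
    push Not at hno
    apply hlt
    refine ih _ hlt' U rfl ?_ (fun i => ((K i).comap (c g)).subgroupOf U) ?_ ?_
    · -- generated
      have h1 : (Subgroup.closure {x : U | ∃ k : ℕ, orderOf x = p ^ k}).map U.subtype = U := by
        rw [MonoidHom.map_closure]
        conv_rhs => rw [← hUg]
        unfold pGen
        congr 1
        ext x
        constructor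
        · rintro ⟨y, ⟨k, hk⟩, rfl⟩
          exact ⟨y.2, k, by rw [← hk]; exact Subgroup.orderOf_coe y⟩
        · rintro ⟨hx, k, hk⟩
          exact ⟨⟨x, hx⟩, ⟨k, by rw [← hk]; exact (Subgroup.orderOf_coe (⟨x, hx⟩ : U)).symm⟩, rfl⟩
      rw [eq_top_iff]
      intro x _
      have hx : (x : G) ∈ (Subgroup.closure {x : U | ∃ k : ℕ, orderOf x = p ^ k}).map U.subtype := by
        rw [h1]; exact x.2
      obtain ⟨y, hy, hyx⟩ := hx
      have : y = x := Subtype.ext hyx
      rwa [← this]
    · intro i hi
      rw [Subgroup.subgroupOf_eq_top] at hi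
      apply hno i
      rw [Subgroup.map_le_iff_le_comap]
      exact hi
    · rintro x ⟨k, hk⟩
      obtain ⟨i, hi⟩ := hcov (c g x) ⟨k, by rw [hord, ← hk]; exact (Subgroup.orderOf_coe x)⟩
      exact ⟨i, by rw [Subgroup.mem_subgroupOf, Subgroup.mem_comap]; exact hi⟩
  -- Sylow subgroup inside some K i
  obtain ⟨P⟩ : Nonempty (Sylow p G) := inferInstance
  obtain ⟨i0, hi0⟩ : ∃ i, (P : Subgroup G) ≤ K i := by
    by_contra hno
    push Not at hno
    apply hlt
    refine pgroup_cover P.2 (fun i => (K i).subgroupOf (P : Subgroup G)) ?_ ?_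
    · intro i hi
      rw [Subgroup.subgroupOf_eq_top] at hi
      exact hno i hi
    · intro x
      obtain ⟨k, hk⟩ := (IsPGroup.iff_orderOf.1 P.2) x
      obtain ⟨i, hi⟩ := hcov (x : G) ⟨k, by rw [← hk]; exact (Subgroup.orderOf_coe x)⟩
      exact ⟨i, by rw [Subgroup.mem_subgroupOf]; exact hi⟩
  let S : Set (Subgroup G) := {U | U ≠ ⊤ ∧ pGen p U = U ∧ ¬ p ∣ U.index}
  have hL : ∀ i, ∀ V : Subgroup G, V ≤ pGen p (K i) → ¬ p ∣ V.index → pGen p (K i) ∈ S := by
    intro i V hV hVi
    refine ⟨fun h => hK i (top_le_iff.1 (h ▸ pGen_le p (K i))), pGen_pGen p _, ?_⟩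
    exact fun h => hVi (dvd_trans h (Subgroup.index_dvd_of_le hV))
  have hne : S.Nonempty := by
    refine ⟨pGen p (K i0), hL i0 P ?_ P.not_dvd_index⟩
    intro x hx
    obtain ⟨k, hk⟩ := (IsPGroup.iff_orderOf.1 P.2) ⟨x, hx⟩
    exact mem_pGen p _ (hi0 hx) ⟨k, by rw [← hk]; exact (Subgroup.orderOf_coe (⟨x, hx⟩ : P))⟩
  obtain ⟨M, hMS, hMmax⟩ := Set.Finite.exists_maximalFor (fun U : Subgroup G => Nat.card U) S
    (Set.toFinite S) hne
  have hMmax' : ∀ U ∈ S, Nat.card U ≤ Nat.card M := by
    intro U hU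
    rcases le_total (Nat.card M) (Nat.card U) with h | h
    · exact hMmax hU h
    · exact h
  obtain ⟨hMtop, hMgen, hMidx⟩ := hMS
  have hconj : ∀ g : G, ∃ i, M.map (c g) = pGen p (K i) := by
    intro g
    obtain ⟨i, hi⟩ := star M hMtop hMgen g
    refine ⟨i, ?_⟩
    have h1 : M.map (c g) ≤ pGen p (K i) := by
      rw [Subgroup.map_le_iff_le_comap]
      conv_lhs => rw [← hMgen]
      unfold pGen
      rw [Subgroup.closure_le]
      rintro x ⟨hx, k, hk⟩
      rw [SetLike.mem_coe, Subgroup.mem_comap]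
      exact Subgroup.subset_closure ⟨hi (Subgroup.mem_map_of_mem _ hx), k, by rw [hord, hk]⟩
    have h2 : (M.map (c g)).index = M.index := Subgroup.index_map_equiv M (MulAut.conj g)
    have h3 := hMmax' _ (hL i _ h1 (by rw [h2]; exact hMidx))
    apply Subgroup.eq_of_le_of_card_ge h1
    rw [Subgroup.card_map_of_injective (hcinj g)]
    exact h3
  choose φ hφ using hconj
  set N := Subgroup.normalizer (M : Set G) with hN
  have hφN : ∀ g h, φ g = φ h → h⁻¹ * g ∈ N := by
    intro g h hgh
    have e : M.map (c g) = M.map (c h) := by rw [hφ g, hφ h, hgh]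
    rw [hN, Subgroup.mem_normalizer_iff]
    intro x
    constructor
    · intro hx
      have h1 : c g x ∈ M.map (c h) := e ▸ Subgroup.mem_map_of_mem _ hx
      obtain ⟨y, hy, hyx⟩ := h1
      have : h⁻¹ * g * x * (h⁻¹ * g)⁻¹ = y := by
        rw [hc, hc] at hyx
        have : g * x * g⁻¹ = h * y * h⁻¹ := hyx.symm
        calc h⁻¹ * g * x * (h⁻¹ * g)⁻¹ = h⁻¹ * (g * x * g⁻¹) * h := by group
          _ = y := by rw [this]; group
      rw [this]; exact hy
    · intro hx
      have h1 : c h (h⁻¹ * g * x * (h⁻¹ * g)⁻¹) ∈ M.map (c g) := e ▸ Subgroup.mem_map_of_mem _ hx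
      obtain ⟨y, hy, hyx⟩ := h1
      have : y = x := by
        apply hcinj g
        rw [hyx, hc, hc]
        group
      rw [← this]; exact hy
  have hNidx : N.index ≤ Fintype.card ι := by
    rw [Subgroup.index, ← Nat.card_eq_fintype_card]
    apply Nat.card_le_card_of_injective (fun q : G ⧸ N => φ q.out)
    intro q q' hqq
    have := hφN _ _ hqq
    rw [← QuotientGroup.eq] at this
    rw [QuotientGroup.out_eq', QuotientGroup.out_eq'] at this
    exact this.symm
  have hNp : ¬ p ∣ N.index := fun h =>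
    hMidx (dvd_trans h (Subgroup.index_dvd_of_le Subgroup.le_normalizer))
  have hNlt : N.index < p := by
    rcases lt_or_eq_of_le (hNidx.trans hle) with h | h
    · exact h
    · exact absurd (h ▸ dvd_rfl) hNp
  have key : ∀ (Q : Subgroup G) (x : G) (k : ℕ), orderOf x = p ^ k → ¬ p ∣ Q.relIndex (zpowers x) →
      x ∈ Q := by
    intro Q x k hk hnd
    have h1 : Q.relIndex (zpowers x) ∣ p ^ k := by
      rw [← hk, ← Nat.card_zpowers]
      exact Subgroup.relIndex_dvd_card _ _
    obtain ⟨j, -, hj⟩ := (Nat.dvd_prime_pow hp).1 h1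
    have hj0 : j = 0 := by
      by_contra h
      exact hnd (hj ▸ dvd_pow_self p h)
    rw [hj0, pow_zero, Subgroup.relIndex_eq_one] at hj
    exact hj (Subgroup.mem_zpowers x)
  have hNtop : N = ⊤ := by
    rw [eq_top_iff, ← hgen, Subgroup.closure_le]
    rintro x ⟨k, hk⟩
    apply key N x k hk
    intro hd
    have h1 : N.relIndex (zpowers x) ≤ N.relIndex ⊤ :=
      Subgroup.relIndex_le_of_le_right le_top (by
        rw [Subgroup.relIndex_top_right]; exact Subgroup.index_ne_zero_of_finite)
    rw [Subgroup.relIndex_top_right] at h1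
    have h2 : 0 < N.relIndex (zpowers x) := by
      have : N.relIndex (zpowers x) ≠ 0 := by
        intro h0
        have := Subgroup.relIndex_dvd_card N (zpowers x)
        rw [h0, zero_dvd_iff] at this
        exact Nat.card_pos.ne' this
      omega
    have := Nat.le_of_dvd h2 hd
    omega
  haveI hMn : M.Normal := Subgroup.normalizer_eq_top_iff.1 hNtop
  apply hMtop
  rw [eq_top_iff, ← hgen, Subgroup.closure_le]
  rintro x ⟨k, hk⟩
  apply key M x k hk
  exact fun hd => hMidx (dvd_trans hd (Subgroup.relIndex_dvd_index_of_normal M (zpowers x)))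

end Cfsg.Agent.Lib.Helper22
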