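import Mathlib
import Cfsg.Agent.Lib.Helper22.PolarP1

/-! Families of subgroups of order `p` satisfying a one-or-all axiom: pairs generate `p`-groups (helper22). -/

set_option autoImplicit false

namespace Cfsg.Agent.H22

open Subgroup

variable {G : Type*} [Group G] [Finite G] {p : ℕ} [hp : Fact p.Prime]

theorem isPGroup_of_class_two {x w c : G} (hx : x ^ p = 1) (hw : w ^ p = 1)
    (hc : c = x⁻¹ * w⁻¹ * x * w) (hcx : c * x = x * c) (hcw : c * w = w * c) :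
    IsPGroup p ↥(zpowers w ⊔ (zpowers x ⊔ zpowers c)) := by
  have hcp : c ^ p = 1 := by
    have e1 : x * c = w⁻¹ * x * w⁻¹⁻¹ := by rw [hc]; group
    have e2 : (x * c) ^ p = x ^ p * c ^ p := (show Commute x c from hcx.symm).mul_pow p
    rw [e1, conj_pow, hx] at e2
    simpa using e2.symm
  have h1 : IsPGroup p ↥(zpowers x ⊔ zpowers c) :=
    IsPGroup.to_sup_of_normal_right' (isPGroup_zpowers_of_pow hx) (isPGroup_zpowers_of_pow hcp)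
      (cm_le_normalizer (cm_zpowers hcx.symm))
  refine IsPGroup.to_sup_of_normal_right' (isPGroup_zpowers_of_pow hw) h1 ?_
  rw [zpowers_le, Subgroup.mem_normalizer_iff_map_conj_eq]
  apply Subgroup.eq_of_le_of_card_ge
  · rw [Subgroup.map_sup, MonoidHom.map_zpowers, MonoidHom.map_zpowers]
    have e : w * x * w⁻¹ = x * c⁻¹ := by
      calc w * x * w⁻¹ = (w * (x⁻¹ * w⁻¹ * x * w) * w⁻¹ * x⁻¹)⁻¹ := by group
        _ = ((w * c) * w⁻¹ * x⁻¹)⁻¹ := by rw [← hc]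
        _ = ((c * w) * w⁻¹ * x⁻¹)⁻¹ := by rw [hcw]
        _ = x * c⁻¹ := by group
    have e' : w * c * w⁻¹ = c := by rw [← hcw]; group
    refine sup_le ?_ ?_
    · rw [zpowers_le]
      show w * x * w⁻¹ ∈ _
      rw [e]
      exact mul_mem (mem_sup_left (mem_zpowers x)) (mem_sup_right (inv_mem (mem_zpowers c)))
    · rw [zpowers_le]
      show w * c * w⁻¹ ∈ _
      rw [e']
      exact mem_sup_right (mem_zpowers c)
  · rw [Subgroup.card_map_of_injective (MulAut.conj w).injective]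

/-- The hypotheses on the family `K`. -/
structure Polar (p : ℕ) (K : Set (Subgroup G)) : Prop where
  card : ∀ X ∈ K, Nat.card ↥X = p
  conj : ∀ X ∈ K, ∀ g : G, X.map (MulAut.conj g).toMonoidHom ∈ K
  ex : ∃ X ∈ K, ∃ Y ∈ K, X ≠ Y ∧ Cm X Y
  ha : ∀ X ∈ K, ∀ Y ∈ K, X ≠ Y → Cm X Y → ∀ Z : Subgroup G, Z ≤ X ⊔ Y → Nat.card ↥Z = p → Z ∈ K
  hb : ∀ X ∈ K, ∀ Y ∈ K, X ≠ Y → Cm X Y → ∀ W ∈ K, (X ⊔ Y) ⊓ centralizer (W : Set G) ≠ ⊥

variable {K : Set (Subgroup G)}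

theorem Polar.pow (h : Polar p K) {X Y : Subgroup G} (hX : X ∈ K) (hY : Y ∈ K)
    (hc : Cm X Y) {a : G} (ha : a ∈ X ⊔ Y) : a ^ p = 1 := by
  obtain ⟨x, hx, y, hy, rfl⟩ := mem_sup_of_cm hc ha
  rw [(show Commute x y from hc x hx y hy).mul_pow, pow_eq_one_of_card (h.card X hX) hx,
    pow_eq_one_of_card (h.card Y hY) hy, one_mul]

theorem Polar.pt (h : Polar p K) {X Y : Subgroup G} (hX : X ∈ K) (hY : Y ∈ K) (hne : X ≠ Y)
    (hc : Cm X Y) {a : G} (ha : a ∈ X ⊔ Y) (ha1 : a ≠ 1) : zpowers a ∈ K :=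
  h.ha X hX Y hY hne hc _ (zpowers_le.2 ha) (card_zpowers_of_pow (h.pow hX hY hc ha) ha1)

theorem Polar.meet (h : Polar p K) {X Y W : Subgroup G} (hX : X ∈ K) (hY : Y ∈ K) (hne : X ≠ Y)
    (hc : Cm X Y) (hW : W ∈ K) : ∃ a ∈ X ⊔ Y, a ≠ 1 ∧ ∀ w ∈ W, a * w = w * a := by
  have h1 := h.hb X hX Y hY hne hc W hW
  obtain ⟨a, ha, ha1⟩ : ∃ a ∈ (X ⊔ Y) ⊓ centralizer (W : Set G), a ≠ 1 := by
    by_contra hcon
    push Not at hcon
    exact h1 ((Subgroup.eq_bot_iff_forall _).2 hcon)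
  exact ⟨a, ha.1, ha1, fun w hw => (mem_centralizer_iff.1 ha.2 w hw).symm⟩

theorem Polar.line (h : Polar p K) {X : Subgroup G} (hX : X ∈ K) :
    ∃ X' ∈ K, X ≠ X' ∧ Cm X X' := by
  obtain ⟨X₀, hX₀, Y₀, hY₀, hne, hc⟩ := h.ex
  obtain ⟨a, ha, ha1, haX⟩ := h.meet hX₀ hY₀ hne hc hX
  by_cases hZ : zpowers a = X
  · have hXle : X ≤ X₀ ⊔ Y₀ := hZ ▸ zpowers_le.2 ha
    by_cases h0 : X₀ = X
    · subst h0
      exact ⟨Y₀, hY₀, hne, hc⟩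
    · refine ⟨X₀, hX₀, fun h' => h0 h'.symm, ?_⟩
      have h2 : Cm (X₀ ⊔ Y₀) X₀ := (cm_self_of_card (h.card X₀ hX₀)).sup_left hc.symm
      exact fun x hx y hy => h2 x (hXle hx) y hy
  · refine ⟨zpowers a, h.pt hX₀ hY₀ hne hc ha ha1, fun h' => hZ h'.symm, ?_⟩
    apply Cm.symm
    rw [cm_iff_le_centralizer, zpowers_le, mem_centralizer_iff]
    intro x hx
    exact (haX x hx).symm

theorem Polar.pair (h : Polar p K) {X W : Subgroup G} (hX : X ∈ K) (hW : W ∈ K) :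
    (∃ V ∈ K, ∀ W' ∈ K, Cm V W') ∨ IsPGroup p ↥(X ⊔ W) := by
  by_cases hXW : Cm X W
  · right
    exact IsPGroup.to_sup_of_normal_right' (isPGroup_of_card (h.card X hX))
      (isPGroup_of_card (h.card W hW)) (cm_le_normalizer hXW)
  obtain ⟨X', hX', hne', hc'⟩ := h.line hX
  obtain ⟨b, hb, hb1, hbW⟩ := h.meet hX hX' hne' hc' hW
  have hZ : zpowers b ∈ K := h.pt hX hX' hne' hc' hb hb1
  set Z := zpowers b with hZdef
  have hZcard := h.card Z hZ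
  have hbZ : b ∈ Z := mem_zpowers b
  have hZW : Cm Z W := cm_of_gen_left hZcard hbZ hb1 hbW
  have hXXsup : Cm (X ⊔ X') X := (cm_self_of_card (h.card X hX)).sup_left hc'.symm
  have hZX : Cm Z X := cm_of_gen_left hZcard hbZ hb1 (fun x hx => hXXsup b hb x hx)
  by_cases huniv : ∀ Y ∈ K, Cm Z Y
  · exact Or.inl ⟨Z, hZ, huniv⟩
  push Not at huniv
  obtain ⟨Y, hY, hZY⟩ := huniv
  right
  have hYcard := h.card Y hY
  have hZZ : Cm Z Z := cm_self_of_card hZcard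
  have hXZne : X ≠ Z := fun h' => hXW (h' ▸ hZW)
  have hWZne : W ≠ Z := fun h' => hXW (h' ▸ hZX).symm
  obtain ⟨x₁, hx₁, hx₁1, hx₁Y⟩ := h.meet hX hZ hXZne hZX.symm hY
  obtain ⟨w₁, hw₁, hw₁1, hw₁Y⟩ := h.meet hW hZ hWZne hZW.symm hY
  obtain ⟨x', hx', z', hz', hx₁e⟩ := mem_sup_of_cm hZX.symm hx₁
  obtain ⟨w', hw', z'', hz'', hw₁e⟩ := mem_sup_of_cm hZW.symm hw₁
  have hx'1 : x' ≠ 1 := by
    intro h1
    apply hZY
    rw [h1, one_mul] at hx₁e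
    exact cm_of_gen_left hZcard (hx₁e ▸ hz') hx₁1 hx₁Y
  have hw'1 : w' ≠ 1 := by
    intro h1
    apply hZY
    rw [h1, one_mul] at hw₁e
    exact cm_of_gen_left hZcard (hw₁e ▸ hz'') hw₁1 hw₁Y
  have hX₁ : zpowers x₁ ∈ K := h.pt hX hZ hXZne hZX.symm hx₁ hx₁1
  have hW₁ : zpowers w₁ ∈ K := h.pt hW hZ hWZne hZW.symm hw₁ hw₁1
  have hx₁Z : ∀ t ∈ Z, x₁ * t = t * x₁ := fun t ht => (hZX.symm.sup_left hZZ) x₁ hx₁ t ht
  have hw₁Z : ∀ t ∈ Z, w₁ * t = t * w₁ := fun t ht => (hZW.symm.sup_left hZZ) w₁ hw₁ t ht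
  obtain ⟨y, hy, hy1⟩ := exists_ne_one_of_card hYcard
  have hX₁card := h.card _ hX₁
  have hW₁card := h.card _ hW₁
  have hX₁Y : Cm (zpowers x₁) Y := cm_of_gen_left hX₁card (mem_zpowers x₁) hx₁1 hx₁Y
  have hX₁Z : Cm (zpowers x₁) Z := cm_of_gen_left hX₁card (mem_zpowers x₁) hx₁1 hx₁Z
  have hW₁Y : Cm (zpowers w₁) Y := cm_of_gen_left hW₁card (mem_zpowers w₁) hw₁1 hw₁Y
  have hW₁Z : Cm (zpowers w₁) Z := cm_of_gen_left hW₁card (mem_zpowers w₁) hw₁1 hw₁Z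
  have hX₁neY : zpowers x₁ ≠ Y := fun h' => hZY (h' ▸ hX₁Z).symm
  have hW₁neZ : zpowers w₁ ≠ Z := fun h' => hZY (h' ▸ hW₁Y)
  have hxy1 : x₁ * y ≠ 1 := by
    intro h1
    apply hX₁neY
    have hyX : y ∈ zpowers x₁ := by
      have : y = x₁⁻¹ := (inv_eq_of_mul_eq_one_right h1).symm
      rw [this]; exact inv_mem (mem_zpowers x₁)
    rw [eq_zpowers_of_card hX₁card hyX hy1, ← eq_zpowers_of_card hYcard hy hy1]
  have hP : zpowers (x₁ * y) ∈ K := h.pt hX₁ hY hX₁neY hX₁Y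
    (mul_mem (mem_sup_left (mem_zpowers x₁)) (mem_sup_right hy)) hxy1
  obtain ⟨a, ha, ha1, haP⟩ := h.meet hW₁ hZ hW₁neZ hW₁Z hP
  obtain ⟨w₂, hw₂, z₂, hz₂, hae⟩ := mem_sup_of_cm hW₁Z ha
  have heq : (w₂ * z₂) * (x₁ * y) = (x₁ * y) * (w₂ * z₂) := hae ▸ haP _ (mem_zpowers _)
  have c1 : x₁ * y = y * x₁ := hx₁Y y hy
  have c2 : w₂ * y = y * w₂ := hW₁Y w₂ hw₂ y hy
  have c3 : x₁ * z₂ = z₂ * x₁ := hx₁Z z₂ hz₂
  have c4 : w₂ * z₂ = z₂ * w₂ := hW₁Z w₂ hw₂ z₂ hz₂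
  have hc : x₁⁻¹ * w₂⁻¹ * x₁ * w₂ = z₂ * y * z₂⁻¹ * y⁻¹ := by
    have e1 : (w₂ * x₁) * (z₂ * y) = (x₁ * w₂) * (y * z₂) := by
      calc (w₂ * x₁) * (z₂ * y) = w₂ * (x₁ * z₂) * y := by group
        _ = w₂ * (z₂ * x₁) * y := by rw [c3]
        _ = (w₂ * z₂) * (x₁ * y) := by group
        _ = (x₁ * y) * (w₂ * z₂) := heq
        _ = x₁ * (y * w₂) * z₂ := by group
        _ = x₁ * (w₂ * y) * z₂ := by rw [c2]
        _ = (x₁ * w₂) * (y * z₂) := by group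
    calc x₁⁻¹ * w₂⁻¹ * x₁ * w₂ = (w₂ * x₁)⁻¹ * ((x₁ * w₂) * (y * z₂)) * (y * z₂)⁻¹ := by group
      _ = (w₂ * x₁)⁻¹ * ((w₂ * x₁) * (z₂ * y)) * (y * z₂)⁻¹ := by rw [e1]
      _ = z₂ * y * z₂⁻¹ * y⁻¹ := by group
  have hw₂1 : w₂ ≠ 1 := by
    intro h1
    apply hZY
    rw [h1] at hc hae
    rw [one_mul] at hae
    have e2 : z₂ * y = y * z₂ := by
      have : z₂ * y * z₂⁻¹ * y⁻¹ = 1 := by rw [← hc]; group
      calc z₂ * y = (z₂ * y * z₂⁻¹ * y⁻¹) * (y * z₂) := by group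
        _ = y * z₂ := by rw [this, one_mul]
    exact cm_of_gen hZcard hYcard hz₂ (hae ▸ ha1) hy hy1 e2
  set c := x₁⁻¹ * w₂⁻¹ * x₁ * w₂ with hcdef
  have inv_comm : ∀ s t : G, s * t = t * s → s * t⁻¹ = t⁻¹ * s := by
    intro s t hst
    calc s * t⁻¹ = t⁻¹ * (t * s) * t⁻¹ := by group
      _ = t⁻¹ * (s * t) * t⁻¹ := by rw [hst]
      _ = t⁻¹ * s := by group
  have hcx : c * x₁ = x₁ * c := by
    rw [hc]
    have i3 := inv_comm _ _ c3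
    have i1 := inv_comm _ _ c1
    calc z₂ * y * z₂⁻¹ * y⁻¹ * x₁ = z₂ * y * z₂⁻¹ * (y⁻¹ * x₁) := by group
      _ = z₂ * y * (z₂⁻¹ * x₁) * y⁻¹ := by rw [← i1]; group
      _ = z₂ * (y * x₁) * z₂⁻¹ * y⁻¹ := by rw [← i3]; group
      _ = (z₂ * x₁) * y * z₂⁻¹ * y⁻¹ := by rw [← c1]; group
      _ = x₁ * (z₂ * y * z₂⁻¹ * y⁻¹) := by rw [← c3]; group
  have hcw : c * w₂ = w₂ * c := by
    rw [hc]
    have i4 := inv_comm _ _ c4
    have i2 := inv_comm _ _ c2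
    calc z₂ * y * z₂⁻¹ * y⁻¹ * w₂ = z₂ * y * z₂⁻¹ * (y⁻¹ * w₂) := by group
      _ = z₂ * y * (z₂⁻¹ * w₂) * y⁻¹ := by rw [← i2]; group
      _ = z₂ * (y * w₂) * z₂⁻¹ * y⁻¹ := by rw [← i4]; group
      _ = (z₂ * w₂) * y * z₂⁻¹ * y⁻¹ := by rw [← c2]; group
      _ = w₂ * (z₂ * y * z₂⁻¹ * y⁻¹) := by rw [← c4]; group
  have hx₁p : x₁ ^ p = 1 := pow_eq_one_of_card hX₁card (mem_zpowers x₁)
  have hw₂p : w₂ ^ p = 1 := pow_eq_one_of_card hW₁card hw₂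
  have hPi1 := isPGroup_of_class_two hx₁p hw₂p hcdef hcx hcw
  have hw₂Z : ∀ t ∈ Z, w₂ * t = t * w₂ := fun t ht => hW₁Z w₂ hw₂ t ht
  have hPi1Z : Cm (zpowers w₂ ⊔ (zpowers x₁ ⊔ zpowers c)) Z := by
    rw [cm_iff_le_centralizer]
    have m1 : x₁ ∈ centralizer (Z : Set G) :=
      mem_centralizer_iff.2 (fun t ht => (hx₁Z t ht).symm)
    have m2 : w₂ ∈ centralizer (Z : Set G) :=
      mem_centralizer_iff.2 (fun t ht => (hw₂Z t ht).symm)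
    refine sup_le (zpowers_le.2 m2) (sup_le (zpowers_le.2 m1) (zpowers_le.2 ?_))
    rw [hcdef]
    exact mul_mem (mul_mem (mul_mem (inv_mem m1) (inv_mem m2)) m1) m2
  have hPi : IsPGroup p ↥(Z ⊔ (zpowers w₂ ⊔ (zpowers x₁ ⊔ zpowers c))) :=
    IsPGroup.to_sup_of_normal_right' (isPGroup_of_card hZcard) hPi1 (cm_le_normalizer hPi1Z.symm)
  apply hPi.to_le
  refine sup_le ?_ ?_
  · rw [eq_zpowers_of_card (h.card X hX) hx' hx'1, zpowers_le]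
    have : x' = x₁ * z'⁻¹ := by rw [hx₁e]; group
    rw [this]
    exact mul_mem (mem_sup_right (mem_sup_right (mem_sup_left (mem_zpowers x₁))))
      (mem_sup_left (inv_mem hz'))
  · rw [eq_zpowers_of_card (h.card W hW) hw' hw'1, zpowers_le]
    have e3 : w' = w₁ * z''⁻¹ := by rw [hw₁e]; group
    have e4 : w₁ ∈ zpowers w₂ := by
      rw [← eq_zpowers_of_card hW₁card hw₂ hw₂1]; exact mem_zpowers w₁
    rw [e3]
    exact mul_mem (mem_sup_right (mem_sup_left e4)) (mem_sup_left (inv_mem hz''))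

end Cfsg.Agent.H22
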