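import Mathlib
import Cfsg.Agent.Lib.Helper22.PRegIndex
import Cfsg.Agent.S0071

/-! Counting classes of `2`-elements: if `G` has no normal `2`-complement then the number of fusion
classes in a Sylow `2`-subgroup `P` is at most `|P| / 2`. -/

set_option autoImplicit false

namespace Cfsg.Agent.Lib.Helper22

open Subgroup

theorem two_mul_card_le_of_fibers {α X : Type*} [Finite α] [Finite X] (π : α → X)
    (hπ : Function.Surjective π) (I E : Set α)
    (hI : ∀ a, (∀ b, π b = π a → b = a) → a ∈ I)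
    (hE : ∀ e ∈ E, ∃ b c, π b = π e ∧ π c = π e ∧ b ≠ e ∧ c ≠ e ∧ b ≠ c)
    (hcard : 3 * I.ncard ≤ E.ncard) : 2 * Nat.card X ≤ Nat.card α := by
  classical
  letI : Fintype α := Fintype.ofFinite α
  letI : Fintype X := Fintype.ofFinite X
  have key : ∀ c : X, 6 + (E.toFinset.filter (fun a => π a = c)).card ≤
      3 * ((Finset.univ : Finset α).filter (fun a => π a = c)).card +
        3 * (I.toFinset.filter (fun a => π a = c)).card := by
    intro c
    obtain ⟨a0, ha0⟩ := hπ c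
    have ha0F : a0 ∈ (Finset.univ : Finset α).filter (fun a => π a = c) := by simp [ha0]
    have hpos : 0 < ((Finset.univ : Finset α).filter (fun a => π a = c)).card :=
      Finset.card_pos.mpr ⟨a0, ha0F⟩
    by_cases h3 : 3 ≤ ((Finset.univ : Finset α).filter (fun a => π a = c)).card
    · have hsub : (E.toFinset.filter (fun a => π a = c)).card ≤
          ((Finset.univ : Finset α).filter (fun a => π a = c)).card := by
        apply Finset.card_le_card
        intro a ha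
        simp only [Finset.mem_filter, Finset.mem_univ, true_and] at ha ⊢
        exact ha.2
      omega
    · have he : (E.toFinset.filter (fun a => π a = c)).card = 0 := by
        rw [Finset.card_eq_zero, Finset.eq_empty_iff_forall_notMem]
        intro e he
        simp only [Finset.mem_filter, Set.mem_toFinset] at he
        obtain ⟨b, c', hb, hc', n1, n2, n3⟩ := hE e he.1
        apply h3
        have : 2 < ((Finset.univ : Finset α).filter (fun a => π a = c)).card := by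
          rw [Finset.two_lt_card]
          refine ⟨e, ?_, b, ?_, c', ?_, n1.symm, n2.symm, n3⟩
          · simp [he.2]
          · simp [hb, he.2]
          · simp [hc', he.2]
        omega
      by_cases h1 : ((Finset.univ : Finset α).filter (fun a => π a = c)).card ≤ 1
      · have ha0I : a0 ∈ I := by
          apply hI
          intro b hb
          exact Finset.card_le_one.mp h1 b (by simp [hb, ha0]) a0 ha0F
        have : 0 < (I.toFinset.filter (fun a => π a = c)).card :=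
          Finset.card_pos.mpr ⟨a0, by simp [ha0I, ha0]⟩
        omega
      · omega
  have hsum := Finset.sum_le_sum (fun c (_ : c ∈ (Finset.univ : Finset X)) => key c)
  have f1 : ∀ s : Finset α, s.card = ∑ b : X, (s.filter (fun a => π a = b)).card := fun s =>
    Finset.card_eq_sum_card_fiberwise (fun _ _ => Finset.mem_coe.mpr (Finset.mem_univ _))
  rw [Finset.sum_add_distrib, Finset.sum_add_distrib, ← Finset.mul_sum, ← Finset.mul_sum,
    ← f1, ← f1, ← f1] at hsum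
  simp only [Finset.sum_const, Finset.card_univ, smul_eq_mul] at hsum
  rw [Set.ncard_eq_toFinset_card' I, Set.ncard_eq_toFinset_card' E] at hcard
  rw [Nat.card_eq_fintype_card, Nat.card_eq_fintype_card]
  omega

/-- elements of `P` not fused to any other element of `P`. -/
def Isol {G : Type*} [Group G] (P : Subgroup G) : Set G :=
  {x | x ∈ P ∧ ∀ g : G, g * x * g⁻¹ ∈ P → g * x * g⁻¹ = x}

theorem isol_control {G : Type*} [Group G] [Finite G] {p : ℕ} [Fact p.Prime] (P : Sylow p G)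
    {x : G} (hx : x ∈ Isol (P : Subgroup G)) {u g : G} (hu : u ∈ P) (hv : g * u * g⁻¹ ∈ P) :
    ∃ k : G, k * x = x * k ∧ k * u * k⁻¹ = g * u * g⁻¹ := by
  have hxc : ∀ s ∈ P, s * x = x * s := by
    intro s hs
    have h1 := hx.2 s ((P : Subgroup G).mul_mem ((P : Subgroup G).mul_mem hs hx.1)
      ((P : Subgroup G).inv_mem hs))
    rw [mul_inv_eq_iff_eq_mul] at h1
    exact h1
  set C := centralizer ({u} : Set G) with hC
  have hxC : x ∈ C := mem_centralizer_singleton_iff.mpr (hxc u hu).symm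
  have hx'C : g⁻¹ * x * g ∈ C := by
    rw [hC, mem_centralizer_singleton_iff]
    have h1 := hxc _ hv
    calc g⁻¹ * x * g * u = g⁻¹ * (x * (g * u * g⁻¹)) * g := by group
      _ = g⁻¹ * ((g * u * g⁻¹) * x) * g := by rw [h1]
      _ = u * (g⁻¹ * x * g) := by group
  obtain ⟨a, ha⟩ := (IsPGroup.iff_orderOf.mp P.isPGroup') ⟨x, hx.1⟩
  have hox : orderOf x = p ^ a := by rw [← ha]; exact (Subgroup.orderOf_mk x hx.1).symm
  have hp1 : IsPGroup p (zpowers (⟨x, hxC⟩ : C)) := by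
    apply isPGroup_zpowers_of_orderOf
    exact ⟨a, by rw [← hox]; exact Subgroup.orderOf_mk x hxC⟩
  have hp2 : IsPGroup p (zpowers (⟨g⁻¹ * x * g, hx'C⟩ : C)) := by
    apply isPGroup_zpowers_of_orderOf
    refine ⟨a, ?_⟩
    rw [Subgroup.orderOf_mk, ← hox]
    have := (MulAut.conj g⁻¹).orderOf_eq x
    simpa using this
  obtain ⟨T, hT⟩ := hp1.exists_le_sylow
  obtain ⟨T', hT'⟩ := hp2.exists_le_sylow
  obtain ⟨c, hc⟩ := MulAction.exists_smul_eq C T' T
  have m1 : (⟨x, hxC⟩ : C) ∈ T := hT (mem_zpowers _)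
  have m2 : c * ⟨g⁻¹ * x * g, hx'C⟩ * c⁻¹ ∈ T := by
    rw [← hc, mem_sylow_smul_iff]
    have e : c⁻¹ * (c * ⟨g⁻¹ * x * g, hx'C⟩ * c⁻¹) * c = ⟨g⁻¹ * x * g, hx'C⟩ := by group
    rw [e]
    exact hT' (mem_zpowers _)
  have hTp : IsPGroup p ((T : Subgroup C).map C.subtype) := T.isPGroup'.map _
  obtain ⟨S, hS⟩ := hTp.exists_le_sylow
  obtain ⟨h, hh⟩ := MulAction.exists_smul_eq G P S
  have m3 : h⁻¹ * x * h ∈ P := by
    rw [← mem_sylow_smul_iff, hh]
    exact hS ⟨⟨x, hxC⟩, m1, rfl⟩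
  have m4 : h⁻¹ * ((c : G) * (g⁻¹ * x * g) * (c : G)⁻¹) * h ∈ P := by
    rw [← mem_sylow_smul_iff, hh]
    exact hS ⟨_, m2, rfl⟩
  have e3 : h⁻¹ * x * h = x := by
    have := hx.2 h⁻¹ (by rw [inv_inv]; exact m3)
    rwa [inv_inv] at this
  have e4 : h⁻¹ * ((c : G) * (g⁻¹ * x * g) * (c : G)⁻¹) * h = x := by
    have e5 : h⁻¹ * ((c : G) * (g⁻¹ * x * g) * (c : G)⁻¹) * h =
        (h⁻¹ * c * g⁻¹) * x * (h⁻¹ * c * g⁻¹)⁻¹ := by group
    rw [e5] at m4 ⊢
    exact hx.2 _ m4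
  have e6 : (c : G) * (g⁻¹ * x * g) * (c : G)⁻¹ = x := by
    have : h⁻¹ * ((c : G) * (g⁻¹ * x * g) * (c : G)⁻¹) * h = h⁻¹ * x * h := by rw [e4, e3]
    exact mul_left_cancel (mul_right_cancel this)
  have hcu : (c : G) * u = u * c := mem_centralizer_singleton_iff.mp c.2
  refine ⟨g * (c : G)⁻¹, ?_, ?_⟩
  · calc g * (c : G)⁻¹ * x = g * (c : G)⁻¹ * ((c : G) * (g⁻¹ * x * g) * (c : G)⁻¹) := by rw [e6]
      _ = x * (g * (c : G)⁻¹) := by group
  · have e7 : (c : G)⁻¹ * u * c = u := by rw [mul_assoc, ← hcu]; group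
    calc g * (c : G)⁻¹ * u * (g * (c : G)⁻¹)⁻¹ = g * ((c : G)⁻¹ * u * c) * g⁻¹ := by group
      _ = g * u * g⁻¹ := by rw [e7]

theorem isol_inv_mul {G : Type*} [Group G] [Finite G] {p : ℕ} [Fact p.Prime] (P : Sylow p G)
    {x x' : G} (hx : x ∈ Isol (P : Subgroup G)) (hx' : x' ∈ Isol (P : Subgroup G)) :
    x⁻¹ * x' ∈ Isol (P : Subgroup G) := by
  have hinv : x⁻¹ ∈ Isol (P : Subgroup G) := by
    refine ⟨(P : Subgroup G).inv_mem hx.1, ?_⟩
    intro g hg
    have h1 : g * x * g⁻¹ ∈ (P : Subgroup G) := by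
      have := (P : Subgroup G).inv_mem hg
      simpa [mul_assoc] using this
    have h2 := hx.2 g h1
    calc g * x⁻¹ * g⁻¹ = (g * x * g⁻¹)⁻¹ := by group
      _ = x⁻¹ := by rw [h2]
  refine ⟨(P : Subgroup G).mul_mem hinv.1 hx'.1, ?_⟩
  intro g hg
  obtain ⟨k, hk1, hk2⟩ := isol_control P hinv ((P : Subgroup G).mul_mem hinv.1 hx'.1) hg
  have e1 : k * (x⁻¹ * x') * k⁻¹ = x⁻¹ * (k * x' * k⁻¹) := by
    calc k * (x⁻¹ * x') * k⁻¹ = (k * x⁻¹) * x' * k⁻¹ := by group
      _ = (x⁻¹ * k) * x' * k⁻¹ := by rw [hk1]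
      _ = x⁻¹ * (k * x' * k⁻¹) := by group
  have h3 : k * x' * k⁻¹ ∈ (P : Subgroup G) := by
    have h4 : x⁻¹ * (k * x' * k⁻¹) ∈ (P : Subgroup G) := by rw [← e1, hk2]; exact hg
    have := (P : Subgroup G).mul_mem hx.1 h4
    simpa using this
  rw [← hk2, e1, hx'.2 k h3]

theorem isol_star {G : Type*} [Group G] [Finite G] {p : ℕ} [Fact p.Prime] (P : Sylow p G)
    (Q : Subgroup G) (hQ : Q ≤ P) {t w z : G} (ht : ∀ q ∈ Q, t * q * t⁻¹ ∈ Q)
    (hcop : (orderOf t).Coprime p) (hw : w ∈ Q) (hz : z ∈ Isol (P : Subgroup G))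
    (h : t * w * t⁻¹ = z * w) : z = 1 := by
  have hzQ : z ∈ Q := by
    have : z = t * w * t⁻¹ * w⁻¹ := by rw [h]; group
    rw [this]
    exact Q.mul_mem (ht w hw) (Q.inv_mem hw)
  have htz : t * z * t⁻¹ = z := hz.2 t (hQ (ht z hzQ))
  have hind : ∀ n : ℕ, t ^ n * w * (t ^ n)⁻¹ = z ^ n * w := by
    intro n
    induction n with
    | zero => simp
    | succ n ih =>
      calc t ^ (n + 1) * w * (t ^ (n + 1))⁻¹ = t * (t ^ n * w * (t ^ n)⁻¹) * t⁻¹ := by
            rw [pow_succ']; group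
        _ = t * (z ^ n * w) * t⁻¹ := by rw [ih]
        _ = (t * z * t⁻¹) ^ n * (t * w * t⁻¹) := by rw [conj_pow]; group
        _ = z ^ (n + 1) * w := by rw [htz, h, pow_succ]; group
  have h1 := hind (orderOf t)
  rw [pow_orderOf_eq_one] at h1
  have h2 : z ^ orderOf t = 1 := by
    have : w = z ^ orderOf t * w := by simpa using h1
    exact (mul_eq_right.mp this.symm)
  obtain ⟨a, ha⟩ := (IsPGroup.iff_orderOf.mp P.isPGroup') ⟨z, hz.1⟩
  have hoz : orderOf z = p ^ a := by rw [← ha]; exact (Subgroup.orderOf_mk z hz.1).symm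
  have h3 : orderOf z ∣ orderOf t := orderOf_dvd_of_pow_eq_one h2
  have h4 : (orderOf z).Coprime (orderOf t) := by
    rw [hoz]; exact (Nat.Coprime.pow_right a hcop).symm
  have h5 : orderOf z = 1 := Nat.Coprime.eq_one_of_dvd h4 h3
  exact orderOf_eq_one_iff.mp h5

theorem isol_disj {G : Type*} [Group G] [Finite G] {p : ℕ} [Fact p.Prime] (P : Sylow p G)
    (Q : Subgroup G) (hQ : Q ≤ P) {t w : G} (ht : ∀ q ∈ Q, t * q * t⁻¹ ∈ Q)
    (hcop : (orderOf t).Coprime p) (hw : w ∈ Q) (hne : t * w * t⁻¹ ≠ w) {x x' : G}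
    (hx : x ∈ Isol (P : Subgroup G)) (hx' : x' ∈ Isol (P : Subgroup G)) :
    x * (t * w * t⁻¹) ≠ x' * w := by
  intro h
  have h1 : t * w * t⁻¹ = (x⁻¹ * x') * w := by rw [mul_assoc x⁻¹, ← h]; group
  have h2 := isol_star P Q hQ ht hcop hw (isol_inv_mul P hx hx') h1
  rw [h2, one_mul] at h1
  exact hne h1

theorem isol_conj_mul {G : Type*} [Group G] [Finite G] {p : ℕ} [Fact p.Prime] (P : Sylow p G)
    {x u g : G} (hx : x ∈ Isol (P : Subgroup G)) (hu : u ∈ P) (hv : g * u * g⁻¹ ∈ P) :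
    IsConj (x * u) (x * (g * u * g⁻¹)) := by
  obtain ⟨k, hk1, hk2⟩ := isol_control P hx hu hv
  rw [isConj_iff]
  refine ⟨k, ?_⟩
  calc k * (x * u) * k⁻¹ = (k * x) * u * k⁻¹ := by group
    _ = (x * k) * u * k⁻¹ := by rw [hk1]
    _ = x * (k * u * k⁻¹) := by group
    _ = x * (g * u * g⁻¹) := by rw [hk2]

theorem two_mul_card_le {G : Type*} [Group G] [Finite G] (P : Sylow 2 G)
    (hnc : ¬ ∃ N : Subgroup G, N.Normal ∧ N.IsComplement' (P : Subgroup G))
    {X : Type*} [Finite X] (π : P → X) (hπ : Function.Surjective π)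
    (hπc : ∀ a b : P, π a = π b ↔ IsConj (a : G) (b : G)) : 2 * Nat.card X ≤ Nat.card P := by
  haveI : Fact (Nat.Prime 2) := ⟨Nat.prime_two⟩
  rw [Cfsg.Agent.S0071.result P] at hnc
  push Not at hnc
  obtain ⟨Q, hQ, y, hy, hcop, hyc⟩ := hnc
  obtain ⟨u, huQ, hu⟩ : ∃ u ∈ Q, y * u * y⁻¹ ≠ u := by
    by_contra hcon
    push Not at hcon
    apply hyc
    rw [mem_centralizer_iff]
    intro q hq
    have := hcon q hq
    rw [mul_inv_eq_iff_eq_mul] at this
    exact this.symm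
  have hnQ : ∀ t ∈ normalizer (Q : Set G), ∀ q ∈ Q, t * q * t⁻¹ ∈ Q :=
    fun t ht q hq => (mem_normalizer_iff.mp ht q).mp hq
  have hyQ := hnQ y hy
  have hyQ' := hnQ y⁻¹ (inv_mem hy)
  have hyQ2 := hnQ (y * y) (mul_mem hy hy)
  have hcop' : (orderOf y⁻¹).Coprime 2 := by rw [orderOf_inv]; exact hcop
  have hcop2 : (orderOf (y * y)).Coprime 2 := by
    apply Nat.Coprime.coprime_dvd_left _ hcop
    apply orderOf_dvd_of_pow_eq_one
    rw [(Commute.refl y).mul_pow, pow_orderOf_eq_one, one_mul]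
  have hu1Q : y * u * y⁻¹ ∈ Q := hyQ u huQ
  have hu2Q : y⁻¹ * u * y⁻¹⁻¹ ∈ Q := hyQ' u huQ
  have h20 : y⁻¹ * u * y⁻¹⁻¹ ≠ u := by
    intro h
    apply hu
    calc y * u * y⁻¹ = y * (y⁻¹ * u * y⁻¹⁻¹) * y⁻¹ := by rw [h]
      _ = u := by group
  have e12 : (y * y) * (y⁻¹ * u * y⁻¹⁻¹) * (y * y)⁻¹ = y * u * y⁻¹ := by group
  have h12 : (y * y) * (y⁻¹ * u * y⁻¹⁻¹) * (y * y)⁻¹ ≠ y⁻¹ * u * y⁻¹⁻¹ := by
    intro h
    apply hu
    have hc : Commute (y * y) u := by
      have h1 : y * u * y⁻¹ = y⁻¹ * u * y⁻¹⁻¹ := e12.symm.trans h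
      show y * y * u = u * (y * y)
      calc y * y * u = y * (y * u * y⁻¹) * y := by group
        _ = y * (y⁻¹ * u * y⁻¹⁻¹) * y := by rw [h1]
        _ = u * (y * y) := by group
    obtain ⟨n, hn⟩ := Nat.coprime_two_right.mp hcop
    have hy2 : (y * y) ^ (n + 1) = y := by
      rw [← pow_two, ← pow_mul]
      have : 2 * (n + 1) = orderOf y + 1 := by omega
      rw [this, pow_succ, pow_orderOf_eq_one, one_mul]
    have hc2 : Commute y u := by
      have := hc.pow_left (n + 1)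
      rwa [hy2] at this
    rw [hc2.eq]; group
  set I' : Set P := {a | (a : G) ∈ Isol (P : Subgroup G)} with hI'
  set v0 : P := ⟨u, hQ huQ⟩ with hv0
  set v1 : P := ⟨y * u * y⁻¹, hQ hu1Q⟩ with hv1
  set v2 : P := ⟨y⁻¹ * u * y⁻¹⁻¹, hQ hu2Q⟩ with hv2
  have n01 : v0 ≠ v1 := fun h => hu (congrArg Subtype.val h).symm
  have n02 : v0 ≠ v2 := fun h => h20 (congrArg Subtype.val h).symm
  have n12 : v1 ≠ v2 := fun h => h12 (e12.trans (congrArg Subtype.val h))
  have p01 : ∀ x ∈ I', π (x * v0) = π (x * v1) := fun x hx =>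
    (hπc _ _).mpr (isol_conj_mul P hx (hQ huQ) (hQ hu1Q))
  have p02 : ∀ x ∈ I', π (x * v0) = π (x * v2) := fun x hx =>
    (hπc _ _).mpr (isol_conj_mul P hx (hQ huQ) (hQ hu2Q))
  apply two_mul_card_le_of_fibers π hπ I'
    ((fun x => x * v0) '' I' ∪ (fun x => x * v1) '' I' ∪ (fun x => x * v2) '' I')
  · intro a ha
    refine ⟨a.2, fun g hg => ?_⟩
    have := ha ⟨g * a * g⁻¹, hg⟩ ((hπc _ _).mpr (isConj_iff.mpr ⟨g⁻¹, by group⟩))
    exact congrArg Subtype.val this
  · rintro e ((⟨x, hx, rfl⟩ | ⟨x, hx, rfl⟩) | ⟨x, hx, rfl⟩)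
    · exact ⟨x * v1, x * v2, (p01 x hx).symm, (p02 x hx).symm,
        fun h => n01 (mul_left_cancel h).symm, fun h => n02 (mul_left_cancel h).symm,
        fun h => n12 (mul_left_cancel h)⟩
    · exact ⟨x * v0, x * v2, p01 x hx, (p02 x hx).symm.trans (p01 x hx),
        fun h => n01 (mul_left_cancel h), fun h => n12 (mul_left_cancel h).symm,
        fun h => n02 (mul_left_cancel h)⟩
    · exact ⟨x * v0, x * v1, p02 x hx, (p01 x hx).symm.trans (p02 x hx),
        fun h => n02 (mul_left_cancel h), fun h => n12 (mul_left_cancel h),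
        fun h => n01 (mul_left_cancel h)⟩
  · have d01 : Disjoint ((fun x => x * v0) '' I') ((fun x => x * v1) '' I') := by
      rw [Set.disjoint_left]
      rintro _ ⟨x, hx, rfl⟩ ⟨x', hx', h⟩
      exact isol_disj P Q hQ hyQ hcop huQ hu hx' hx (congrArg Subtype.val h)
    have d2 : Disjoint ((fun x => x * v0) '' I' ∪ (fun x => x * v1) '' I')
        ((fun x => x * v2) '' I') := by
      rw [Set.disjoint_left]
      rintro _ (⟨x, hx, rfl⟩ | ⟨x, hx, rfl⟩) ⟨x', hx', h⟩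
      · exact isol_disj P Q hQ hyQ' hcop' huQ h20 hx' hx (congrArg Subtype.val h)
      · have h1 : (x' : G) * (y⁻¹ * u * y⁻¹⁻¹) = x * (y * u * y⁻¹) := congrArg Subtype.val h
        rw [← e12] at h1
        exact isol_disj P Q hQ hyQ2 hcop2 hu2Q h12 hx hx' h1.symm
    rw [Set.ncard_union_eq d2, Set.ncard_union_eq d01,
      Set.ncard_image_of_injective _ (mul_left_injective v0),
      Set.ncard_image_of_injective _ (mul_left_injective v1),
      Set.ncard_image_of_injective _ (mul_left_injective v2)]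
    omega

end Cfsg.Agent.Lib.Helper22
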