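import Mathlib
import Cfsg.Agent.H1.Coprime

/-! A `p`-group acted on by two commuting `p'`-elements without common fixed points, generated
(on normal subgroups) by their fixed points: the two fixed-point subgroups commute. -/

set_option autoImplicit false

namespace Cfsg.Agent.Lib.Helper22

open Subgroup

universe u

/-- central step, one half. -/
theorem twoFix_stepA {S : Type u} [Group S] [Finite S] (P Z : Subgroup S) [P.Normal] [Z.Normal]
    (x₁ x₂ : S) (hx : Commute x₁ x₂) (hZc : ∀ z ∈ Z, ∀ y ∈ P, z * y = y * z) (hZP : Z ≤ P)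
    (hgen : Z ≤ (Z ⊓ centralizer {x₁}) ⊔ (Z ⊓ centralizer {x₂}))
    (hfix : ∀ y ∈ P, Commute x₁ y → Commute x₂ y → y = 1)
    (hcomm : ∀ a ∈ P, ∀ b ∈ P, Commute x₁ a → Commute x₂ b → a * b * a⁻¹ * b⁻¹ ∈ Z)
    (a b : S) (ha : a ∈ P) (hb : b ∈ P) (ha1 : Commute x₁ a) (hb2 : Commute x₂ b) :
    Commute x₂ (a * b * a⁻¹ * b⁻¹) := by
  classical
  -- the subgroup T of Z
  let T : Subgroup S :=
    { carrier := {z | z ∈ Z ∧ Commute x₂ (z⁻¹ * (x₁ * z * x₁⁻¹))}
      one_mem' := ⟨Z.one_mem, by simp⟩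
      mul_mem' := by
        rintro z w ⟨hz, hz'⟩ ⟨hw, hw'⟩
        refine ⟨Z.mul_mem hz hw, ?_⟩
        have hzx : x₁ * z * x₁⁻¹ ∈ Z := Normal.conj_mem inferInstance z hz x₁
        have h1 : (z * w)⁻¹ * (x₁ * (z * w) * x₁⁻¹)
            = (z⁻¹ * (x₁ * z * x₁⁻¹)) * (w⁻¹ * (x₁ * w * x₁⁻¹)) := by
          have e1 : w⁻¹ * (z⁻¹ * (x₁ * z * x₁⁻¹)) = (z⁻¹ * (x₁ * z * x₁⁻¹)) * w⁻¹ :=
            hZc _ (Z.inv_mem hw) _ (hZP (Z.mul_mem (Z.inv_mem hz) hzx))
          calc (z * w)⁻¹ * (x₁ * (z * w) * x₁⁻¹)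
              = (w⁻¹ * (z⁻¹ * (x₁ * z * x₁⁻¹))) * (x₁ * w * x₁⁻¹) := by group
            _ = _ := by rw [e1]; group
        rw [h1]
        exact hz'.mul_right hw'
      inv_mem' := by
        rintro z ⟨hz, hz'⟩
        refine ⟨Z.inv_mem hz, ?_⟩
        have hzx : x₁ * z * x₁⁻¹ ∈ Z := Normal.conj_mem inferInstance z hz x₁
        have h1 : (z⁻¹)⁻¹ * (x₁ * z⁻¹ * x₁⁻¹) = (z⁻¹ * (x₁ * z * x₁⁻¹))⁻¹ := by
          have e1 : z * (x₁ * z * x₁⁻¹)⁻¹ = (x₁ * z * x₁⁻¹)⁻¹ * z :=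
            hZc _ hz _ (hZP (Z.inv_mem hzx))
          calc (z⁻¹)⁻¹ * (x₁ * z⁻¹ * x₁⁻¹) = z * (x₁ * z * x₁⁻¹)⁻¹ := by group
            _ = (x₁ * z * x₁⁻¹)⁻¹ * z := e1
            _ = _ := by group
        rw [h1]
        exact hz'.inv_right }
  have hT : Z ≤ T := by
    refine hgen.trans (sup_le ?_ ?_)
    · rintro z ⟨hz, hz1⟩
      refine ⟨hz, ?_⟩
      have h1 : x₁ * z = z * x₁ := (mem_centralizer_singleton_iff.mp hz1).symm
      have : z⁻¹ * (x₁ * z * x₁⁻¹) = 1 := by rw [h1]; group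
      rw [this]; exact Commute.one_right _
    · rintro z ⟨hz, hz2⟩
      refine ⟨hz, ?_⟩
      have h1 : Commute x₂ z := (mem_centralizer_singleton_iff.mp hz2).symm
      exact h1.inv_right.mul_right ((hx.symm.mul_right h1).mul_right hx.symm.inv_right)
  -- surjectivity of c ↦ c⁻¹ c^{x₁} on P₂
  let P₂ : Subgroup S := P ⊓ centralizer {x₂}
  have hP2 : ∀ c : S, c ∈ P₂ ↔ c ∈ P ∧ Commute x₂ c := by
    intro c
    constructor
    · rintro ⟨h1, h2⟩; exact ⟨h1, (mem_centralizer_singleton_iff.mp h2).symm⟩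
    · rintro ⟨h1, h2⟩; exact ⟨h1, mem_centralizer_singleton_iff.mpr h2.symm⟩
  have hconj : ∀ c ∈ P₂, x₁ * c * x₁⁻¹ ∈ P₂ := by
    intro c hc
    rw [hP2] at hc ⊢
    exact ⟨Normal.conj_mem inferInstance c hc.1 x₁,
      (hx.symm.mul_right hc.2).mul_right hx.symm.inv_right⟩
  let ψ : P₂ → P₂ := fun c => ⟨(c : S)⁻¹ * (x₁ * c * x₁⁻¹), P₂.mul_mem (P₂.inv_mem c.2) (hconj c c.2)⟩
  have hψinj : Function.Injective ψ := by
    intro c d hcd
    have h1 : (c : S)⁻¹ * (x₁ * c * x₁⁻¹) = (d : S)⁻¹ * (x₁ * d * x₁⁻¹) := congrArg Subtype.val hcd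
    have h2 : (d : S) * (c : S)⁻¹ ∈ P₂ := P₂.mul_mem d.2 (P₂.inv_mem c.2)
    have h3 : Commute x₁ ((d : S) * (c : S)⁻¹) := by
      show x₁ * ((d : S) * (c : S)⁻¹) = (d : S) * (c : S)⁻¹ * x₁
      have e : x₁ * (d : S) * x₁⁻¹ = (d : S) * ((c : S)⁻¹ * (x₁ * c * x₁⁻¹)) := by
        rw [h1]; group
      calc x₁ * ((d : S) * (c : S)⁻¹) = (x₁ * (d : S) * x₁⁻¹) * (x₁ * c * x₁⁻¹)⁻¹ * x₁ := by group
        _ = _ := by rw [e]; group
    have h4 := hfix _ ((hP2 _).mp h2).1 h3 ((hP2 _).mp h2).2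
    apply Subtype.ext
    exact (mul_inv_eq_one.mp h4).symm
  have hψsurj : Function.Surjective ψ := Finite.surjective_of_injective hψinj
  obtain ⟨c, hc⟩ := hψsurj ⟨b, (hP2 b).mpr ⟨hb, hb2⟩⟩
  have hcb : b = (c : S)⁻¹ * (x₁ * c * x₁⁻¹) := (congrArg Subtype.val hc).symm
  have hcP := ((hP2 _).mp c.2)
  set z := a * (c : S) * a⁻¹ * (c : S)⁻¹ with hz
  have hzZ : z ∈ Z := hcomm a ha c hcP.1 ha1 hcP.2
  have hzT := (hT hzZ).2
  have hzx : x₁ * z * x₁⁻¹ ∈ Z := Normal.conj_mem inferInstance z hzZ x₁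
  have hax : x₁ * a * x₁⁻¹ = a := by rw [ha1.eq]; group
  have hax' : x₁ * a⁻¹ * x₁⁻¹ = a⁻¹ := by rw [ha1.inv_right.eq]; group
  have key : a * b * a⁻¹ * b⁻¹ = z⁻¹ * (x₁ * z * x₁⁻¹) := by
    have e1 : a * (c : S)⁻¹ * a⁻¹ = (c : S)⁻¹ * z⁻¹ := by rw [hz]; group
    have e2 : a * (x₁ * c * x₁⁻¹) * a⁻¹ = (x₁ * z * x₁⁻¹) * (x₁ * c * x₁⁻¹) := by
      have : x₁ * z * x₁⁻¹ = (x₁ * a * x₁⁻¹) * (x₁ * c * x₁⁻¹) * (x₁ * a⁻¹ * x₁⁻¹) * (x₁ * c * x₁⁻¹)⁻¹ := by
        rw [hz]; group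
      rw [this, hax, hax']; group
    have e3 : (c : S)⁻¹ * (z⁻¹ * (x₁ * z * x₁⁻¹)) = (z⁻¹ * (x₁ * z * x₁⁻¹)) * (c : S)⁻¹ :=
      (hZc _ (Z.mul_mem (Z.inv_mem hzZ) hzx) _ (P.inv_mem hcP.1)).symm
    calc a * b * a⁻¹ * b⁻¹
        = (a * (c : S)⁻¹ * a⁻¹) * (a * (x₁ * c * x₁⁻¹) * a⁻¹) * b⁻¹ := by rw [hcb]; group
      _ = ((c : S)⁻¹ * (z⁻¹ * (x₁ * z * x₁⁻¹))) * (x₁ * c * x₁⁻¹) * b⁻¹ := by rw [e1, e2]; group
      _ = (z⁻¹ * (x₁ * z * x₁⁻¹)) * ((c : S)⁻¹ * (x₁ * c * x₁⁻¹)) * b⁻¹ := by rw [e3]; group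
      _ = _ := by rw [← hcb]; group
  rw [key]
  exact hzT

theorem twoFix_aux (p : ℕ) [Fact p.Prime] (n : ℕ) : ∀ {S : Type u} [Group S] [Finite S]
    (P : Subgroup S) [P.Normal] (x₁ x₂ : S), Nat.card P = n → IsPGroup p P → Commute x₁ x₂ →
    (Nat.card (closure ({x₁, x₂} : Set S))).Coprime (Nat.card P) →
    (∀ R : Subgroup S, R.Normal → R ≤ P → R ≤ (R ⊓ centralizer {x₁}) ⊔ (R ⊓ centralizer {x₂})) →
    (∀ y ∈ P, Commute x₁ y → Commute x₂ y → y = 1) →
    ∀ a ∈ P, ∀ b ∈ P, Commute x₁ a → Commute x₂ b → Commute a b := by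
  induction n using Nat.strong_induction_on with
  | _ n ih =>
  intro S _ _ P _ x₁ x₂ hn hP hx hcop hgen hfix a ha b hb ha1 hb2
  by_cases hPb : P = ⊥
  · rw [hPb, mem_bot] at ha
    rw [ha]; exact Commute.one_left b
  haveI : Nontrivial P := (nontrivial_iff_ne_bot P).mpr hPb
  have hZne : center P ≠ ⊥ := by
    have := hP.center_nontrivial
    exact (nontrivial_iff_ne_bot _).mp this
  set Z : Subgroup S := (center P).map P.subtype with hZdef
  haveI hZn : Z.Normal := ConjAct.normal_of_characteristic_of_normal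
  have hZP : Z ≤ P := map_subtype_le _
  have hZb : Z ≠ ⊥ := by
    intro h1
    apply hZne
    rw [hZdef, map_eq_bot_iff_of_injective _ P.subtype_injective] at h1
    exact h1
  have hZc : ∀ z ∈ Z, ∀ y ∈ P, z * y = y * z := by
    rintro z ⟨z', hz', rfl⟩ y hy
    have h1 : (⟨y, hy⟩ : P) * z' = z' * ⟨y, hy⟩ := mem_center_iff.mp hz' ⟨y, hy⟩
    exact (congrArg Subtype.val h1).symm
  have hsurj := QuotientGroup.mk'_surjective Z
  haveI : (P.map (QuotientGroup.mk' Z)).Normal := Normal.map inferInstance _ hsurj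
  have hcm : (P.map (QuotientGroup.mk' Z)).comap (QuotientGroup.mk' Z) = P := by
    rw [comap_map_eq, QuotientGroup.ker_mk', sup_eq_left.mpr hZP]
  have hcl : closure ({QuotientGroup.mk' Z x₁, QuotientGroup.mk' Z x₂} : Set (S ⧸ Z))
      = (closure ({x₁, x₂} : Set S)).map (QuotientGroup.mk' Z) := by
    rw [MonoidHom.map_closure, Set.image_pair]
  have hcardlt : Nat.card (P.map (QuotientGroup.mk' Z)) < n := by
    have hidx : (P.map (QuotientGroup.mk' Z)).index = P.index := by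
      apply index_map_eq _ hsurj
      rw [QuotientGroup.ker_mk']; exact hZP
    have e1 := card_mul_index (P.map (QuotientGroup.mk' Z))
    have e2 := card_mul_index P
    have e3 := card_eq_card_quotient_mul_card_subgroup Z
    rw [hidx] at e1
    have hi : 0 < P.index := Nat.pos_of_ne_zero index_ne_zero_of_finite
    have h1 : Nat.card (P.map (QuotientGroup.mk' Z)) * Nat.card Z = Nat.card P := by
      apply Nat.eq_of_mul_eq_mul_right hi
      rw [e2, e3, ← e1]; ring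
    have h2 : 1 < Nat.card Z := (one_lt_card_iff_ne_bot Z).mpr hZb
    have h3 : 0 < Nat.card (P.map (QuotientGroup.mk' Z)) := Nat.card_pos
    rw [← hn, ← h1]
    nlinarith
  have hcomm : ∀ a ∈ P, ∀ b ∈ P, Commute x₁ a → Commute x₂ b → a * b * a⁻¹ * b⁻¹ ∈ Z := by
    intro a ha b hb ha1 hb2
    have h1 := ih _ hcardlt (P.map (QuotientGroup.mk' Z)) (QuotientGroup.mk' Z x₁)
      (QuotientGroup.mk' Z x₂) rfl (hP.map _) (hx.map _) ?_ ?_ ?_
      (QuotientGroup.mk' Z a) (mem_map_of_mem _ ha) (QuotientGroup.mk' Z b) (mem_map_of_mem _ hb)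
      (ha1.map _) (hb2.map _)
    · rw [← QuotientGroup.eq_one_iff, ← QuotientGroup.mk'_apply, map_mul, map_mul, map_mul, map_inv,
        map_inv, h1.eq]
      group
    · rw [hcl]
      exact Nat.Coprime.coprime_dvd_left (card_map_dvd _ _)
        (Nat.Coprime.coprime_dvd_right (card_map_dvd _ _) hcop)
    · intro R hRn hRP
      have h2 := hgen (R.comap (QuotientGroup.mk' Z)) (hRn.comap _) (by rw [← hcm]; exact comap_mono hRP)
      have h3 := map_mono (f := QuotientGroup.mk' Z) h2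
      rw [map_comap_eq_self_of_surjective hsurj, Subgroup.map_sup] at h3
      refine h3.trans (sup_le_sup ?_ ?_)
      · rintro _ ⟨y, ⟨hy1, hy2⟩, rfl⟩
        refine ⟨hy1, ?_⟩
        have hy2' := mem_centralizer_singleton_iff.mp hy2
        apply mem_centralizer_singleton_iff.mpr
        rw [← map_mul, ← map_mul, hy2']
      · rintro _ ⟨y, ⟨hy1, hy2⟩, rfl⟩
        refine ⟨hy1, ?_⟩
        have hy2' := mem_centralizer_singleton_iff.mp hy2
        apply mem_centralizer_singleton_iff.mpr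
        rw [← map_mul, ← map_mul, hy2']
    · rintro _ ⟨y, hy, rfl⟩ h1 h2
      have h3 : closure ({x₁, x₂} : Set S) ≤
          (centralizer {QuotientGroup.mk' Z y}).comap (QuotientGroup.mk' Z) := by
        rw [closure_le]
        rintro t (rfl | rfl)
        · show QuotientGroup.mk' Z t ∈ centralizer {QuotientGroup.mk' Z y}
          rw [mem_centralizer_singleton_iff]; exact h1.eq
        · show QuotientGroup.mk' Z t ∈ centralizer {QuotientGroup.mk' Z y}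
          rw [mem_centralizer_singleton_iff]; exact h2.eq
      haveI : Group.IsNilpotent P := hP.isNilpotent
      obtain ⟨c, ⟨hc1, hc2⟩, hc3⟩ := Cfsg.H1.coprime_fixed_quotient (closure ({x₁, x₂} : Set S)) P hcop
        (Or.inr inferInstance) Z hZP (by rw [normalizer_eq_top]; exact le_top)
        (by rw [normalizer_eq_top]; exact le_top) y hy (by
          intro t ht
          have h4 := h3 ht
          have h5 : QuotientGroup.mk' Z t * QuotientGroup.mk' Z y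
              = QuotientGroup.mk' Z y * QuotientGroup.mk' Z t := mem_centralizer_singleton_iff.mp h4
          rw [← QuotientGroup.eq_one_iff, ← QuotientGroup.mk'_apply, map_mul, map_mul, map_mul,
            map_inv, map_inv, h5]
          group)
      have hc4 : c = 1 := by
        apply hfix c hc1
        · exact (mem_centralizer_iff.mp hc2 x₁ (subset_closure (by simp)))
        · exact (mem_centralizer_iff.mp hc2 x₂ (subset_closure (by simp)))
      rw [hc4, mul_one] at hc3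
      have : y ∈ Z := by simpa using Z.inv_mem hc3
      exact (QuotientGroup.eq_one_iff y).mpr this
  have hA := twoFix_stepA P Z x₁ x₂ hx hZc hZP (hgen Z hZn hZP) hfix hcomm a b ha hb ha1 hb2
  have hB := twoFix_stepA P Z x₂ x₁ hx.symm hZc hZP
    (by rw [sup_comm]; exact hgen Z hZn hZP) (fun y hy h1 h2 => hfix y hy h2 h1)
    (fun b hb a ha hb2 ha1 => by
      have := Z.inv_mem (hcomm a ha b hb ha1 hb2)
      have e : (a * b * a⁻¹ * b⁻¹)⁻¹ = b * a * b⁻¹ * a⁻¹ := by group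
      rwa [e] at this) b a hb ha hb2 ha1
  have hB' : Commute x₁ (a * b * a⁻¹ * b⁻¹) := by
    have e : a * b * a⁻¹ * b⁻¹ = (b * a * b⁻¹ * a⁻¹)⁻¹ := by group
    rw [e]; exact hB.inv_right
  have h1 := hfix _ (hZP (hcomm a ha b hb ha1 hb2)) hB' hA
  show a * b = b * a
  calc a * b = (a * b * a⁻¹ * b⁻¹) * (b * a) := by group
    _ = b * a := by rw [h1, one_mul]

end Cfsg.Agent.Lib.Helper22
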