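import Mathlib
import Cfsg.Prelude.Def_LieExceptional
import Cfsg.Agent.H1.Coprime
import Cfsg.Agent.S4252
import Cfsg.Agent.S0035
import Cfsg.Agent.S3383

/-! Zassenhaus groups: the Frobenius kernel of a point stabiliser and normal subgroups. -/

set_option autoImplicit false

namespace Cfsg.Agent.Lib.Helper22

open Subgroup
open scoped Pointwise
open Cfsg.H1 (mem_conj_smul_iff)

theorem frobAction {X Δ : Type*} [Group X] [Finite X] [Finite Δ] [MulAction X Δ]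
    (hΔ : ∃ a b : Δ, a ≠ b) (htrans : ∀ α β : Δ, ∃ g : X, g • α = β)
    (hnreg : ∃ g : X, g ≠ 1 ∧ ∃ α : Δ, g • α = α)
    (hfix : ∀ g : X, g ≠ 1 → ∀ α β : Δ, g • α = α → g • β = β → α = β) :
    ∃ K : Subgroup X, K.Characteristic ∧ (∀ g, g ∈ K ↔ g = 1 ∨ ∀ ω : Δ, g • ω ≠ ω) ∧
      (∀ α β : Δ, ∃ k ∈ K, k • α = β) ∧ ∀ M : Subgroup X, M.Normal → K ≤ M ∨ M ≤ K := by
  classical
  letI : Fintype Δ := Fintype.ofFinite Δ
  obtain ⟨a, b, hab⟩ := hΔ
  have hcard : 1 < Fintype.card Δ := Fintype.one_lt_card_iff.mpr ⟨a, b, hab⟩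
  obtain ⟨hF, hker⟩ := Cfsg.Agent.S4252.result hcard htrans hnreg hfix a
  obtain ⟨K, hK, hKn, hKc⟩ := Cfsg.Agent.S0035.result _ hF
  obtain ⟨hchar, hcomp⟩ := Cfsg.Agent.S3383.result _ hF K hK
  have hmem : ∀ g, g ∈ K ↔ g = 1 ∨ ∀ ω : Δ, g • ω ≠ ω := by
    intro g
    have : g ∈ (K : Set X) ↔ g ∈ {g : X | g = 1 ∨ ∀ ω : Δ, g • ω ≠ ω} := by rw [hK, hker]
    exact this
  refine ⟨K, hchar, hmem, ?_, hcomp⟩
  have h1 : ∀ β, ∃ k ∈ K, k • a = β := by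
    intro β
    obtain ⟨g, hg⟩ := htrans a β
    obtain ⟨⟨k, h⟩, hkh⟩ := hKc.2 g
    refine ⟨k, k.2, ?_⟩
    have e : (k : X) * (h : X) = g := hkh
    rw [← hg, ← e, mul_smul, MulAction.mem_stabilizer_iff.mp h.2]
  intro α β
  obtain ⟨k1, hk1, e1⟩ := h1 α
  obtain ⟨k2, hk2, e2⟩ := h1 β
  exact ⟨k2 * k1⁻¹, K.mul_mem hk2 (K.inv_mem hk1), by rw [mul_smul, ← e1, inv_smul_smul, e2]⟩

theorem exists_smul_ne_of_ne_one {G Ω : Type*} [Group G] [MulAction G Ω] [FaithfulSMul G Ω]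
    {g : G} (hg : g ≠ 1) : ∃ c : Ω, g • c ≠ c := by
  by_contra hcon
  push Not at hcon
  exact hg (FaithfulSMul.eq_of_smul_eq_smul (α := Ω) (fun x => by rw [hcon x, one_smul]))

theorem normal_trans_of_two_trans {G Ω : Type*} [Group G] [MulAction G Ω] [FaithfulSMul G Ω]
    (h2 : ∀ {a b c d : Ω}, a ≠ b → c ≠ d → ∃ g : G, g • a = c ∧ g • b = d)
    (N : Subgroup G) (hN : N.Normal) (hN0 : N ≠ ⊥) (α β : Ω) : ∃ n ∈ N, n • α = β := by
  obtain ⟨n, hn, hn1⟩ := (N.bot_or_exists_ne_one).resolve_left hN0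
  obtain ⟨x, hx⟩ := exists_smul_ne_of_ne_one (Ω := Ω) hn1
  by_cases hαβ : α = β
  · exact ⟨1, N.one_mem, by rw [one_smul, hαβ]⟩
  obtain ⟨g, e1, e2⟩ := h2 (Ne.symm hx) hαβ
  refine ⟨g * n * g⁻¹, hN.conj_mem n hn g, ?_⟩
  rw [mul_smul, mul_smul, ← e1, inv_smul_smul, e2]

theorem zass_kernel {G Ω : Type*} [Group G] [MulAction G Ω] [Finite Ω]
    (hZ : Cfsg.IsZassenhausGroup G Ω) :
    ∃ (a b : Ω) (K : Subgroup G), a ≠ b ∧
      (∀ g, g ∈ K ↔ g • a = a ∧ (g = 1 ∨ ∀ ω, ω ≠ a → g • ω ≠ ω)) ∧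
      (∀ β γ, β ≠ a → γ ≠ a → ∃ k ∈ K, k • β = γ) ∧
      ∀ N : Subgroup G, N.Normal → N ≠ ⊥ →
        K ≤ N ∧ ∃ m ∈ N, m ≠ 1 ∧ m • a = a ∧ ∃ c, c ≠ a ∧ m • c = c := by
  obtain ⟨hfaith, h2, h3, ⟨g0, hg0, a, b, hab, hga, hgb⟩, hnoreg⟩ := hZ
  haveI := hfaith
  haveI : Finite G := Finite.of_injective _ (MulAction.toPerm_injective (α := G) (β := Ω))
  rw [MulAction.is_two_pretransitive_iff] at h2
  obtain ⟨c, hc⟩ := exists_smul_ne_of_ne_one (Ω := Ω) hg0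
  have hca : c ≠ a := fun h => hc (h ▸ hga)
  have hcb : c ≠ b := fun h => hc (h ▸ hgb)
  obtain ⟨K0, hK0char, hK0mem, hK0trans, hK0comp⟩ :=
    frobAction (X := MulAction.stabilizer G a) (Δ := SubMulAction.ofStabilizer G a)
    ⟨⟨b, hab.symm⟩, ⟨c, hca⟩, by intro h; exact hcb (congrArg Subtype.val h).symm⟩
    (by
      rintro ⟨β, hβ⟩ ⟨γ, hγ⟩
      obtain ⟨g, hg1, hg2⟩ := h2 (Ne.symm hβ) (Ne.symm hγ)
      exact ⟨⟨g, hg1⟩, Subtype.ext hg2⟩)
    ⟨⟨g0, hga⟩, by intro h; exact hg0 (congrArg Subtype.val h), ⟨b, hab.symm⟩, Subtype.ext hgb⟩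
    (by
      rintro ⟨g, hg⟩ hg1 ⟨β, hβ⟩ ⟨γ, hγ⟩ e1 e2
      by_contra hne
      apply hg1
      have := h3 g a β γ (Ne.symm hβ) (fun h => hne (Subtype.ext h)) (Ne.symm hγ) hg
        (congrArg Subtype.val e1) (congrArg Subtype.val e2)
      exact Subtype.ext this)
  refine ⟨a, b, K0.map (MulAction.stabilizer G a).subtype, hab, ?_, ?_, ?_⟩
  · intro g
    constructor
    · rintro ⟨⟨g, hg⟩, hk, rfl⟩
      refine ⟨hg, ?_⟩
      rcases (hK0mem _).mp hk with h | h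
      · exact Or.inl (congrArg Subtype.val h)
      · exact Or.inr (fun ω hω e => h ⟨ω, hω⟩ (Subtype.ext e))
    · rintro ⟨hg, h⟩
      refine ⟨⟨g, hg⟩, (hK0mem _).mpr ?_, rfl⟩
      rcases h with h | h
      · exact Or.inl (Subtype.ext h)
      · exact Or.inr (fun ω e => h ω.1 ω.2 (congrArg Subtype.val e))
  · intro β γ hβ hγ
    obtain ⟨k, hk, e⟩ := hK0trans ⟨β, hβ⟩ ⟨γ, hγ⟩
    exact ⟨k.1, ⟨k, hk, rfl⟩, congrArg Subtype.val e⟩
  · intro N hN hN0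
    have hNtrans := normal_trans_of_two_trans (Ω := Ω) h2 N hN hN0
    have hnotle : ¬ (N.subgroupOf (MulAction.stabilizer G a) ≤ K0) := by
      intro hle
      have hNfix : ∀ n ∈ N, n ≠ 1 → ∀ α β : Ω, n • α = α → n • β = β → α = β := by
        intro n hn hn1 α β e1 e2
        by_contra hne
        obtain ⟨g, hg1, hg2⟩ := h2 hne hab
        have h4 : g * n * g⁻¹ ∈ N := hN.conj_mem n hn g
        have h5 : (g * n * g⁻¹) • a = a := by
          rw [mul_smul, mul_smul, ← hg1, inv_smul_smul, e1]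
        have h6 : (g * n * g⁻¹) • b = b := by
          rw [mul_smul, mul_smul, ← hg2, inv_smul_smul, e2]
        have h7 : (⟨g * n * g⁻¹, h5⟩ : MulAction.stabilizer G a) ∈ K0 :=
          hle (mem_subgroupOf.mpr h4)
        rcases (hK0mem _).mp h7 with h8 | h8
        · apply hn1
          have h9 : g * n * g⁻¹ = 1 := congrArg Subtype.val h8
          exact conj_eq_one_iff.mp h9
        · exact h8 ⟨b, hab.symm⟩ (Subtype.ext h6)
      haveI : MulAction.IsPretransitive N Ω :=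
        ⟨fun α β => by obtain ⟨n, hn, e⟩ := hNtrans α β; exact ⟨⟨n, hn⟩, e⟩⟩
      obtain ⟨a', ha'⟩ := hnoreg N hN inferInstance
      obtain ⟨n', hn', hn'1⟩ := (Subgroup.bot_or_exists_ne_one _).resolve_left ha'
      obtain ⟨K1, hK1char, hK1mem, hK1trans, -⟩ := frobAction (X := N) (Δ := Ω) ⟨a, b, hab⟩
        (fun α β => by obtain ⟨n, hn, e⟩ := hNtrans α β; exact ⟨⟨n, hn⟩, e⟩)
        ⟨n', hn'1, a', hn'⟩
        (fun n hn1 α β e1 e2 => hNfix n.1 n.2 (fun h => hn1 (Subtype.ext h)) α β e1 e2)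
      haveI := hK1char
      haveI := hN
      have hR : (K1.map N.subtype).Normal := ConjAct.normal_of_characteristic_of_normal
      haveI : MulAction.IsPretransitive (K1.map N.subtype) Ω :=
        ⟨fun α β => by
          obtain ⟨k, hk, e⟩ := hK1trans α β
          exact ⟨⟨k.1, ⟨k, hk, rfl⟩⟩, e⟩⟩
      obtain ⟨a'', ha''⟩ := hnoreg _ hR inferInstance
      apply ha''
      rw [eq_bot_iff]
      rintro ⟨r, ⟨k, hk, rfl⟩⟩ hr
      rcases (hK1mem k).mp hk with h | h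
      · rw [mem_bot]
        apply Subtype.ext
        show (k : G) = 1
        rw [h]; rfl
      · exact absurd hr (h a'')
    constructor
    · rcases hK0comp (N.subgroupOf (MulAction.stabilizer G a)) inferInstance with h | h
      · rintro x ⟨k, hk, rfl⟩
        exact mem_subgroupOf.mp (h hk)
      · exact absurd h hnotle
    · obtain ⟨x, hx1, hx2⟩ := SetLike.not_le_iff_exists.mp hnotle
      rw [hK0mem] at hx2
      push Not at hx2
      obtain ⟨hx3, ω, hω⟩ := hx2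
      exact ⟨x.1, mem_subgroupOf.mp hx1, fun h => hx3 (Subtype.ext h), x.2, ω.1, ω.2,
        congrArg Subtype.val hω⟩

theorem reg_le {G Ω : Type*} [Group G] [MulAction G Ω] [FaithfulSMul G Ω]
    (h3 : ∀ g : G, ∀ a b c : Ω, a ≠ b → b ≠ c → a ≠ c → g • a = a → g • b = b → g • c = c → g = 1)
    (N R1 R2 : Subgroup G)
    (hN2 : ∀ {a b c d : Ω}, a ≠ b → c ≠ d → ∃ n ∈ N, n • a = c ∧ n • b = d)
    (h1N : R1 ≤ N) (h2N : R2 ≤ N)
    (hn1 : ∀ n ∈ N, ∀ r ∈ R1, n * r * n⁻¹ ∈ R1) (hn2 : ∀ n ∈ N, ∀ r ∈ R2, n * r * n⁻¹ ∈ R2)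
    (ht1 : ∀ α β : Ω, ∃ r ∈ R1, r • α = β) (hs1 : ∀ r ∈ R1, ∀ α : Ω, r • α = α → r = 1)
    (ht2 : ∀ α β : Ω, ∃ r ∈ R2, r • α = β)
    (a b : Ω) (hab : a ≠ b) : R1 ≤ R2 := by
  by_cases h : ∃ x ∈ R1, x ∈ R2 ∧ x ≠ 1
  · obtain ⟨x, hx1, hx2, hx⟩ := h
    intro r hr
    by_cases hr1 : r = 1
    · rw [hr1]; exact one_mem _
    have hxa : x • a ≠ a := fun e => hx (hs1 x hx1 a e)
    have hra : r • a ≠ a := fun e => hr1 (hs1 r hr a e)
    obtain ⟨n, hn, e1, e2⟩ := hN2 (Ne.symm hxa) (Ne.symm hra)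
    have hy1 := hn1 n hn x hx1
    have hy2 := hn2 n hn x hx2
    have e3 : (n * x * n⁻¹) • a = r • a := by
      have e0 : n⁻¹ • a = a := by rw [inv_smul_eq_iff, e1]
      rw [mul_smul, mul_smul, e0, e2]
    have e4 : r⁻¹ * (n * x * n⁻¹) = 1 :=
      hs1 _ (R1.mul_mem (R1.inv_mem hr) hy1) a (by rw [mul_smul, e3, inv_smul_smul])
    have e5 : r = n * x * n⁻¹ := inv_mul_eq_one.mp e4
    rw [e5]; exact hy2
  · exfalso
    push Not at h
    have hcomm : ∀ r1 ∈ R1, ∀ r2 ∈ R2, r1 * r2 = r2 * r1 := by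
      intro r1 h1 r2 h2
      have m1 : r1 * r2 * r1⁻¹ * r2⁻¹ ∈ R1 := by
        have := R1.mul_mem h1 (hn1 r2 (h2N h2) r1⁻¹ (R1.inv_mem h1))
        simpa [mul_assoc] using this
      have m2 : r1 * r2 * r1⁻¹ * r2⁻¹ ∈ R2 := R2.mul_mem (hn2 r1 (h1N h1) r2 h2) (R2.inv_mem h2)
      have e := h _ m1 m2
      rw [mul_inv_eq_one, mul_inv_eq_iff_eq_mul] at e
      exact e
    have key : ∀ r1 ∈ R1, r1 ≠ 1 →
        ∃ d : G, d ≠ 1 ∧ d • a = a ∧ (∀ s ∈ R1, s * r1 = r1 * s → d * s = s * d) := by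
      intro r1 h1 hne
      obtain ⟨r2, h2, e⟩ := ht2 a (r1⁻¹ • a)
      refine ⟨r1 * r2, ?_, by rw [mul_smul, e, smul_inv_smul], ?_⟩
      · intro hd
        have e1 : r1 = r2⁻¹ := eq_inv_of_mul_eq_one_left hd
        exact hne (h r1 h1 (e1 ▸ R2.inv_mem h2))
      · intro s hs hsr
        calc r1 * r2 * s = r1 * (s * r2) := by rw [mul_assoc, hcomm s hs r2 h2]
          _ = s * (r1 * r2) := by rw [← mul_assoc, ← hsr, mul_assoc]
    have hsq : ∀ r ∈ R1, r * r = 1 := by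
      intro r hr
      by_cases hr1 : r = 1
      · simp [hr1]
      obtain ⟨d, hd, hda, hdc⟩ := key r hr hr1
      by_contra hrr
      have e1 : d • (r • a) = r • a := by rw [← mul_smul, hdc r hr rfl, mul_smul, hda]
      have e2 : d • ((r * r) • a) = (r * r) • a := by
        rw [← mul_smul, hdc (r * r) (mul_mem hr hr) (by rw [mul_assoc]), mul_smul, hda]
      apply hd
      apply h3 d a (r • a) ((r * r) • a) _ _ _ hda e1 e2
      · exact fun e => hr1 (hs1 r hr a e.symm)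
      · intro e
        rw [mul_smul] at e
        exact hr1 (hs1 r hr a (smul_left_cancel r e).symm)
      · exact fun e => hrr (hs1 _ (mul_mem hr hr) a e.symm)
    have hinv : ∀ x ∈ R1, x⁻¹ = x := fun x hx => inv_eq_of_mul_eq_one_left (hsq x hx)
    have hab1 : ∀ r ∈ R1, ∀ s ∈ R1, s * r = r * s := by
      intro r hr s hs
      calc s * r = (s * r)⁻¹ := (hinv _ (mul_mem hs hr)).symm
        _ = r⁻¹ * s⁻¹ := mul_inv_rev _ _
        _ = r * s := by rw [hinv r hr, hinv s hs]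
    obtain ⟨r, hr, hra⟩ := ht1 a b
    have hr1 : r ≠ 1 := by
      rintro rfl
      exact hab (by simpa using hra)
    obtain ⟨d, hd, hda, hdc⟩ := key r hr hr1
    apply hd
    apply FaithfulSMul.eq_of_smul_eq_smul (α := Ω)
    intro ω
    obtain ⟨s, hs, rfl⟩ := ht1 a ω
    rw [one_smul, ← mul_smul, hdc s hs (hab1 r hr s hs), mul_smul, hda]

end Cfsg.Agent.Lib.Helper22
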