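import Mathlib
import Cfsg.Agent.Lib.Helper22.Zass1

/-! Zassenhaus groups: non-trivial normal subgroups are Zassenhaus groups. -/

set_option autoImplicit false

namespace Cfsg.Agent.Lib.Helper22

open Subgroup
open scoped Pointwise

theorem zass_normal {G Ω : Type*} [Group G] [MulAction G Ω] [Finite Ω]
    (hZ : Cfsg.IsZassenhausGroup G Ω) (N : Subgroup G) [N.Normal] (hN : N ≠ ⊥) :
    Cfsg.IsZassenhausGroup N Ω := by
  obtain ⟨a, b, K, hab, hKmem, hKtrans, hKN⟩ := Cfsg.Agent.Lib.Helper22.zass_kernel hZ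
  obtain ⟨hKle, m, hmN, hm1, hma, c, hca, hmc⟩ := hKN N inferInstance hN
  obtain ⟨hfaith, h2, h3, -, hnoreg⟩ := hZ
  haveI := hfaith
  rw [MulAction.is_two_pretransitive_iff] at h2
  have hNn : N.Normal := inferInstance
  have hNtrans := Cfsg.Agent.Lib.Helper22.normal_trans_of_two_trans (Ω := Ω) h2 N hNn hN
  have hN2 : ∀ {α β γ δ : Ω}, α ≠ β → γ ≠ δ → ∃ n ∈ N, n • α = γ ∧ n • β = δ := by
    intro α β γ δ h1 h2'
    obtain ⟨n1, hn1, e1⟩ := hNtrans α a
    obtain ⟨n2, hn2, e2⟩ := hNtrans γ a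
    have f1 : n1 • β ≠ a := by
      rw [← e1]; exact fun e => h1 (smul_left_cancel n1 e).symm
    have f2 : n2 • δ ≠ a := by
      rw [← e2]; exact fun e => h2' (smul_left_cancel n2 e).symm
    obtain ⟨k, hk, e3⟩ := hKtrans _ _ f1 f2
    refine ⟨n2⁻¹ * k * n1, mul_mem (mul_mem (inv_mem hn2) (hKle hk)) hn1, ?_, ?_⟩
    · rw [mul_smul, mul_smul, e1, ((hKmem k).mp hk).1, ← e2, inv_smul_smul]
    · rw [mul_smul, mul_smul, e3, inv_smul_smul]
  refine ⟨?_, ?_, ?_, ?_, ?_⟩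
  · exact ⟨fun {x y} h => Subtype.ext (hfaith.eq_of_smul_eq_smul h)⟩
  · rw [MulAction.is_two_pretransitive_iff]
    intro α β γ δ h1 h2'
    obtain ⟨n, hn, e⟩ := hN2 h1 h2'
    exact ⟨⟨n, hn⟩, e⟩
  · intro g α β γ n1 n2 n3 e1 e2 e3
    exact Subtype.ext (h3 g.1 α β γ n1 n2 n3 e1 e2 e3)
  · exact ⟨⟨m, hmN⟩, fun h => hm1 (congrArg Subtype.val h), a, c, hca.symm, hma, hmc⟩
  · intro R hR hRt
    by_contra hcon
    push Not at hcon
    have hRN : R.map N.subtype ≤ N := Subgroup.map_subtype_le _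
    have hRnorm : ∀ n ∈ N, ∀ r ∈ R.map N.subtype, n * r * n⁻¹ ∈ R.map N.subtype := by
      rintro n hn _ ⟨r, hr, rfl⟩
      exact ⟨⟨n, hn⟩ * r * ⟨n, hn⟩⁻¹, hR.conj_mem r hr ⟨n, hn⟩, rfl⟩
    have hRtr : ∀ α β : Ω, ∃ r ∈ R.map N.subtype, r • α = β := by
      intro α β
      obtain ⟨r, hr⟩ := hRt.exists_smul_eq α β
      exact ⟨r.1.1, ⟨r.1, r.2, rfl⟩, hr⟩
    have hRs : ∀ r ∈ R.map N.subtype, ∀ α : Ω, r • α = α → r = 1 := by
      rintro _ ⟨r, hr, rfl⟩ α e
      have h1 : (⟨r, hr⟩ : R) ∈ MulAction.stabilizer R α := e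
      rw [hcon α, Subgroup.mem_bot] at h1
      have h2 : r = 1 := congrArg Subtype.val h1
      rw [h2]; rfl
    have hnormal : (R.map N.subtype).Normal := by
      constructor
      intro r hr g
      have hle : MulAut.conj g • R.map N.subtype ≤ R.map N.subtype := by
        apply Cfsg.Agent.Lib.Helper22.reg_le h3 N _ _ hN2 _ hRN _ hRnorm _ _ hRtr a b hab
        · intro x hx
          rw [Cfsg.H1.mem_conj_smul_iff] at hx
          have := hNn.conj_mem _ (hRN hx) g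
          simpa [mul_assoc] using this
        · intro n hn x hx
          rw [Cfsg.H1.mem_conj_smul_iff] at hx ⊢
          have h1 : g⁻¹ * n * g ∈ N := by
            have := hNn.conj_mem n hn g⁻¹
            simpa using this
          have h2 := hRnorm _ h1 _ hx
          have e : g⁻¹ * (n * x * n⁻¹) * g = g⁻¹ * n * g * (g⁻¹ * x * g) * (g⁻¹ * n * g)⁻¹ := by
            group
          rw [e]; exact h2
        · intro α β
          obtain ⟨r, hr, e⟩ := hRtr (g⁻¹ • α) (g⁻¹ • β)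
          refine ⟨g * r * g⁻¹, ?_, ?_⟩
          · rw [Cfsg.H1.mem_conj_smul_iff]
            have e' : g⁻¹ * (g * r * g⁻¹) * g = r := by group
            rw [e']; exact hr
          · rw [mul_smul, mul_smul, e, smul_inv_smul]
        · intro x hx α e
          rw [Cfsg.H1.mem_conj_smul_iff] at hx
          have h1 := hRs _ hx (g⁻¹ • α) (by rw [mul_smul, mul_smul, smul_inv_smul, e])
          have h2 : x = g * (g⁻¹ * x * g) * g⁻¹ := by group
          rw [h2, h1]; group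
      apply hle
      rw [Cfsg.H1.mem_conj_smul_iff]
      have e' : g⁻¹ * (g * r * g⁻¹) * g = r := by group
      rw [e']; exact hr
    obtain ⟨a', ha'⟩ := hnoreg _ hnormal
      ⟨fun α β => by obtain ⟨r, hr, e⟩ := hRtr α β; exact ⟨⟨r, hr⟩, e⟩⟩
    apply ha'
    rw [eq_bot_iff]
    rintro ⟨r, hr⟩ hr'
    rw [Subgroup.mem_bot]
    exact Subtype.ext (hRs r hr a' hr')

end Cfsg.Agent.Lib.Helper22
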